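import Cfsg.Agent.Lib.CharDegrees.Thompson.Step
import Cfsg.Agent.Lib.CharDegrees.Sourour

/-!
The last block: dimension 3.
-/

set_option autoImplicit false
set_option linter.unusedSectionVars false

namespace CfsgLib.CharDegrees.Thompson

open Polynomial Module

variable {F : Type*} [Field F] {V : Type*} [AddCommGroup V] [Module F V] [FiniteDimensional F V]

/-- Annihilated by `q2 s`, not scalar. -/
def Half2 (s : F) (x : Module.End F V) : Prop :=
  aeval x (q2 s) = 0 ∧ ∃ w : V, ∀ g : F[X], g ≠ 0 → g.natDegree < 2 → aeval x g w ≠ 0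

/-- The admissible Schur complements in dimension 2. -/
def Allowed (s : F) (S : Module.End F V) : Prop :=
  ∃ x y : Module.End F V, S = x * y ∧ Half2 s x ∧ Half2 s y

variable {A : Module.End F V} {v : V} {φ : V →ₗ[F] F}

theorem Fac.base {s : F} (hs : 2 - s ≠ 0) (h : Pivot A v φ) {b : V} {c : V →ₗ[F] F} (hb : φ b ≠ 0)
    (hc : c v ≠ 0) (hal : Allowed s h.compl) : Fac s 1 A b c := by
  obtain ⟨x', y', hS, ⟨hx', wx, hwx⟩, ⟨hy', wy, hwy⟩⟩ := hal
  let x : Module.End F V :=
    φ.smulRight (A v) + (LinearMap.ker φ).subtype ∘ₗ x' ∘ₗ h.proj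
  let y : Module.End F V :=
    (φ + h.row.comp h.proj).smulRight v + (LinearMap.ker φ).subtype ∘ₗ y' ∘ₗ h.proj
  have hx_apply : ∀ z, x z = φ z • A v + (x' (h.proj z) : V) := fun z => rfl
  have hy_apply : ∀ z, y z = (φ z + h.row (h.proj z)) • v + (y' (h.proj z) : V) := fun z => rfl
  have hφx : ∀ z, φ (x z) = φ z := fun z => by
    rw [hx_apply, map_add, map_smul, h.img, show φ (x' (h.proj z) : V) = 0 from (x' _).2]; simp
  have hxW : ∀ (f : F[X]) (w : LinearMap.ker φ), aeval x f (w : V) = (aeval x' f w : V) := by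
    intro f
    induction f using Polynomial.induction_on' with
    | add p q hp hq => intro w; simp [hp, hq]
    | monomial j a =>
      intro w
      simp only [aeval_monomial, Module.End.mul_apply, Module.algebraMap_end_apply, Submodule.coe_smul]
      congr 1
      induction j generalizing w with
      | zero => simp
      | succ j ih =>
        have e : x (w : V) = (x' w : V) := by
          rw [hx_apply, show φ (w : V) = 0 from w.2, h.proj_mem, zero_smul, zero_add]
        rw [pow_succ, pow_succ, Module.End.mul_apply, Module.End.mul_apply, e, ih]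
  have hyP : ∀ (f : F[X]) (z : V), h.proj (aeval y f z) = aeval y' f (h.proj z) := by
    intro f
    induction f using Polynomial.induction_on' with
    | add p q hp hq => intro z; simp [hp, hq]
    | monomial j a =>
      intro z
      simp only [aeval_monomial, Module.End.mul_apply, Module.algebraMap_end_apply, map_smul]
      congr 1
      induction j generalizing z with
      | zero => simp
      | succ j ih =>
        rw [pow_succ, pow_succ, Module.End.mul_apply, Module.End.mul_apply, ih]
        congr 1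
        rw [hy_apply, map_add, map_smul, h.proj_self, smul_zero, zero_add, h.proj_mem]
  have hφf : ∀ (f : F[X]) (z : V), φ (aeval x f z) = f.eval 1 * φ z := by
    intro f
    induction f using Polynomial.induction_on' with
    | add p q hp hq => intro z; simp [hp, hq, add_mul]
    | monomial j a =>
      intro z
      simp only [aeval_monomial, Module.End.mul_apply, Module.algebraMap_end_apply, map_smul,
        eval_monomial, one_pow, mul_one, smul_eq_mul]
      congr 1
      induction j generalizing z with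
      | zero => simp
      | succ j ih => rw [pow_succ, Module.End.mul_apply, ih, hφx]
  have hyv : ∀ (f : F[X]), aeval y f v = f.eval 1 • v := by
    intro f
    induction f using Polynomial.induction_on' with
    | add p q hp hq => simp [hp, hq, add_smul]
    | monomial j a =>
      simp only [aeval_monomial, Module.End.mul_apply, Module.algebraMap_end_apply, eval_monomial,
        one_pow, mul_one]
      congr 1
      induction j with
      | zero => simp
      | succ j ih =>
        have e : y v = v := by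
          simp [hy_apply, h.proj_self, h.one]
        rw [pow_succ, Module.End.mul_apply, e, ih]
  have hxy : A = x * y := by
    refine LinearMap.ext fun z => ?_
    rw [Module.End.mul_apply, hx_apply]
    have e1 : φ (y z) = φ z + h.row (h.proj z) := by
      rw [hy_apply, map_add, map_smul, h.one, show φ (y' (h.proj z) : V) = 0 from (y' _).2]; simp
    have e2 : h.proj (y z) = y' (h.proj z) := by
      rw [hy_apply, map_add, map_smul, h.proj_self, smul_zero, zero_add, h.proj_mem]
    rw [e1, e2, ← Module.End.mul_apply, ← hS, Pivot.coe_compl, Pivot.row_apply]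
    conv_lhs => rw [h.eq_add z, map_add, map_smul]
    module
  have hq1 : (q2 s).eval 1 ≠ 0 := by rwa [q2_eval_one]
  have hpp : pp s 1 = q2 s * (X - 1) := by rw [pp, pow_one, mul_comm]
  have hpp' : pp s 1 = (X - 1) * q2 s := by rw [pp, pow_one]
  have e0 : ((X : F[X]) - 1) ^ (1 - 1) * q2 s = q2 s := by rw [Nat.sub_self, pow_zero, one_mul]
  have hb' : aeval x (q2 s) b ≠ 0 := fun h0 => by
    have := congrArg φ h0
    rw [hφf, map_zero] at this
    exact mul_ne_zero hq1 hb this
  have hc' : c (aeval y (q2 s) v) ≠ 0 := by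
    rw [hyv, map_smul, smul_eq_mul]; exact mul_ne_zero hq1 hc
  have quad : ∀ (x' : Module.End F (LinearMap.ker φ)) (w : LinearMap.ker φ), aeval x' (q2 s) = 0 →
      (∀ g : F[X], g ≠ 0 → g.natDegree < 2 → aeval x' g w ≠ 0) →
      ∀ g : F[X], g ≠ 0 → g.natDegree < 2 → aeval x' (((X : F[X]) - 1) ^ 1 * g) w ≠ 0 := by
    intro x' w hann hw g hg hgd h0
    refine hw g hg hgd ?_
    obtain ⟨α, β, hab⟩ := coprime_X_sub_one_pow (f := q2 s) hq1 1
    have e : g = α * ((X - 1) ^ 1 * g) + β * g * q2 s := by linear_combination (-g) * hab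
    rw [e, map_add, LinearMap.add_apply, aeval_mul_apply x' α, h0, map_zero,
      aeval_eq_zero_of_dvd hann (dvd_mul_left _ _), LinearMap.zero_apply, add_zero]
  refine ⟨x, y, hxy, ⟨?_, Or.inr ⟨b, by rw [e0]; exact hb'⟩, ?_⟩, ⟨?_, Or.inr ⟨v, ?_⟩, ?_⟩, by rw [e0]; exact hb',
    v, by rw [e0]; exact hc'⟩
  · refine LinearMap.ext fun z => ?_
    have hm : φ (aeval x ((X : F[X]) - 1) z) = 0 := by rw [hφf]; simp
    rw [hpp, aeval_mul_apply]
    have := hxW (q2 s) ⟨_, hm⟩
    rw [hx', LinearMap.zero_apply, Submodule.coe_zero] at this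
    exact this
  · exact ⟨(wx : V), fun g hg hgd h0 => quad x' wx hx' hwx g hg hgd (Subtype.ext (by rw [← hxW, h0]; rfl))⟩
  · refine LinearMap.ext fun z => ?_
    have hm : h.proj (aeval y (q2 s) z) = 0 := by rw [hyP, hy']; rfl
    rw [hpp', aeval_mul_apply, h.eq_add (aeval y (q2 s) z), hm, Submodule.coe_zero, add_zero,
      map_smul, hyv]
    simp
  · rw [e0]; exact fun h0 => hc' (by rw [h0, map_zero])
  · refine ⟨(wy : V), fun g hg hgd h0 => quad y' wy hy' hwy g hg hgd ?_⟩
    have := congrArg h.proj h0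
    rwa [hyP, h.proj_mem, map_zero] at this

theorem half2_of_matrix {s : F} (bs : Basis (Fin 2) F V) (X : Matrix (Fin 2) (Fin 2) F)
    (hq : X * X - s • X + 1 = 0) (hns : X 1 0 ≠ 0 ∨ X 0 1 ≠ 0 ∨ X 0 0 ≠ X 1 1) :
    Half2 s (Matrix.toLin bs bs X) := by
  refine ⟨?_, ?_⟩
  · rw [q2, map_add, map_sub, map_mul, map_one, map_pow, aeval_X, aeval_C, pow_two,
      ← Algebra.smul_def]
    have : Matrix.toLin bs bs (X * X - s • X + 1) = 0 := by rw [hq, map_zero]
    rw [map_add, map_sub, map_smul, Matrix.toLin_mul bs bs bs, Matrix.toLin_one] at this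
    exact this
  · set x := Matrix.toLin bs bs X with hx
    have hcol : ∀ j, x (bs j) = X 0 j • bs 0 + X 1 j • bs 1 := fun j => by
      rw [hx, Matrix.toLin_self, Fin.sum_univ_two]
    obtain ⟨w, hw⟩ : ∃ w, ∀ α β : F, α • x w + β • w = 0 → α = 0 ∧ β = 0 := by
      have li : ∀ a c : F, a • bs 0 + c • bs 1 = 0 → a = 0 ∧ c = 0 := fun a c h => by
        have := Fintype.linearIndependent_iff.1 bs.linearIndependent ![a, c]
          (by simpa [Fin.sum_univ_two] using h)
        exact ⟨this 0, this 1⟩
      by_cases h10 : X 1 0 ≠ 0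
      · refine ⟨bs 0, fun α β h => ?_⟩
        rw [hcol] at h
        obtain ⟨h1, h2⟩ := li (α * X 0 0 + β) (α * X 1 0) (by rw [← h]; module)
        have hα := (mul_eq_zero.1 h2).resolve_right h10
        exact ⟨hα, by simpa [hα] using h1⟩
      by_cases h01 : X 0 1 ≠ 0
      · refine ⟨bs 1, fun α β h => ?_⟩
        rw [hcol] at h
        obtain ⟨h1, h2⟩ := li (α * X 0 1) (α * X 1 1 + β) (by rw [← h]; module)
        have hα := (mul_eq_zero.1 h1).resolve_right h01
        exact ⟨hα, by simpa [hα] using h2⟩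
      rw [not_not] at h10 h01
      have hd : X 0 0 ≠ X 1 1 := by
        rcases hns with h | h | h
        · exact absurd h10 h
        · exact absurd h01 h
        · exact h
      refine ⟨bs 0 + bs 1, fun α β h => ?_⟩
      rw [map_add, hcol, hcol, h10, h01] at h
      obtain ⟨h1, h2⟩ := li (α * X 0 0 + β) (α * X 1 1 + β) (by rw [← h]; module)
      have h3 : α * (X 0 0 - X 1 1) = 0 := by linear_combination h1 - h2
      have hα := (mul_eq_zero.1 h3).resolve_right (sub_ne_zero.2 hd)
      exact ⟨hα, by simpa [hα] using h1⟩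
    refine ⟨w, fun g hg hgd h0 => hg ?_⟩
    obtain ⟨α, β, rfl⟩ := exists_eq_X_add_C_of_natDegree_le_one (p := g) (by omega)
    obtain ⟨rfl, rfl⟩ := hw α β (by simpa using h0)
    simp

theorem allowed_of_matrix {s : F} (bs : Basis (Fin 2) F V) {S : Module.End F V}
    (X Y : Matrix (Fin 2) (Fin 2) F) (hS : LinearMap.toMatrix bs bs S = X * Y)
    (hX : X * X - s • X + 1 = 0) (hY : Y * Y - s • Y + 1 = 0)
    (hX' : X 1 0 ≠ 0 ∨ X 0 1 ≠ 0 ∨ X 0 0 ≠ X 1 1) (hY' : Y 1 0 ≠ 0 ∨ Y 0 1 ≠ 0 ∨ Y 0 0 ≠ Y 1 1) :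
    Allowed s S :=
  ⟨Matrix.toLin bs bs X, Matrix.toLin bs bs Y,
    by rw [← Matrix.toLin_toMatrix bs bs S, hS, Matrix.toLin_mul bs bs bs]; rfl,
    half2_of_matrix bs X hX hX', half2_of_matrix bs Y hY hY'⟩

/-- Large fields: any non-scalar complement of determinant one. -/
theorem allowed_of_large {lam mu : F} (hlm : lam * mu = 1) (hne : lam ≠ mu) {S : Module.End F V}
    (hd : finrank F V = 2) (hdet : LinearMap.det S = 1) (hns : ∀ t : F, S ≠ t • 1) :
    Allowed (lam + mu) S := by
  set bs := finBasisOfFinrankEq F V hd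
  set M := LinearMap.toMatrix bs bs S with hM
  have hM' : ∀ c : F, M ≠ c • 1 := fun c h => hns c (by
    apply (LinearMap.toMatrix bs bs).injective
    rw [map_smul, LinearMap.toMatrix_one, ← hM, h])
  obtain ⟨L, U, hL, hU, P, Q, hPQ, hQP, hMLU⟩ := sourour M hM' ![lam, mu] ![mu, lam]
    (fun i => by fin_cases i <;> simp [left_ne_zero_of_mul_eq_one hlm, right_ne_zero_of_mul_eq_one hlm])
    (fun i => by fin_cases i <;> simp [left_ne_zero_of_mul_eq_one hlm, right_ne_zero_of_mul_eq_one hlm])
    (by rw [hM, LinearMap.det_toMatrix, hdet, Fin.prod_univ_two, Fin.prod_univ_two]; simp; linear_combination -(lam * mu + 1) * hlm)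
  have conj_quad : ∀ Z : Matrix (Fin 2) (Fin 2) F, Z * Z - (lam + mu) • Z + 1 = 0 →
      (P * Z * Q) * (P * Z * Q) - (lam + mu) • (P * Z * Q) + 1 = 0 := by
    intro Z hZ
    have e : P * (Z * Z - (lam + mu) • Z + 1) * Q = 0 := by rw [hZ, mul_zero, zero_mul]
    rw [← e, mul_add, add_mul, mul_sub, sub_mul, mul_one, hPQ, Matrix.mul_smul, Matrix.smul_mul]
    congr 2
    simp only [mul_assoc]
    rw [← mul_assoc Q P, hQP, one_mul]
  have nsc : ∀ Z : Matrix (Fin 2) (Fin 2) F, Z 0 0 ≠ Z 1 1 →
      (P * Z * Q) 1 0 ≠ 0 ∨ (P * Z * Q) 0 1 ≠ 0 ∨ (P * Z * Q) 0 0 ≠ (P * Z * Q) 1 1 := by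
    intro Z hZ
    by_contra hcon
    simp only [not_or, not_not] at hcon
    obtain ⟨h1, h2, h3⟩ := hcon
    have e : P * Z * Q = (P * Z * Q) 0 0 • 1 := by
      ext i j; fin_cases i <;> fin_cases j <;> simp [h1, h2, h3]
    have e2 : Z = (P * Z * Q) 0 0 • 1 := by
      have : Q * (P * Z * Q) * P = Z := by
        simp only [mul_assoc]; rw [hQP, mul_one, ← mul_assoc, hQP, one_mul]
      conv_lhs => rw [← this, e]
      rw [Matrix.mul_smul, mul_one, Matrix.smul_mul, hQP]
    exact hZ (by rw [e2]; simp)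
  refine allowed_of_matrix bs (P * L * Q) (P * U * Q) ?_ (conj_quad L ?_) (conj_quad U ?_) (nsc L ?_) (nsc U ?_)
  · rw [← hM, hMLU]; simp only [mul_assoc]; rw [← mul_assoc Q P, hQP, one_mul]
  · have h01 := hL.1 0 1 (by decide)
    have h00 := hL.2 0; have h11 := hL.2 1
    simp at h00 h11
    ext i j; fin_cases i <;> fin_cases j <;>
      simp [Matrix.mul_apply, Fin.sum_univ_two, h01, h00, h11] <;> (first | linear_combination -hlm | ring)
  · have h10 := hU.1 1 0 (by decide)
    have h00 := hU.2 0; have h11 := hU.2 1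
    simp at h00 h11
    ext i j; fin_cases i <;> fin_cases j <;>
      simp [Matrix.mul_apply, Fin.sum_univ_two, h10, h00, h11] <;> (first | linear_combination -hlm | ring)
  · rw [hL.2, hL.2]; simpa using hne
  · rw [hU.2, hU.2]; simpa using Ne.symm hne

end CfsgLib.CharDegrees.Thompson
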