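import Mathlib

/-!
Finite checks over the fields with two and three elements, on natural numbers modulo `p`.
-/

set_option autoImplicit false

namespace CfsgLib.CharDegrees.Thompson.Check

/-- Triples with entries below `p`. -/
def triples (p : ℕ) : List (ℕ × ℕ × ℕ) :=
  (List.range p).flatMap fun x => (List.range p).flatMap fun y => (List.range p).map fun z => (x, y, z)

/-- The dot product modulo `p`. -/
def dot (p : ℕ) (u v : ℕ × ℕ × ℕ) : ℕ := (u.1 * v.1 + u.2.1 * v.2.1 + u.2.2 * v.2.2) % p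

/-- The companion action. -/
def actC (p t s : ℕ) (v : ℕ × ℕ × ℕ) : ℕ × ℕ × ℕ :=
  let d := (s + (p - 1) * t) % p
  ((v.1 + d * v.2.2) % p, (v.1 + v.2.1 + s * v.2.2) % p, (v.2.1 + (1 + t) * v.2.2) % p)

/-- The complement is the scalar `sc`. -/
def scalarC (p t s sc : ℕ) (v f : ℕ × ℕ × ℕ) : Bool :=
  (triples p).all fun w => dot p f w != 0 ||
    (let w' := actC p t s w; let v' := actC p t s v; let e := dot p f w'
     w'.1 == (e * v'.1 + sc * w.1) % p && w'.2.1 == (e * v'.2.1 + sc * w.2.1) % p &&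
       w'.2.2 == (e * v'.2.2 + sc * w.2.2) % p)

/-- The admissible pivots. -/
def valid (p t s : ℕ) : List ((ℕ × ℕ × ℕ) × (ℕ × ℕ × ℕ)) :=
  (triples p).flatMap fun v => ((triples p).filter fun f =>
    dot p f v == 1 && dot p f (actC p t s v) == 1 && (dot p f (actC p t s (actC p t s v)) == t % p || scalarC p t s 1 v f || scalarC p t s (p - 1) v f)).map
      fun f => (v, f)

/-- The pivot check for all non-zero `b`, `c`. -/
def okPivot (p : ℕ) (L : List ((ℕ × ℕ × ℕ) × (ℕ × ℕ × ℕ))) : Bool :=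
  (triples p).all fun b => (triples p).all fun c => b == (0, 0, 0) || c == (0, 0, 0) ||
    L.any fun vf => dot p vf.2 b != 0 && dot p c vf.1 != 0

/-- All companions. -/
def checkPivot (p : ℕ) : Bool :=
  (List.range p).all fun t => (List.range p).all fun s => okPivot p (valid p t s)

theorem checkPivot_two : checkPivot 2 = true := by decide +kernel

theorem checkPivot_three : checkPivot 3 = true := by decide +kernel

theorem mem_triples {p x y z : ℕ} (hx : x < p) (hy : y < p) (hz : z < p) : (x, y, z) ∈ triples p := by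
  simp only [triples, List.mem_flatMap, List.mem_map, List.mem_range]
  exact ⟨x, hx, y, hy, z, hz, rfl⟩

/-- A matrix with the invariant plane. -/
def actP (p : ℕ) (a : ℕ × ℕ × ℕ × ℕ × ℕ) (v : ℕ × ℕ × ℕ) : ℕ × ℕ × ℕ :=
  ((v.1 + a.1 * v.2.1 + a.2.2.1 * v.2.2) % p,
    (v.1 + (1 + a.2.1) * v.2.1 + a.2.2.2.1 * v.2.2) % p, (1 + a.2.2.2.2) * v.2.2 % p)

/-- Linear independence of three vectors. -/
def indep (p : ℕ) (u v w : ℕ × ℕ × ℕ) : Bool :=
  (u.1 * v.2.1 * w.2.2 + v.1 * w.2.1 * u.2.2 + w.1 * u.2.1 * v.2.2) % p !=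
    (u.1 * w.2.1 * v.2.2 + v.1 * u.2.1 * w.2.2 + w.1 * v.2.1 * u.2.2) % p

/-- Cyclic vector or involution. -/
def okPlane (p : ℕ) (a : ℕ × ℕ × ℕ × ℕ × ℕ) : Bool :=
  (1 + a.2.2.2.2) * (1 + a.2.1 + (p - 1) * a.1) % p != 1 ||
    (a.1 == 0 && a.2.2.1 == 0 && a.2.2.2.2 == 0) ||
    ((triples p).any fun g => indep p g (actP p a g) (actP p a (actP p a g))) ||
    ((triples p).all fun g => actP p a (actP p a g) == g)

/-- All such matrices. -/
def checkPlane (p : ℕ) : Bool :=
  (List.range p).all fun a => (List.range p).all fun b => (List.range p).all fun c =>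
    (List.range p).all fun d => (List.range p).all fun e => okPlane p (a, b, c, d, e)

theorem checkPlane_two : checkPlane 2 = true := by decide +kernel

theorem checkPlane_three : checkPlane 3 = true := by decide +kernel

/-- Nonscalar two by two. -/
def nsc (x : ℕ × ℕ × ℕ × ℕ) : Bool := x.2.1 != 0 || x.2.2.1 != 0 || x.1 != x.2.2.2

/-- The left factor inverted times the matrix. -/
def quot (p : ℕ) (x m : ℕ × ℕ × ℕ × ℕ) : ℕ × ℕ × ℕ × ℕ :=
  ((x.2.2.2 * m.1 + (p - 1) * x.2.1 * m.2.2.1) % p, (x.2.2.2 * m.2.1 + (p - 1) * x.2.1 * m.2.2.2) % p,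
    ((p - 1) * x.2.2.1 * m.1 + x.1 * m.2.2.1) % p, ((p - 1) * x.2.2.1 * m.2.1 + x.1 * m.2.2.2) % p)

/-- Quadruples. -/
def quads (p : ℕ) : List (ℕ × ℕ × ℕ × ℕ) :=
  (List.range p).flatMap fun a => (triples p).map fun t => (a, t)

/-- A good factor. -/
def okFactor (p s : ℕ) (m x : ℕ × ℕ × ℕ × ℕ) : Bool :=
  (x.1 + x.2.2.2) % p == s && x.1 * x.2.2.2 % p == (1 + x.2.1 * x.2.2.1) % p && nsc x &&
    ((quot p x m).1 + (quot p x m).2.2.2) % p == s && nsc (quot p x m)

/-- The factorisation check. -/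
def checkFactor (p s : ℕ) : Bool :=
  (quads p).all fun m => m.1 * m.2.2.2 % p != (1 + m.2.1 * m.2.2.1) % p ||
    !((m.1 + m.2.2.2) % p == s || (m.1 == p - 1 && m.2.2.2 == p - 1 && m.2.1 == 0 && m.2.2.1 == 0) ||
      (m.1 == 1 && m.2.2.2 == 1 && m.2.1 == 0 && m.2.2.1 == 0)) ||
    (quads p).any (okFactor p s m)

theorem checkFactor_two : checkFactor 2 1 = true := by decide +kernel

theorem checkFactor_three : checkFactor 3 0 = true := by decide +kernel

theorem mem_quads {p a b c d : ℕ} (ha : a < p) (hb : b < p) (hc : c < p) (hd : d < p) :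
    (a, b, c, d) ∈ quads p := by
  simp only [quads, List.mem_flatMap, List.mem_map, List.mem_range]
  exact ⟨a, ha, (b, c, d), mem_triples hb hc hd, rfl⟩

end CfsgLib.CharDegrees.Thompson.Check
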