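import Mathlib

/-!
Commutators in `SL n F`: endomorphisms with characteristic polynomial `(X-1)^k (X^2 - sX + 1)`
and a cyclic vector.
-/

set_option autoImplicit false
set_option linter.unusedSectionVars false

namespace CfsgLib.CharDegrees.Thompson

open Polynomial Module

variable {F : Type*} [Field F] {V : Type*} [AddCommGroup V] [Module F V]

/-- The quadratic factor. -/
noncomputable def q2 (s : F) : F[X] := X ^ 2 - C s * X + 1

theorem q2_monic (s : F) : (q2 s).Monic := by
  unfold q2; monicity!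

theorem q2_natDegree (s : F) : (q2 s).natDegree = 2 := by
  unfold q2; compute_degree!

theorem q2_eval_one (s : F) : (q2 s).eval 1 = 2 - s := by
  simp [q2]; ring

theorem q2_coeff_zero (s : F) : (q2 s).coeff 0 = 1 := by
  simp [q2, coeff_zero_eq_eval_zero]

/-- The whole polynomial. -/
noncomputable def pp (s : F) (k : ℕ) : F[X] := (X - 1) ^ k * q2 s

theorem X_sub_one_monic : ((X : F[X]) - 1).Monic := by
  rw [← C_1]; exact monic_X_sub_C 1

theorem pp_monic (s : F) (k : ℕ) : (pp s k).Monic :=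
  (X_sub_one_monic.pow k).mul (q2_monic s)

theorem pp_natDegree (s : F) (k : ℕ) : (pp s k).natDegree = k + 2 := by
  rw [pp, (X_sub_one_monic.pow k).natDegree_mul (q2_monic s), natDegree_pow, ← C_1,
    natDegree_X_sub_C, q2_natDegree, mul_one]

theorem pp_coeff_zero (s : F) (k : ℕ) : (pp s k).coeff 0 = (-1) ^ k := by
  rw [pp, mul_coeff_zero, q2_coeff_zero, mul_one, coeff_zero_eq_eval_zero]
  simp

/-- Annihilated by `pp s k`, with witnesses that no proper divisor annihilates it. -/
structure Half (s : F) (k : ℕ) (x : Module.End F V) : Prop where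
  ann : aeval x (pp s k) = 0
  unip : k = 0 ∨ ∃ a : V, aeval x (((X : F[X]) - 1) ^ (k - 1) * q2 s) a ≠ 0
  quad : ∃ w : V, ∀ g : F[X], g ≠ 0 → g.natDegree < 2 → aeval x ((X - 1) ^ k * g) w ≠ 0

theorem aeval_mul_apply (x : Module.End F V) (f g : F[X]) (v : V) :
    aeval x (f * g) v = aeval x f (aeval x g v) := by
  rw [map_mul, Module.End.mul_apply]

theorem aeval_eq_zero_of_dvd {x : Module.End F V} {p f : F[X]} (hp : aeval x p = 0) (h : p ∣ f) :
    aeval x f = 0 := by
  obtain ⟨g, rfl⟩ := h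
  rw [map_mul, hp, zero_mul]

theorem coprime_X_sub_one_pow {f : F[X]} (h : f.eval 1 ≠ 0) (k : ℕ) :
    IsCoprime ((X - 1) ^ k) f := by
  refine IsCoprime.pow_left ?_
  rw [← C_1]
  exact (Polynomial.irreducible_X_sub_C 1).coprime_iff_not_dvd.2 fun hd =>
    h (dvd_iff_isRoot.1 hd)

/-- Existence of a cyclic vector. -/
theorem Half.exists_cyclic {s : F} {k : ℕ} {x : Module.End F V} (h : Half s k x) (hs : 2 - s ≠ 0) :
    ∃ z : V, ∀ f : F[X], aeval x f z = 0 → pp s k ∣ f := by
  obtain ⟨hann, hunip, ⟨w, hw⟩⟩ := h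
  obtain ⟨a, ha⟩ : ∃ a : V, k = 0 ∨ aeval x (((X : F[X]) - 1) ^ (k - 1) * q2 s) a ≠ 0 :=
    hunip.elim (fun h0 => ⟨0, Or.inl h0⟩) fun ⟨a, ha⟩ => ⟨a, Or.inr ha⟩
  set u := aeval x (q2 s) a with hu
  set w' := aeval x (((X : F[X]) - 1) ^ k) w with hw'
  have hq1 : (q2 s).eval 1 ≠ 0 := by rwa [q2_eval_one]
  have hcop : IsCoprime ((X - 1) ^ k) (q2 s) := coprime_X_sub_one_pow hq1 k
  have hu1 : ∀ f : F[X], aeval x f u = 0 → (X - 1) ^ k ∣ f := by
    intro f hf
    by_cases hf0 : f = 0
    · rw [hf0]; exact dvd_zero _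
    obtain ⟨f0, hfe, hnd⟩ := f.exists_eq_pow_rootMultiplicity_mul_and_not_dvd hf0 1
    rw [C_1] at hfe hnd
    set i := f.rootMultiplicity 1
    rcases le_or_gt k i with hik | hik
    · rw [hfe]; exact Dvd.dvd.mul_right (pow_dvd_pow _ hik) _
    exfalso
    have ha := ha.resolve_left (by omega)
    have hev : f0.eval 1 ≠ 0 := fun h0 => hnd (by rw [← C_1]; exact dvd_iff_isRoot.2 h0)
    obtain ⟨A, B, hAB⟩ := coprime_X_sub_one_pow hev k
    apply ha
    have e : (X - 1) ^ (k - 1) * q2 s =
        (X - 1) ^ (k - 1) * A * pp s k + (X - 1) ^ (k - 1 - i) * B * f * q2 s := by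
      have he : (X - 1 : F[X]) ^ (k - 1) = (X - 1) ^ (k - 1 - i) * (X - 1) ^ i := by
        rw [← pow_add]; congr 1; omega
      conv_rhs => rw [hfe, pp]
      linear_combination (-((X - 1) ^ (k - 1) * q2 s)) * hAB + (B * f0 * q2 s) * he
    rw [e, map_add, LinearMap.add_apply, aeval_eq_zero_of_dvd hann (dvd_mul_left _ _),
      LinearMap.zero_apply, zero_add, aeval_mul_apply, aeval_mul_apply]
    rw [← hu, hf, map_zero]
  have hw1 : ∀ f : F[X], aeval x f w' = 0 → q2 s ∣ f := by
    intro f hf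
    rw [← Polynomial.modByMonic_eq_zero_iff_dvd (q2_monic s)]
    by_contra hr
    have hdeg := natDegree_modByMonic_lt f (q2_monic s)
      (fun h1 => by simpa [h1] using q2_natDegree s)
    rw [q2_natDegree] at hdeg
    refine hw _ hr hdeg ?_
    rw [mul_comm, aeval_mul_apply]
    have : aeval x f w' = aeval x (f %ₘ q2 s) w' + aeval x (f /ₘ q2 s) (aeval x (q2 s) w') := by
      conv_lhs => rw [← modByMonic_add_div f (q := q2 s), mul_comm (q2 s)]
      rw [map_add, LinearMap.add_apply, aeval_mul_apply]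
    rw [hf, hw', ← aeval_mul_apply x (q2 s), mul_comm (q2 s), ← show pp s k = (X - 1) ^ k * q2 s from rfl, hann, LinearMap.zero_apply,
      map_zero, add_zero] at this
    exact this.symm
  refine ⟨u + w', fun f hf => ?_⟩
  rw [map_add] at hf
  have h1 : aeval x (f * q2 s) u = 0 := by
    have := congrArg (aeval x (q2 s)) hf
    have h2 : aeval x (q2 s) (aeval x f w') = 0 := by
      rw [hw', ← aeval_mul_apply, ← aeval_mul_apply,
        aeval_eq_zero_of_dvd hann (by rw [pp]; exact ⟨f, by ring⟩)]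
      rfl
    rw [map_add, map_zero, h2, add_zero, ← aeval_mul_apply] at this
    rwa [mul_comm]
  have hdk : (X - 1) ^ k ∣ f := hcop.dvd_of_dvd_mul_right (hu1 _ h1)
  have h3 : aeval x f u = 0 := by
    obtain ⟨g, rfl⟩ := hdk
    rw [hu, ← aeval_mul_apply, aeval_eq_zero_of_dvd hann (by rw [pp]; exact ⟨g, by ring⟩)]
    rfl
  rw [h3, zero_add] at hf
  exact hcop.mul_dvd hdk (hw1 f hf)

variable [FiniteDimensional F V]

theorem surjective_of_cyclic {p : F[X]} (hp : p.Monic) (hd : finrank F V = p.natDegree)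
    {x : Module.End F V} {z : V}
    (hz : ∀ f : F[X], aeval x f z = 0 → p ∣ f) : ∀ v : V, ∃ f : F[X], aeval x f z = v := by
  set n := p.natDegree
  let Φ : (Fin n → F) →ₗ[F] V :=
    ((LinearMap.applyₗ z).comp ((aeval x : F[X] →ₐ[F] Module.End F V).toLinearMap.comp
      ((degreeLT F n).subtype))).comp (degreeLTEquiv F n).symm.toLinearMap
  have hinj : Function.Injective Φ := by
    rw [injective_iff_map_eq_zero]
    intro c hc
    set g := (degreeLTEquiv F n).symm c with hg
    have h1 : p ∣ (g : F[X]) := hz _ hc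
    have h2 : (g : F[X]) = 0 := by
      refine Polynomial.eq_zero_of_dvd_of_degree_lt h1 ?_
      rw [degree_eq_natDegree hp.ne_zero]
      exact Polynomial.mem_degreeLT.1 g.2
    have : g = 0 := Subtype.ext h2
    rw [hg, LinearEquiv.map_eq_zero_iff] at this
    exact this
  have hsurj : Function.Surjective Φ :=
    (LinearMap.injective_iff_surjective_of_finrank_eq_finrank (by rw [finrank_fin_fun, hd])).1 hinj
  intro v
  obtain ⟨c, hc⟩ := hsurj v
  exact ⟨_, hc⟩

/-- Two cyclic endomorphisms with the same annihilating polynomial are similar. -/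
theorem exists_similar {p : F[X]} (hp : p.Monic) (hd : finrank F V = p.natDegree)
    {x y : Module.End F V} (hx : aeval x p = 0) (hy : aeval y p = 0) {z z' : V}
    (hz : ∀ f : F[X], aeval x f z = 0 → p ∣ f) (hz' : ∀ f : F[X], aeval y f z' = 0 → p ∣ f) :
    ∃ T : V ≃ₗ[F] V, ∀ v, T (x v) = y (T v) := by
  choose f hf using surjective_of_cyclic hp hd hz
  have key : ∀ g : F[X], ∀ v, aeval x g z = v → aeval y (f v) z' = aeval y g z' := by
    intro g v hg
    obtain ⟨r, hr⟩ := hz (f v - g) (by rw [map_sub, LinearMap.sub_apply, hf, hg, sub_self])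
    rw [sub_eq_iff_eq_add.1 hr, map_add, LinearMap.add_apply, aeval_eq_zero_of_dvd hy (dvd_mul_right _ _),
      LinearMap.zero_apply, zero_add]
  let T : V →ₗ[F] V :=
    { toFun := fun v => aeval y (f v) z'
      map_add' := fun v w => by
        rw [key (f v + f w) (v + w) (by rw [map_add, LinearMap.add_apply, hf, hf]), map_add,
          LinearMap.add_apply]
      map_smul' := fun c v => by
        rw [key (c • f v) (c • v) (by rw [map_smul, LinearMap.smul_apply, hf]), map_smul,
          LinearMap.smul_apply]; rfl }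
  have hinj : Function.Injective T := by
    rw [injective_iff_map_eq_zero]
    intro v hv
    rw [← hf v, aeval_eq_zero_of_dvd hx (hz' _ hv), LinearMap.zero_apply]
  refine ⟨LinearEquiv.ofBijective T ⟨hinj, LinearMap.injective_iff_surjective.1 hinj⟩, fun v => ?_⟩
  show aeval y (f (x v)) z' = y (aeval y (f v) z')
  rw [key (X * f v) (x v) (by rw [aeval_mul_apply, hf, aeval_X]), aeval_mul_apply, aeval_X]

theorem charpoly_of_cyclic {p : F[X]} (hp : p.Monic) (hd : finrank F V = p.natDegree)
    {x : Module.End F V} {z : V}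
    (hz : ∀ f : F[X], aeval x f z = 0 → p ∣ f) : x.charpoly = p :=
  (Polynomial.eq_of_monic_of_dvd_of_natDegree_le hp (LinearMap.charpoly_monic x)
    (hz _ (by rw [LinearMap.aeval_self_charpoly, LinearMap.zero_apply]))
    (by rw [LinearMap.charpoly_natDegree, hd]))

theorem det_eq_charpoly_coeff (x : Module.End F V) :
    LinearMap.det x = (-1) ^ finrank F V * x.charpoly.coeff 0 := by
  rw [← LinearMap.det_toMatrix (Module.finBasis F V), Matrix.det_eq_sign_charpoly_coeff,
    Fintype.card_fin, LinearMap.charpoly_toMatrix]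

theorem Half.charpoly {s : F} {k : ℕ} {x : Module.End F V} (h : Half s k x) (hs : 2 - s ≠ 0)
    (hd : finrank F V = k + 2) : x.charpoly = pp s k := by
  obtain ⟨z, hz⟩ := h.exists_cyclic hs
  exact charpoly_of_cyclic (pp_monic s k) (by rw [hd, pp_natDegree]) hz

theorem Half.det {s : F} {k : ℕ} {x : Module.End F V} (h : Half s k x) (hs : 2 - s ≠ 0)
    (hd : finrank F V = k + 2) : LinearMap.det x = 1 := by
  rw [det_eq_charpoly_coeff, h.charpoly hs hd, pp_coeff_zero, hd, ← pow_add]
  exact Even.neg_one_pow ⟨k + 1, by ring⟩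

/-- The inverse satisfies the same conditions. -/
theorem Half.inv {s : F} {k : ℕ} {x x' : Module.End F V} (h : Half s k x) (h1 : x * x' = 1)
    (h2 : x' * x = 1) : Half s k x' := by
  have hc : Commute x x' := h1.trans h2.symm
  have e1 : aeval x' (X - 1 : F[X]) = -x' * aeval x (X - 1 : F[X]) := by
    rw [map_sub, map_sub, map_one, map_one, aeval_X, aeval_X, neg_mul, mul_sub, h2, mul_one, neg_sub]
  have e2 : aeval x' (q2 s) = x' ^ 2 * aeval x (q2 s) := by
    simp only [q2, map_add, map_sub, map_mul, map_pow, map_one, aeval_X, aeval_C, pow_two]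
    rw [mul_add, mul_sub, mul_one]
    have a1 : x' * x' * (x * x) = 1 := by
      rw [mul_assoc x' x', ← mul_assoc x' x x, h2, one_mul, h2]
    have a2 : x' * x' * (algebraMap F (Module.End F V) s * x) = algebraMap F (Module.End F V) s * x' := by
      rw [← mul_assoc, ← Algebra.commutes s (x' * x'), mul_assoc, mul_assoc x' x' x, h2, mul_one]
    rw [a1, a2]; abel
  have e3 : ∀ j : ℕ, aeval x' ((X - 1) ^ j : F[X]) = (-x') ^ j * aeval x ((X - 1) ^ j : F[X]) := by
    intro j
    rw [map_pow, map_pow, e1, Commute.mul_pow]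
    rw [map_sub, map_one, aeval_X]
    exact (hc.symm.sub_right (Commute.one_right _)).neg_left
  have hu : IsUnit x' := ⟨⟨x', x, h2, h1⟩, rfl⟩
  have hinj : ∀ (u : Module.End F V), IsUnit u → ∀ v, v ≠ 0 → u v ≠ 0 := fun u hu v hv h0 => by
    obtain ⟨⟨u, u', h', h''⟩, rfl⟩ := hu
    refine hv ?_
    have e := LinearMap.congr_fun h'' v
    simp only [Module.End.mul_apply, Module.End.one_apply] at e
    rw [← e]
    exact (congrArg u' h0).trans (map_zero u')
  have e4 : ∀ j, aeval x' ((X - 1) ^ j * q2 s) =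
      ((-x') ^ j * x' ^ 2) * aeval x ((X - 1) ^ j * q2 s) := by
    intro j
    have hcm : Commute (aeval x ((X - 1) ^ j : F[X])) (x' ^ 2) := by
      have : aeval x ((X - 1) ^ j : F[X]) = (x - 1) ^ j := by simp
      rw [this]
      exact ((hc.sub_left (Commute.one_left _)).pow_left _).pow_right _
    rw [map_mul, map_mul, e3, e2, mul_assoc, ← mul_assoc (aeval x _), hcm.eq]
    simp only [mul_assoc]
  obtain ⟨hann, hunip, ⟨w, hw⟩⟩ := h
  have hun : k = 0 ∨ ∃ a : V, aeval x' (((X : F[X]) - 1) ^ (k - 1) * q2 s) a ≠ 0 := by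
    rcases hunip with h0 | ⟨a, ha⟩
    · exact Or.inl h0
    · refine Or.inr ⟨a, ?_⟩
      rw [e4, Module.End.mul_apply]
      exact hinj _ ((hu.neg.pow _).mul (hu.pow _)) _ ha
  refine ⟨?_, hun, ⟨w, fun g hg hgd => ?_⟩⟩
  · rw [pp, e4, ← pp, hann, mul_zero]
  · obtain ⟨α, β, rfl⟩ := exists_eq_X_add_C_of_natDegree_le_one (p := g) (by omega)
    have e5 : aeval x' (C α * X + C β) = x' * aeval x (C β * X + C α) := by
      simp only [map_add, map_mul, aeval_C, aeval_X, mul_add, ← mul_assoc, ← Algebra.commutes]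
      rw [mul_assoc (algebraMap F (Module.End F V) β), h2, mul_one, add_comm]
    have hcm : Commute (aeval x ((X - 1) ^ k : F[X])) x' := by
      have : aeval x ((X - 1) ^ k : F[X]) = (x - 1) ^ k := by simp
      rw [this]
      exact (hc.sub_left (Commute.one_left _)).pow_left _
    rw [map_mul, e3, e5, mul_assoc, ← mul_assoc (aeval x _), hcm.eq, mul_assoc, ← map_mul,
      ← mul_assoc, Module.End.mul_apply]
    refine hinj _ ((hu.neg.pow _).mul hu) _ (hw _ (fun h0 => hg ?_) (by
      calc _ ≤ 1 := natDegree_linear_le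
        _ < 2 := one_lt_two))
    have c1 := congrArg (fun q : F[X] => q.coeff 1) h0
    have c0 := congrArg (fun q : F[X] => q.coeff 0) h0
    simp at c1 c0
    simp [c1, c0]

end CfsgLib.CharDegrees.Thompson
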