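import Cfsg.Agent.Lib.CharDegrees.Thompson.Cyclic

/-!
One step of the triangular factorisation.
-/

set_option autoImplicit false
set_option linter.unusedSectionVars false

namespace CfsgLib.CharDegrees.Thompson

open Polynomial Module

variable {F : Type*} [Field F] {V : Type*} [AddCommGroup V] [Module F V]

/-- A triangular factorisation of `A`, linked to the column `b` and the row `c`. -/
def Fac (s : F) (k : ℕ) (A : Module.End F V) (b : V) (c : V →ₗ[F] F) : Prop :=
  ∃ x y : Module.End F V, A = x * y ∧ Half s k x ∧ Half s k y ∧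
    aeval x (((X : F[X]) - 1) ^ (k - 1) * q2 s) b ≠ 0 ∧
    ∃ z, c (aeval y (((X : F[X]) - 1) ^ (k - 1) * q2 s) z) ≠ 0

/-- A choice of the first basis vector and of a complement. -/
structure Pivot (A : Module.End F V) (v : V) (φ : V →ₗ[F] F) : Prop where
  one : φ v = 1
  img : φ (A v) = 1

variable {A : Module.End F V} {v : V} {φ : V →ₗ[F] F}

/-- The projection along `v`. -/
def Pivot.proj (h : Pivot A v φ) : V →ₗ[F] LinearMap.ker φ where
  toFun z := ⟨z - φ z • v, by simp [h.one]⟩
  map_add' a b := by ext; simp [add_smul]; abel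
  map_smul' c a := by ext; simp [smul_sub, mul_smul]

theorem Pivot.coe_proj (h : Pivot A v φ) (z : V) : (h.proj z : V) = z - φ z • v := rfl

theorem Pivot.proj_mem (h : Pivot A v φ) (w : LinearMap.ker φ) : h.proj (w : V) = w := by
  ext; simp [Pivot.coe_proj, show φ (w : V) = 0 from w.2]

theorem Pivot.proj_self (h : Pivot A v φ) : h.proj v = 0 := by
  ext; simp [Pivot.coe_proj, h.one]

theorem Pivot.eq_add (h : Pivot A v φ) (z : V) : z = φ z • v + (h.proj z : V) := by
  rw [Pivot.coe_proj]; abel

/-- The column. -/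
def Pivot.col (h : Pivot A v φ) : LinearMap.ker φ := ⟨A v - v, by simp [h.one, h.img]⟩

theorem Pivot.coe_col (h : Pivot A v φ) : (h.col : V) = A v - v := rfl

/-- The row. -/
def Pivot.row (_h : Pivot A v φ) : LinearMap.ker φ →ₗ[F] F := (φ.comp A).comp (LinearMap.ker φ).subtype

theorem Pivot.row_apply (h : Pivot A v φ) (w : LinearMap.ker φ) : h.row w = φ (A (w : V)) := rfl

/-- The Schur complement. -/
def Pivot.compl (h : Pivot A v φ) : Module.End F (LinearMap.ker φ) where
  toFun w := ⟨A (w : V) - φ (A (w : V)) • A v, by simp [h.img]⟩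
  map_add' a b := by ext; simp [add_smul]; abel
  map_smul' c a := by ext; simp [smul_sub, mul_smul]

theorem Pivot.coe_compl (h : Pivot A v φ) (w : LinearMap.ker φ) :
    (h.compl w : V) = A (w : V) - φ (A (w : V)) • A v := rfl

theorem Pivot.finrank_ker [FiniteDimensional F V] (h : Pivot A v φ) :
    finrank F (LinearMap.ker φ) + 1 = finrank F V := by
  have hs : Function.Surjective φ := fun t => ⟨t • v, by simp [h.one]⟩
  have := LinearMap.finrank_range_add_finrank_ker φ
  rw [LinearMap.range_eq_top.2 hs, finrank_top, finrank_self] at this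
  omega

theorem Pivot.det_compl [FiniteDimensional F V] (h : Pivot A v φ) :
    LinearMap.det h.compl = LinearMap.det A := by
  let e : V ≃ₗ[F] F × LinearMap.ker φ :=
    { toFun := fun z => (φ z, h.proj z)
      invFun := fun p => p.1 • v + (p.2 : V)
      map_add' := fun a b => by simp
      map_smul' := fun c a => by simp
      left_inv := fun z => (h.eq_add z).symm
      right_inv := fun p => by
        refine Prod.ext ?_ ?_
        · simp [h.one]
        · simp [h.proj_self, h.proj_mem] }
  set D : Module.End F V := e.symm.toLinearMap ∘ₗ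
    (LinearMap.prodMap (LinearMap.id : F →ₗ[F] F) h.compl) ∘ₗ e.toLinearMap with hD
  have hdD : LinearMap.det D = LinearMap.det h.compl := by
    have h1 := LinearMap.det_conj (LinearMap.prodMap (LinearMap.id : F →ₗ[F] F) h.compl) e.symm
    rw [LinearEquiv.symm_symm] at h1
    rw [hD, h1, LinearMap.det_prodMap, LinearMap.det_id, one_mul]
  have hX : LinearMap.det (LinearMap.transvection φ (h.col : V)) = 1 := by
    rw [LinearMap.transvection.det, show φ (h.col : V) = 0 from h.col.2, add_zero]
  have hY : LinearMap.det (LinearMap.transvection (h.row.comp h.proj) v) = 1 := by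
    rw [LinearMap.transvection.det, LinearMap.comp_apply, h.proj_self, map_zero, add_zero]
  have hA : A = LinearMap.transvection φ (h.col : V) * D * LinearMap.transvection (h.row.comp h.proj) v := by
    refine LinearMap.ext fun z => ?_
    have e1 : φ (LinearMap.transvection (h.row.comp h.proj) v z) = φ z + φ (A (h.proj z : V)) := by
      simp [LinearMap.transvection.apply, h.one, Pivot.row_apply]
    have e2 : h.proj (LinearMap.transvection (h.row.comp h.proj) v z) = h.proj z := by
      simp [LinearMap.transvection.apply, h.proj_self]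
    simp only [Module.End.mul_apply, hD, LinearMap.comp_apply, LinearEquiv.coe_coe]
    simp only [e, LinearEquiv.coe_mk, LinearMap.coe_mk, AddHom.coe_mk, LinearEquiv.coe_symm_mk,
      LinearMap.prodMap_apply, e1, e2, LinearMap.id_apply]
    rw [LinearMap.transvection.apply]
    have e3 : φ (h.compl (h.proj z) : V) = 0 := (h.compl (h.proj z)).2
    simp only [map_add, map_smul, h.one, e3, smul_eq_mul, mul_one, add_zero]
    simp only [Pivot.coe_compl, Pivot.coe_col]
    conv_lhs => rw [h.eq_add z, map_add, map_smul]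
    module
  conv_rhs => rw [hA]
  rw [map_mul, map_mul, hX, hY, hdD, one_mul, mul_one]

theorem exists_quad_succ {s : F} {k : ℕ} {x : Module.End F V} (hs : 2 - s ≠ 0) (hh : Half s k x) :
    ∃ w : V, ∀ g : F[X], g ≠ 0 → g.natDegree < 2 → aeval x ((X - 1) ^ (k + 1) * g) w ≠ 0 := by
  obtain ⟨hann, -, ⟨w, hw⟩⟩ := hh
  refine ⟨w, fun g hg hgd h0 => hw g hg hgd ?_⟩
  obtain ⟨α, β, hab⟩ := coprime_X_sub_one_pow (f := q2 s) (by rwa [q2_eval_one]) 1
  have e : (X - 1) ^ k * g = α * ((X - 1) ^ (k + 1) * g) + β * g * pp s k := by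
    rw [pp]; linear_combination (-((X - 1) ^ k * g)) * hab
  rw [e, map_add, LinearMap.add_apply, aeval_mul_apply x α, h0, map_zero,
    aeval_eq_zero_of_dvd hann (dvd_mul_left _ _), LinearMap.zero_apply, add_zero]

/-- The extension step. -/
theorem Fac.extend [FiniteDimensional F V] {s : F} {k : ℕ} (hs : 2 - s ≠ 0) (hk : 1 ≤ k)
    (h : Pivot A v φ) {b : V} {c : V →ₗ[F] F} (hb : φ b ≠ 0) (hc : c v ≠ 0)
    (hfac : Fac s k h.compl h.col h.row) : Fac s (k + 1) A b c := by
  obtain ⟨x', y', hS, hx', hy', hxb, z0, hz0⟩ := hfac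
  let x : Module.End F V :=
    φ.smulRight (A v) + (LinearMap.ker φ).subtype ∘ₗ x' ∘ₗ h.proj
  let y : Module.End F V :=
    (φ + h.row.comp h.proj).smulRight v + (LinearMap.ker φ).subtype ∘ₗ y' ∘ₗ h.proj
  have hx_apply : ∀ z, x z = φ z • A v + (x' (h.proj z) : V) := fun z => rfl
  have hy_apply : ∀ z, y z = (φ z + h.row (h.proj z)) • v + (y' (h.proj z) : V) := fun z => rfl
  have hφx : ∀ z, φ (x z) = φ z := fun z => by
    rw [hx_apply, map_add, map_smul, h.img, show φ (x' (h.proj z) : V) = 0 from (x' _).2]; simp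
  have hxW : ∀ (f : F[X]) (w : LinearMap.ker φ), aeval x f (w : V) = (aeval x' f w : V) := by
    intro f
    induction f using Polynomial.induction_on' with
    | add p q hp hq => intro w; simp [hp, hq]
    | monomial j a =>
      intro w
      simp only [aeval_monomial, Module.End.mul_apply, Module.algebraMap_end_apply, Submodule.coe_smul]
      congr 1
      induction j generalizing w with
      | zero => simp
      | succ j ih =>
        have e : x (w : V) = (x' w : V) := by
          rw [hx_apply, show φ (w : V) = 0 from w.2, h.proj_mem, zero_smul, zero_add]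
        rw [pow_succ, pow_succ, Module.End.mul_apply, Module.End.mul_apply, e, ih]
  have hyP : ∀ (f : F[X]) (z : V), h.proj (aeval y f z) = aeval y' f (h.proj z) := by
    intro f
    induction f using Polynomial.induction_on' with
    | add p q hp hq => intro z; simp [hp, hq]
    | monomial j a =>
      intro z
      simp only [aeval_monomial, Module.End.mul_apply, Module.algebraMap_end_apply, map_smul]
      congr 1
      induction j generalizing z with
      | zero => simp
      | succ j ih =>
        rw [pow_succ, pow_succ, Module.End.mul_apply, Module.End.mul_apply, ih]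
        congr 1
        rw [hy_apply, map_add, map_smul, h.proj_self, smul_zero, zero_add, h.proj_mem]
  have hxy : A = x * y := by
    refine LinearMap.ext fun z => ?_
    rw [Module.End.mul_apply, hx_apply]
    have e1 : φ (y z) = φ z + h.row (h.proj z) := by
      rw [hy_apply, map_add, map_smul, h.one, show φ (y' (h.proj z) : V) = 0 from (y' _).2]; simp
    have e2 : h.proj (y z) = y' (h.proj z) := by
      rw [hy_apply, map_add, map_smul, h.proj_self, smul_zero, zero_add, h.proj_mem]
    rw [e1, e2, ← Module.End.mul_apply, ← hS, Pivot.coe_compl, Pivot.row_apply]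
    conv_lhs => rw [h.eq_add z, map_add, map_smul]
    module
  have hx1 : ∀ z, aeval x ((X : F[X]) - 1) z = ((φ z • h.col + (x' (h.proj z) - h.proj z) : LinearMap.ker φ) : V) := by
    intro z
    rw [map_sub, map_one, aeval_X, LinearMap.sub_apply, Module.End.one_apply, hx_apply]
    simp only [Submodule.coe_add, Submodule.coe_smul, AddSubgroupClass.coe_sub, Pivot.coe_col, Pivot.coe_proj]
    module
  have hy1 : ∀ z, aeval y ((X : F[X]) - 1) z = h.row (h.proj z) • v + ((y' (h.proj z) - h.proj z : LinearMap.ker φ) : V) := by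
    intro z
    rw [map_sub, map_one, aeval_X, LinearMap.sub_apply, Module.End.one_apply, hy_apply]
    simp only [AddSubgroupClass.coe_sub, Pivot.coe_proj]
    module
  have hk1 : (X : F[X]) - 1 = (X - 1) ^ 1 := (pow_one _).symm
  have hsplit : ((X : F[X]) - 1) ^ (k + 1 - 1) * q2 s = ((X - 1) ^ (k - 1) * q2 s) * (X - 1) := by
    rw [show k + 1 - 1 = (k - 1) + 1 from by omega, pow_succ]; ring
  have hsub : ∀ (g : F[X]) (z : LinearMap.ker φ), aeval x' (g * (X - 1)) z = aeval x' g (x' z - z) := fun g z => by
    rw [aeval_mul_apply]; simp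
  have hsub' : ∀ (g : F[X]) (z : LinearMap.ker φ), aeval y' (g * (X - 1)) z = aeval y' g (y' z - z) := fun g z => by
    rw [aeval_mul_apply]; simp
  have hxb' : aeval x (((X : F[X]) - 1) ^ (k + 1 - 1) * q2 s) b ≠ 0 := by
    rw [hsplit, aeval_mul_apply, hx1, hxW, map_add, map_smul, ← hsub, ← hsplit,
      show k + 1 - 1 = k from Nat.add_sub_cancel k 1, ← show pp s k = (X - 1) ^ k * q2 s from rfl, hx'.ann,
      LinearMap.zero_apply, add_zero, Submodule.coe_smul]
    exact smul_ne_zero hb fun h0 => hxb (Subtype.ext h0)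
  have hyc : c (aeval y (((X : F[X]) - 1) ^ (k + 1 - 1) * q2 s) (z0 : V)) ≠ 0 := by
    rw [hsplit, mul_comm, aeval_mul_apply, hy1, hyP, h.proj_mem]
    have h0 : y' (aeval y' (((X : F[X]) - 1) ^ (k - 1) * q2 s) z0) -
        aeval y' (((X : F[X]) - 1) ^ (k - 1) * q2 s) z0 = 0 := by
      have : aeval y' ((X - 1) * (((X : F[X]) - 1) ^ (k - 1) * q2 s)) z0 = 0 := by
        rw [← mul_assoc, ← pow_succ', show k - 1 + 1 = k from by omega, ← show pp s k = (X - 1) ^ k * q2 s from rfl,
          hy'.ann, LinearMap.zero_apply]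
      rw [aeval_mul_apply] at this
      simpa using this
    rw [h0, Submodule.coe_zero, add_zero, map_smul, smul_eq_mul]
    exact mul_ne_zero hz0 hc
  refine ⟨x, y, hxy, ⟨?_, Or.inr ⟨b, hxb'⟩, ?_⟩, ⟨?_, Or.inr ⟨(z0 : V), ?_⟩, ?_⟩, hxb', (z0 : V), hyc⟩
  · refine LinearMap.ext fun z => ?_
    rw [show pp s (k + 1) = pp s k * (X - 1) by rw [pp, pp, pow_succ]; ring, aeval_mul_apply, hx1, hxW,
      hx'.ann]
    rfl
  · obtain ⟨w, hw⟩ := exists_quad_succ hs hx'
    exact ⟨(w : V), fun g hg hgd h0 => hw g hg hgd (Subtype.ext (by rw [← hxW, h0]; rfl))⟩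
  · refine LinearMap.ext fun z => ?_
    rw [show pp s (k + 1) = (X - 1) * pp s k by rw [pp, pp, pow_succ]; ring, aeval_mul_apply, hy1, hyP,
      hy'.ann]
    simp
  · exact fun h0 => hyc (by rw [h0, map_zero])
  · obtain ⟨w, hw⟩ := exists_quad_succ hs hy'
    refine ⟨(w : V), fun g hg hgd h0 => hw g hg hgd ?_⟩
    have := congrArg h.proj h0
    rwa [hyP, h.proj_mem, map_zero] at this

end CfsgLib.CharDegrees.Thompson
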