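import Cfsg.Agent.Lib.CharDegrees.Thompson.Small

/-!
The recursion and the commutator.
-/

set_option autoImplicit false
set_option linter.unusedSectionVars false

namespace CfsgLib.CharDegrees.Thompson

open Polynomial Module

universe u v

variable {F : Type u} [Field F]

theorem exists_not_mem₃' {V : Type v} [AddCommGroup V] [Module F V] {τ : F} (h0 : τ ≠ 0) (h1 : τ ≠ 1)
    {H₁ H₂ H₃ : Submodule F V} (e₁ : H₁ ≠ ⊤) (e₂ : H₂ ≠ ⊤) (e₃ : H₃ ≠ ⊤) :
    ∃ x, x ∉ H₁ ∧ x ∉ H₂ ∧ x ∉ H₃ := by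
  obtain ⟨x, hx1, hx2⟩ := exists_not_mem₂ e₁ e₂
  by_cases hx3 : x ∈ H₃
  swap
  · exact ⟨x, hx1, hx2, hx3⟩
  obtain ⟨y, -, hy⟩ := SetLike.exists_of_lt e₃.lt_top
  by_contra hcon
  simp only [not_exists, not_and, not_not] at hcon
  have h3 : ∀ t : F, y + t • x ∈ H₁ ∨ y + t • x ∈ H₂ := by
    intro t
    by_contra h
    rw [not_or] at h
    exact hy (by simpa using sub_mem (hcon _ h.1 h.2) (Submodule.smul_mem _ t hx3))
  have key : ∀ (H : Submodule F V), x ∉ H → ∀ s t : F, y + s • x ∈ H → y + t • x ∈ H → s = t := by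
    intro H hH s t hs ht
    by_contra hne
    refine hH ?_
    rw [← inv_smul_smul₀ (sub_ne_zero.2 hne) x, show (s - t) • x = (y + s • x) - (y + t • x) by module]
    exact Submodule.smul_mem _ _ (sub_mem hs ht)
  rcases h3 0 with a | a <;> rcases h3 1 with b | b <;> rcases h3 τ with c | c <;>
    first
      | exact zero_ne_one (key _ hx1 _ _ a b)
      | exact zero_ne_one (key _ hx2 _ _ a b)
      | exact h0 (key _ hx1 _ _ c a)
      | exact h0 (key _ hx2 _ _ c a)
      | exact h1 (key _ hx1 _ _ c b)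
      | exact h1 (key _ hx2 _ _ c b)

theorem exists_noneigen₃ {V : Type v} [AddCommGroup V] [Module F V] [FiniteDimensional F V] {τ : F}
    (hτ0 : τ ≠ 0) (hτ1 : τ ≠ 1) {A : Module.End F V} (hns : ∀ t : F, A ≠ t • 1) (hK : ker1 A = ⊥)
    (hm : finrank F V = 3) {b : V} {c : V →ₗ[F] F} (hc : c ≠ 0) :
    ∃ v, c v ≠ 0 ∧ A v - v ∉ F ∙ v ∧ v ∉ (F ∙ b).comap (A - 1) := by
  set N : Module.End F V := A - 1 with hN
  have hNv : ∀ z, N z = A z - z := fun z => by simp [hN]
  set P := (F ∙ b).comap N with hP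
  have hPd : finrank F P ≤ 1 := by
    refine (finrank_comap_le (A := A) (F ∙ b)).trans ?_
    rw [hK, finrank_bot, zero_add]
    simpa using finrank_span_le_card (R := F) ({b} : Set V)
  obtain ⟨H, hPH, hHd⟩ := exists_hyperplane (show P ≠ ⊤ from fun h => by rw [h, finrank_top] at hPd; omega)
  obtain ⟨H₁, hcH, hH₁d⟩ := exists_hyperplane (ker_ne_top hc)
  have htop : ∀ G : Submodule F V, finrank F G + 1 = finrank F V → G ≠ ⊤ := fun G h he => by
    rw [he, finrank_top] at h; omega
  by_contra hcon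
  simp only [not_exists, not_and, not_not] at hcon
  have heig : ∀ z, z ∉ H₁ → z ∉ H → ∃ t : F, N z = t • z := by
    intro z h1 h2
    by_contra hne
    simp only [not_exists] at hne
    refine (fun hz => h2 (hPH hz)) (hcon z (fun h => h1 (hcH h)) fun hm => ?_)
    obtain ⟨t, ht⟩ := Submodule.mem_span_singleton.1 hm
    exact hne t (by rw [hNv, ht])
  obtain ⟨x, hx1, hx2⟩ := exists_not_mem₂ (htop _ hH₁d) (htop _ hHd)
  obtain ⟨μ, hμ⟩ := heig x hx1 hx2
  have hDd : 1 ≤ finrank F (H₁ ⊓ H : Submodule F V) := by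
    have h4 := Submodule.finrank_sup_add_finrank_inf_eq H₁ H
    have h5 := Submodule.finrank_le (H₁ ⊔ H)
    omega
  have hxD : x ∉ H₁ ⊓ H := fun h => hx1 h.1
  have heig' : ∀ h ∈ H₁ ⊓ H, ∃ t : F, N (x + h) = t • (x + h) := fun h hh =>
    heig _ (fun h' => hx1 (by simpa using sub_mem h' hh.1)) fun h' => hx2 (by simpa using sub_mem h' hh.2)
  have hlin : ∀ h ∈ H₁ ⊓ H, N h = μ • h := by
    intro h hh
    by_cases h0 : h = 0
    · simp [h0]
    obtain ⟨t1, e1⟩ := heig' h hh
    obtain ⟨t2, e2⟩ := heig' (τ • h) (Submodule.smul_mem _ _ hh)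
    have e1' : N h = t1 • (x + h) - μ • x := by rw [← hμ, ← e1, map_add]; abel
    rw [map_add, map_smul, hμ, e1'] at e2
    have hcomb : (μ + τ * (t1 - μ) - t2) • x + (τ * (t1 - t2)) • h = 0 := by
      rw [← sub_eq_zero] at e2
      rw [← e2]; module
    have hc2 : τ * (t1 - t2) = 0 ∧ μ + τ * (t1 - μ) - t2 = 0 := by
      have hc1 : μ + τ * (t1 - μ) - t2 = 0 := by
        by_contra hc0
        refine hxD ?_
        rw [← inv_smul_smul₀ hc0 x, eq_neg_of_add_eq_zero_left hcomb]
        exact Submodule.smul_mem _ _ (neg_mem (Submodule.smul_mem _ _ hh))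
      rw [hc1, zero_smul, zero_add] at hcomb
      exact ⟨(smul_eq_zero.1 hcomb).resolve_right h0, hc1⟩
    have h12 : t1 = t2 := sub_eq_zero.1 ((mul_eq_zero.1 hc2.1).resolve_left hτ0)
    have e3 : (τ - 1) * (t1 - μ) = 0 := by linear_combination hc2.2 - h12
    rw [e1', sub_eq_zero.1 ((mul_eq_zero.1 e3).resolve_left (sub_ne_zero.2 hτ1))]
    module
  set M : Module.End F V := N - μ • 1 with hM
  have hMap : ∀ z, M z = N z - μ • z := fun z => by simp [hM]
  have hU : (H₁ ⊓ H) ⊔ F ∙ x ≤ LinearMap.ker M := by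
    refine sup_le (fun h hh => ?_) ((Submodule.span_singleton_le_iff_mem _ _).2 ?_)
    · rw [LinearMap.mem_ker, hMap, hlin h hh, sub_self]
    · rw [LinearMap.mem_ker, hMap, hμ, sub_self]
  have hU2 : finrank F V ≤ finrank F (LinearMap.ker M) + 1 := by
    have h6 := Submodule.finrank_mono hU
    have h7 := Submodule.finrank_sup_add_finrank_inf_eq (H₁ ⊓ H) (F ∙ x)
    have hinf : (H₁ ⊓ H) ⊓ F ∙ x = ⊥ := disjoint_iff.1 (Submodule.disjoint_span_singleton_of_notMem hxD)
    rw [hinf, finrank_bot, finrank_span_singleton (fun h => hxD (by rw [h]; exact zero_mem _))] at h7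
    omega
  have hkM : LinearMap.ker M ≠ ⊤ := fun h => by
    refine hns (μ + 1) (LinearMap.ext fun z => ?_)
    have hz : M z = 0 := LinearMap.mem_ker.1 (h ▸ Submodule.mem_top)
    rw [hMap, hNv, sub_eq_zero] at hz
    simp only [LinearMap.smul_apply, Module.End.one_apply, add_smul, one_smul]
    exact sub_eq_iff_eq_add.1 hz
  have hR : finrank F (LinearMap.range M) ≤ 1 := by
    have := LinearMap.finrank_range_add_finrank_ker M; omega
  have hE : P ⊔ LinearMap.range M ≠ ⊤ := fun h => by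
    have := Submodule.finrank_add_le_finrank_add_finrank P (LinearMap.range M)
    rw [h, finrank_top] at this; omega
  obtain ⟨v, hv1, hv2, hv3⟩ := exists_not_mem₃' hτ0 hτ1 (ker_ne_top hc) hkM hE
  refine hv3 (Submodule.mem_sup_left (hcon v hv1 fun hm => ?_))
  obtain ⟨t, ht⟩ := Submodule.mem_span_singleton.1 hm
  by_cases htm : t = μ
  · exact hv2 (by rw [LinearMap.mem_ker, hMap, hNv, ← ht, htm, sub_self])
  · refine hv3 (Submodule.mem_sup_right ⟨(t - μ)⁻¹ • v, ?_⟩)
    rw [map_smul, hMap, hNv, ← ht, ← sub_smul, inv_smul_smul₀ (sub_ne_zero.2 htm)]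

/-- The base step over fields with at least three elements, asking only a non-scalar complement. -/
theorem pivot_large {V : Type v} [AddCommGroup V] [Module F V] [FiniteDimensional F V] {τ : F}
    (h0 : τ ≠ 0) (h1 : τ ≠ 1) {A : Module.End F V} (hA : Function.Injective A) (hd : finrank F V = 3)
    {b : V} {c : V →ₗ[F] F} (hb : b ≠ 0) (hc : c ≠ 0) (hgood : Good3 A b c) :
    ∃ v φ, ∃ h : Pivot A v φ, φ b ≠ 0 ∧ c v ≠ 0 ∧ ∀ t : F, h.compl ≠ t • 1 := by
  obtain ⟨hns, hr, -⟩ := hgood
  have hsum := finrank_im1_add (A := A)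
  obtain ⟨v, hcv, hnev, hbv⟩ : ∃ v, c v ≠ 0 ∧ A v - v ∉ F ∙ v ∧ b ∉ F ∙ (A v - v) := by
    by_cases hfull : finrank F (im1 A) = 3
    · obtain ⟨v, a, b', c'⟩ := exists_noneigen₃ h0 h1 hns (Submodule.finrank_eq_zero.1 (by omega)) hd hc (b := b)
      exact ⟨v, a, b', not_mem_of_comap hb c'⟩
    have hI : im1 A ≠ ⊤ := fun h => hfull (by rw [h, finrank_top, hd])
    have hP : (F ∙ b).comap (A - 1) ≠ ⊤ := fun h => by
      have := finrank_comap_le (A := A) (F ∙ b)
      rw [h, finrank_top, finrank_span_singleton hb] at this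
      omega
    obtain ⟨v, a1, a2, a3⟩ := exists_not_mem₃' h0 h1 (ker_ne_top hc) hI hP
    exact ⟨v, a1, not_eigen a2 (fun h => a3 (ker1_le_comap _ h)), not_mem_of_comap hb a3⟩
  obtain ⟨φ0, e1, e0⟩ := exists_base hnev
  have hz : ∀ (ψ : V →ₗ[F] F), (∀ z ∈ zspan A v, ψ z = φ0 z) → Pivot A v ψ := fun ψ h => base_eq_on e1 e0 h
  obtain ⟨φ, ψ, hφψ, hp, hq, hpb, hqb⟩ : ∃ φ ψ : V →ₗ[F] F, φ ≠ ψ ∧ Pivot A v φ ∧ Pivot A v ψ ∧
      φ b ≠ 0 ∧ ψ b ≠ 0 := by
    by_cases hbZ : b ∈ zspan A v
    · obtain ⟨x, -, hx⟩ := SetLike.exists_of_lt (show zspan A v < ⊤ from lt_top_iff_ne_top.2 fun h => by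
        have := finrank_zspan_le (A := A) v
        rw [h, finrank_top] at this; omega)
      obtain ⟨φ, hφx, hφ⟩ := exists_dual_ext hx φ0 0
      obtain ⟨ψ, hψx, hψ⟩ := exists_dual_ext hx φ0 1
      have hb0 : φ0 b ≠ 0 := by
        obtain ⟨α, β, hab⟩ := mem_zspan.1 hbZ
        rw [← hab, map_add, map_smul, map_smul, e1, e0, smul_zero, add_zero, smul_eq_mul, mul_one]
        intro hα
        exact hbv (Submodule.mem_span_singleton.2 ⟨β, by rw [← hab, hα, zero_smul, zero_add]⟩)
      exact ⟨φ, ψ, fun e => zero_ne_one (α := F) (by rw [← hφx, e, hψx]), hz φ hφ, hz ψ hψ,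
        by rw [hφ b hbZ]; exact hb0, by rw [hψ b hbZ]; exact hb0⟩
    · obtain ⟨φ, hφb, hφ⟩ := exists_dual_ext hbZ φ0 1
      obtain ⟨ψ, hψb, hψ⟩ := exists_dual_ext hbZ φ0 τ
      exact ⟨φ, ψ, fun e => h1 (by rw [← hψb, ← e, hφb]), hz φ hφ, hz ψ hψ,
        by rw [hφb]; exact one_ne_zero, by rw [hψb]; exact h0⟩
  by_cases hsc : ∀ t : F, hp.compl ≠ t • 1
  · exact ⟨v, φ, hp, hpb, hcv, hsc⟩
  simp only [ne_eq, not_forall, not_not] at hsc
  obtain ⟨s, hs⟩ := hsc
  exact ⟨v, ψ, hq, hqb, hcv, fun t ht => hφψ (scalar_unique hA (by omega) hp hq hnev hs ht)⟩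

/-- The base property for one field. -/
def HasBase (F : Type u) [Field F] (s : F) : Prop :=
  ∀ (V : Type v) [AddCommGroup V] [Module F V] [FiniteDimensional F V] (A : Module.End F V) (b : V)
    (c : V →ₗ[F] F), finrank F V = 3 → LinearMap.det A = 1 → b ≠ 0 → c ≠ 0 → Good3 A b c → Fac s 1 A b c

theorem injective_of_det_one {V : Type v} [AddCommGroup V] [Module F V] [FiniteDimensional F V]
    {A : Module.End F V} (h : LinearMap.det A = 1) : Function.Injective A := by
  have hu : IsUnit (LinearMap.det A) := by rw [h]; exact isUnit_one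
  exact (LinearMap.equivOfDetNeZero A (by rw [h]; exact one_ne_zero)).injective

theorem fac_rec {s : F} (hs : 2 - s ≠ 0) (hbase : HasBase.{u, v} F s) :
    ∀ (k : ℕ) (V : Type v) [AddCommGroup V] [Module F V] [FiniteDimensional F V] (A : Module.End F V)
      (b : V) (c : V →ₗ[F] F), finrank F V = k + 3 → LinearMap.det A = 1 → b ≠ 0 → c ≠ 0 →
      (k = 0 → Good3 A b c) → (k ≠ 0 → Big A) → Fac s (k + 1) A b c := by
  intro k
  induction k with
  | zero => intro V _ _ _ A b c hd hdet hb hc h3 _; exact hbase V A b c hd hdet hb hc (h3 rfl)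
  | succ k ih =>
    intro V _ _ _ A b c hd hdet hb hc _ hbig
    obtain ⟨v, φ, h, hφb, hcv, hcol, hrow, h5, h4⟩ :=
      exists_pivot (injective_of_det_one hdet) (hbig (by omega)) (by omega) hb hc
    refine Fac.extend hs (by omega) h hφb hcv ?_
    exact ih _ h.compl h.col h.row (by have := h.finrank_ker; omega) (by rw [h.det_compl, hdet]) hcol hrow
      (fun hk => h4 (by omega)) fun hk => h5 (by omega)

theorem hasBase_large {lam mu τ : F} (h0 : τ ≠ 0) (h1 : τ ≠ 1) (hlm : lam * mu = 1) (hne : lam ≠ mu)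
    (hs : 2 - (lam + mu) ≠ 0) : HasBase.{u, v} F (lam + mu) := by
  intro V _ _ _ A b c hd hdet hb hc hgood
  obtain ⟨v, φ, h, hφb, hcv, hns⟩ := pivot_large h0 h1 (injective_of_det_one hdet) hd hb hc hgood
  exact Fac.base hs h hφb hcv (allowed_of_large hlm hne (by have := h.finrank_ker; omega)
    (by rw [h.det_compl, hdet]) hns)

theorem hasBase_small {p sn : ℕ} [CharP F p] [Fintype F] (hF : Fintype.card F = p) (hsn : sn < p)
    (h3 : ((3 : ℕ) : F) = sn) (hs : 2 - (sn : F) ≠ 0) (hP : Check.checkPivot p = true)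
    (hL : Check.checkPlane p = true) (hFa : Check.checkFactor p sn = true) :
    HasBase.{u, v} F (sn : F) := by
  intro V _ _ _ A b c hd hdet hb hc hgood
  obtain ⟨v, φ, h, hφb, hcv, hal⟩ := pivot_small hF hsn h3 hP hL hFa hd hdet hb hc hgood
  exact Fac.base hs h hφb hcv hal

section Comm

variable {V : Type v} [AddCommGroup V] [Module F V]

/-- A commutator of two endomorphisms of determinant one. -/
def IsComm (g : Module.End F V) : Prop :=
  ∃ a b : Module.End F V, LinearMap.det a = 1 ∧ LinearMap.det b = 1 ∧ g * (b * a) = a * b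

/-- Every prescribed determinant occurs in the commutant. -/
def HasCentral (s : F) (k : ℕ) (V : Type v) [AddCommGroup V] [Module F V] : Prop :=
  ∀ x : Module.End F V, Half s k x → ∀ d : F, d ≠ 0 → ∃ f : Module.End F V, LinearMap.det f = d ∧ f * x = x * f

theorem isComm_of_fac [FiniteDimensional F V] {s : F} {k : ℕ} (hs : 2 - s ≠ 0) (hd : finrank F V = k + 2)
    (hcen : HasCentral s k V) {g x y : Module.End F V} (hg : g = x * y) (hx : Half s k x) (hy : Half s k y) :
    IsComm g := by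
  have hdx := hx.det hs hd
  set ex := LinearMap.equivOfDetNeZero x (by rw [hdx]; exact one_ne_zero) with hex
  set x' : Module.End F V := ex.symm.toLinearMap with hx'
  have h1 : x * x' = 1 := LinearMap.ext fun z => ex.apply_symm_apply z
  have h2 : x' * x = 1 := LinearMap.ext fun z => ex.symm_apply_apply z
  have hxi := hx.inv h1 h2
  obtain ⟨z, hz⟩ := hy.exists_cyclic hs
  obtain ⟨z', hz'⟩ := hxi.exists_cyclic hs
  obtain ⟨T, hT⟩ := exists_similar (pp_monic s k) (by rw [hd, pp_natDegree]) hy.ann hxi.ann hz hz'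
  have hTne : LinearMap.det (T : V →ₗ[F] V) ≠ 0 := (LinearEquiv.isUnit_det' T).ne_zero
  obtain ⟨f, hfd, hfx⟩ := hcen x hx (LinearMap.det (T : V →ₗ[F] V))⁻¹ (inv_ne_zero hTne)
  set P : Module.End F V := f * (T : V →ₗ[F] V) with hP
  have hPd : LinearMap.det P = 1 := by rw [hP, map_mul, hfd, inv_mul_cancel₀ hTne]
  have hfx' : f * x' = x' * f := by
    calc f * x' = (x' * x) * f * x' := by rw [h2, one_mul]
      _ = x' * (f * x) * x' := by rw [hfx]; simp only [mul_assoc]
      _ = x' * f := by rw [mul_assoc, mul_assoc, h1, mul_one]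
  have hPy : P * y = x' * P := by
    rw [hP, mul_assoc, ← mul_assoc x', ← hfx', mul_assoc f x']
    congr 1
    exact LinearMap.ext hT
  set eP := LinearMap.equivOfDetNeZero P (by rw [hPd]; exact one_ne_zero) with heP
  set P' : Module.End F V := eP.symm.toLinearMap with hP'
  have p1 : P * P' = 1 := LinearMap.ext fun z => eP.apply_symm_apply z
  have p2 : P' * P = 1 := LinearMap.ext fun z => eP.symm_apply_apply z
  refine ⟨x, P', hdx, ?_, ?_⟩
  · have := congrArg LinearMap.det p2
    rwa [map_mul, hPd, mul_one, map_one] at this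
  · have hy' : y = P' * x' * P := by rw [mul_assoc, ← hPy, ← mul_assoc, p2, one_mul]
    rw [hg, hy']
    simp only [mul_assoc]
    rw [← mul_assoc P P', p1, one_mul, h2, mul_one]

theorem hasCentral_large [FiniteDimensional F V] {lam mu : F} {k : ℕ} (hlm : lam * mu = 1) (hne : lam ≠ mu)
    (hs : 2 - (lam + mu) ≠ 0) (hd : finrank F V = k + 2) : HasCentral (lam + mu) k V := by
  intro x hx d hd0
  obtain ⟨z, hz⟩ := hx.exists_cyclic hs
  have hlam1 : lam ≠ 1 := fun h => hne (by rw [h, one_mul] at hlm; rw [h, hlm])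
  have hq : q2 (lam + mu) = (X - C lam) * (X - C mu) := by
    rw [q2, C_add]
    have : (C lam * C mu : F[X]) = 1 := by rw [← C_mul, hlm, C_1]
    linear_combination -this
  set h : F[X] := (X - 1) ^ k * (X - C mu) with hh
  have hpp : pp (lam + mu) k = (X - C lam) * h := by rw [pp, hq, hh]; ring
  have hroot : (pp (lam + mu) k).IsRoot lam := by rw [hpp]; simp
  have hlamh : h.eval lam ≠ 0 := by
    rw [hh]; simp only [eval_mul, eval_pow, eval_sub, eval_X, eval_one, eval_C]
    exact mul_ne_zero (pow_ne_zero _ (sub_ne_zero.2 hlam1)) (sub_ne_zero.2 hne)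
  set e := aeval x h z with he
  have hxe : x e = lam • e := by
    have : aeval x (pp (lam + mu) k) z = 0 := by rw [hx.ann]; rfl
    rw [hpp, aeval_mul_apply] at this
    rw [← sub_eq_zero, ← this, he]
    simp
  choose f hf using surjective_of_cyclic (pp_monic (lam + mu) k) (by rw [hd, pp_natDegree]) hz
  have key : ∀ (g : F[X]) (w : V), aeval x g z = w → (f w).eval lam = g.eval lam := by
    intro g w hg
    have hdv := hz (f w - g) (by rw [map_sub, LinearMap.sub_apply, hf, hg, sub_self])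
    have := dvd_trans (dvd_iff_isRoot.2 hroot) hdv
    rwa [dvd_iff_isRoot, IsRoot, eval_sub, sub_eq_zero] at this
  let ψ : V →ₗ[F] F :=
    { toFun := fun w => (f w).eval lam * (h.eval lam)⁻¹
      map_add' := fun a b => by
        rw [key (f a + f b) (a + b) (by rw [map_add, LinearMap.add_apply, hf, hf]), eval_add, add_mul]
      map_smul' := fun c a => by
        rw [key (c • f a) (c • a) (by rw [map_smul, LinearMap.smul_apply, hf]), eval_smul, smul_eq_mul,
          RingHom.id_apply, smul_eq_mul, mul_assoc] }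
  have hψe : ψ e = 1 := by
    show (f e).eval lam * (h.eval lam)⁻¹ = 1
    rw [key h e rfl, mul_inv_cancel₀ hlamh]
  have hψx : ∀ w, ψ (x w) = lam * ψ w := fun w => by
    show (f (x w)).eval lam * _ = lam * ((f w).eval lam * _)
    rw [key (X * f w) (x w) (by rw [aeval_mul_apply, hf, aeval_X]), eval_mul, eval_X, mul_assoc]
  refine ⟨LinearMap.transvection ψ ((d - 1) • e), ?_, LinearMap.ext fun w => ?_⟩
  · rw [LinearMap.transvection.det, map_smul, hψe, smul_eq_mul, mul_one, add_sub_cancel]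
  · simp only [Module.End.mul_apply, LinearMap.transvection.apply, map_add, map_smul, hxe, hψx]
    module

theorem hasCentral_two {s : F} {k : ℕ} (h : ∀ d : F, d ≠ 0 → d = 1) : HasCentral s k V :=
  fun x _ d hd => ⟨1, by rw [map_one, h d hd], by rw [one_mul, mul_one]⟩

theorem hasCentral_three [FiniteDimensional F V] {s : F} {k : ℕ} (h3 : (3 : F) = 0) (hs0 : s = 0)
    (h : ∀ d : F, d ≠ 0 → d = 1 ∨ d = -1) (hd : finrank F V = k + 2) : HasCentral s k V := by
  intro x hx d hd0
  have hs : 2 - s ≠ 0 := by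
    rw [hs0, sub_zero]
    intro h2
    exact one_ne_zero (α := F) (by linear_combination h3 - h2)
  rcases h d hd0 with rfl | rfl
  · exact ⟨1, map_one _, by rw [one_mul, mul_one]⟩
  rcases Nat.even_or_odd k with hk | hk
  · refine ⟨x - (-1 : F) • 1, ?_, ?_⟩
    · rw [det_eq_charpoly_coeff, LinearMap.charpoly_sub_smul, hx.charpoly hs hd, coeff_zero_eq_eval_zero,
        eval_comp]
      simp only [eval_add, eval_X, eval_C, zero_add, pp, q2, hs0, map_zero, zero_mul, sub_zero, eval_mul,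
        eval_pow, eval_sub, eval_one]
      rw [show (-1 : F) - 1 = 1 from by linear_combination -h3, one_pow, hd, pow_add, hk.neg_one_pow]
      linear_combination h3
    · rw [sub_mul, mul_sub, smul_one_mul, mul_smul_comm, mul_one]
  · refine ⟨(-1 : F) • 1, ?_, by rw [smul_one_mul, mul_smul_comm, mul_one]⟩
    rw [LinearMap.det_smul, map_one, mul_one, hd, pow_add, hk.neg_one_pow]
    ring

end Comm

end CfsgLib.CharDegrees.Thompson
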