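import Cfsg.Agent.Lib.CharDegrees.Thompson.Main

/-!
Commutators: transport, scalar endomorphisms, transvections and the degenerate cases.
-/

set_option autoImplicit false
set_option linter.unusedSectionVars false

namespace CfsgLib.CharDegrees.Thompson

open Module Matrix

variable {F : Type*} [Field F] {V : Type*} [AddCommGroup V] [Module F V]

theorem IsComm.conj {W : Type*} [AddCommGroup W] [Module F W] (e : V ≃ₗ[F] W) {g : Module.End F V}
    (h : IsComm g) : IsComm (e.conj g) := by
  obtain ⟨a, b, ha, hb, hab⟩ := h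
  refine ⟨e.conj a, e.conj b, ?_, ?_, ?_⟩
  · rw [LinearEquiv.conj_apply, LinearMap.comp_assoc, LinearMap.det_conj, ha]
  · rw [LinearEquiv.conj_apply, LinearMap.comp_assoc, LinearMap.det_conj, hb]
  · refine LinearMap.ext fun z => ?_
    have := LinearMap.congr_fun hab (e.symm z)
    simp only [Module.End.mul_apply, LinearEquiv.conj_apply_apply, LinearEquiv.symm_apply_apply] at this ⊢
    rw [this]

theorem isComm_prodMap_one {W U : Type*} [AddCommGroup W] [Module F W] [FiniteDimensional F W]
    [AddCommGroup U] [Module F U] [FiniteDimensional F U] {g : Module.End F W} (h : IsComm g) :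
    IsComm (LinearMap.prodMap g (1 : Module.End F U)) := by
  obtain ⟨a, b, ha, hb, hab⟩ := h
  refine ⟨LinearMap.prodMap a 1, LinearMap.prodMap b 1, ?_, ?_, ?_⟩
  · rw [LinearMap.det_prodMap, ha, map_one, mul_one]
  · rw [LinearMap.det_prodMap, hb, map_one, mul_one]
  · simp only [LinearMap.prodMap_mul, hab, one_mul]

theorem isComm_of_matrix {ι : Type*} [Fintype ι] [DecidableEq ι] [FiniteDimensional F V] (B : Basis ι F V)
    {g : Module.End F V} (a b : Matrix ι ι F) (ha : a.det = 1) (hb : b.det = 1)
    (h : LinearMap.toMatrix B B g * (b * a) = a * b) : IsComm g := by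
  refine ⟨Matrix.toLin B B a, Matrix.toLin B B b, by rw [LinearMap.det_toLin, ha],
    by rw [LinearMap.det_toLin, hb], ?_⟩
  apply (LinearMap.toMatrix B B).injective
  simp only [LinearMap.toMatrix_mul, LinearMap.toMatrix_toLin]
  exact h

theorem pow_finRotate {e : F} {n : ℕ} (he : e ^ (n + 1) = 1) (j : Fin (n + 1)) :
    e ^ (finRotate (n + 1) j : ℕ) = e ^ ((j : ℕ) + 1) := by
  rw [finRotate_apply, Fin.val_add, Fin.val_one']
  rw [← pow_eq_pow_mod _ he]
  conv_rhs => rw [pow_add]
  rw [pow_add]
  congr 1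
  rw [← pow_eq_pow_mod _ he]

theorem isComm_scalar_odd [FiniteDimensional F V] {m : ℕ} (hd : finrank F V = 2 * m + 1) {c : F}
    (hc : c ^ (2 * m + 1) = 1) : IsComm (c • (1 : Module.End F V)) := by
  set B := finBasisOfFinrankEq F V hd
  set σ := finRotate (2 * m + 1) with hσ
  have hc0 : c ≠ 0 := fun h => by simp [h] at hc
  set e := c⁻¹ with he
  have he' : e ^ (2 * m + 1) = 1 := by rw [he, inv_pow, hc, inv_one]
  refine isComm_of_matrix B (diagonal fun i : Fin (2 * m + 1) => e ^ (i : ℕ)) (σ.permMatrix F) ?_ ?_ ?_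
  · rw [det_diagonal, Finset.prod_pow_eq_pow_sum, Fin.sum_univ_eq_sum_range (fun i : ℕ => i),
      Finset.sum_range_id, Nat.add_sub_cancel, show (2 * m + 1) * (2 * m) / 2 = (2 * m + 1) * m by
        rw [show (2 * m + 1) * (2 * m) = (2 * m + 1) * m * 2 by ring, Nat.mul_div_cancel _ (by norm_num)],
      pow_mul, he', one_pow]
  · rw [Matrix.det_permutation, hσ, sign_finRotate]
    simp [pow_mul]
  · rw [map_smul, LinearMap.toMatrix_one, Matrix.smul_mul, one_mul]
    ext i j
    rw [Matrix.smul_apply, smul_eq_mul, Matrix.mul_diagonal, Matrix.diagonal_mul]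
    simp only [Equiv.Perm.permMatrix, PEquiv.toMatrix_apply, Equiv.toPEquiv_apply, Option.mem_def,
      Option.some.injEq]
    split_ifs with hij
    · subst hij
      rw [hσ, pow_finRotate he', pow_succ, he, one_mul]
      field_simp
    · ring

theorem exists_norm [Fintype F] (w d : F) : ∃ x y : F, w ≠ 0 → x * x - y * y * w = d := by
  by_cases hw : w = 0
  · exact ⟨0, 0, fun h => absurd hw h⟩
  by_cases h2 : ringChar F = 2
  · obtain ⟨x, hx⟩ := FiniteField.isSquare_of_char_two h2 d
    exact ⟨x, 0, fun _ => by rw [hx]; ring⟩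
  have hodd : Fintype.card F % 2 = 1 := FiniteField.odd_card_of_char_ne_two h2
  obtain ⟨a, b, hab⟩ := FiniteField.exists_root_sum_quadratic (f := Polynomial.X ^ 2 - Polynomial.C d)
    (g := Polynomial.C (-w) * Polynomial.X ^ 2) (Polynomial.degree_X_pow_sub_C (by norm_num) d)
    (Polynomial.degree_C_mul_X_pow 2 (neg_ne_zero.2 hw)) hodd
  simp only [Polynomial.eval_sub, Polynomial.eval_pow, Polynomial.eval_X, Polynomial.eval_C,
    Polynomial.eval_mul] at hab
  exact ⟨a, b, fun _ => by linear_combination hab⟩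

theorem isComm_scalar_even [Fintype F] [FiniteDimensional F V] {k : ℕ} (hd : finrank F V = 2 * (k + 1))
    {c : F} (hc : c ^ (2 * (k + 1)) = 1) : IsComm (c • (1 : Module.End F V)) := by
  let B : Basis (Fin 2 × Fin (k + 1)) F V :=
    (finBasisOfFinrankEq F V hd).reindex finProdFinEquiv.symm
  have hc0 : c ≠ 0 := fun h => by simp [h] at hc
  set e := c⁻¹ with he
  have hce : c * e = 1 := mul_inv_cancel₀ hc0
  have he2 : (e ^ 2) ^ (k + 1) = 1 := by rw [← pow_mul, he, inv_pow, hc, inv_one]
  set σ := finRotate (k + 1) with hσ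
  let w : Fin (k + 1) → F := fun j => -(c ^ k) * (e ^ 2) ^ (j : ℕ)
  have hw0 : ∀ j, w j ≠ 0 := fun j =>
    mul_ne_zero (neg_ne_zero.2 (pow_ne_zero _ hc0)) (pow_ne_zero _ (pow_ne_zero _ (inv_ne_zero hc0)))
  have hw : ∀ j, w (σ j) = w j * e ^ 2 := fun j => by
    simp only [w, hσ]
    rw [pow_finRotate he2, pow_succ]
    ring
  obtain ⟨x, y, hxy⟩ := exists_norm (w (σ 0)) (c ^ (k + 1))
  have hxy := hxy (hw0 _)
  let A : Fin (k + 1) → Matrix (Fin 2) (Fin 2) F := fun j => !![0, w j; 1, 0]
  let D0 : Matrix (Fin 2) (Fin 2) F := !![1, 0; 0, e]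
  let fix0 : Fin (k + 1) → Matrix (Fin 2) (Fin 2) F := fun j =>
    if j = 0 then !![x, y * w (σ j); y, x] else 1
  let D : Fin (k + 1) → Matrix (Fin 2) (Fin 2) F := fun j => D0 * fix0 j
  have hAD0 : ∀ j, A j * D0 = c • (D0 * A (σ j)) := fun j => by
    simp only [A, D0, hw]
    ext p q; fin_cases p <;> fin_cases q <;> simp
    · linear_combination (-(w j * e)) * hce
    · linear_combination -hce
  have hfix : ∀ j, A (σ j) * fix0 j = fix0 j * A (σ j) := fun j => by
    simp only [fix0]
    split_ifs
    · simp only [A]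
      ext p q; fin_cases p <;> fin_cases q <;> simp <;> ring
    · rw [one_mul, mul_one]
  have hAD : ∀ j, A j * D j = c • (D j * A (σ j)) := fun j => by
    simp only [D]
    rw [← mul_assoc, hAD0, Matrix.smul_mul, mul_assoc, hfix, ← mul_assoc]
  let π : Equiv.Perm (Fin 2 × Fin (k + 1)) := Equiv.prodCongrRight fun _ => σ
  have hP : π.permMatrix F * blockDiagonal A = blockDiagonal (fun j => A (σ j)) * π.permMatrix F := by
    ext ⟨p, i⟩ ⟨q, j⟩
    rw [PEquiv.toMatrix_toPEquiv_mul, PEquiv.mul_toMatrix_toPEquiv]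
    have hs' : π.symm (q, j) = (q, σ.symm j) := π.symm_apply_eq.2 (by simp [π])
    simp only [Matrix.submatrix_apply, id_eq, hs', Matrix.blockDiagonal_apply]
    simp only [π, Equiv.prodCongrRight_apply]
    by_cases hij : σ i = j
    · subst hij; simp
    · have hij' : ¬ i = σ.symm j := fun h => hij (by rw [h, Equiv.apply_symm_apply])
      simp [hij, hij']
  refine isComm_of_matrix B (blockDiagonal A) (blockDiagonal D * π.permMatrix F) ?_ ?_ ?_
  · rw [det_blockDiagonal]
    have hA : ∀ j, (A j).det = c ^ k * (e ^ 2) ^ (j : ℕ) := fun j => by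
      simp [A, w, Matrix.det_fin_two]
    simp only [hA]
    rw [Finset.prod_mul_distrib, Finset.prod_const, Finset.card_univ, Fintype.card_fin,
      Finset.prod_pow_eq_pow_sum, Fin.sum_univ_eq_sum_range (fun i : ℕ => i), ← pow_mul, ← pow_mul,
      mul_comm 2 (∑ i ∈ Finset.range (k + 1), i), Finset.sum_range_id_mul_two, Nat.add_sub_cancel,
      mul_comm k (k + 1), ← mul_pow, hce, one_pow]
  · rw [det_mul, det_blockDiagonal, Matrix.det_permutation, Equiv.Perm.sign_prodCongrRight]
    have hD : ∀ j, (D j).det = e * (if j = 0 then c ^ (k + 1) else 1) := fun j => by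
      simp only [D, fix0]
      rw [det_mul]
      split_ifs with hj
      · subst hj
        simp [D0, Matrix.det_fin_two]
        exact Or.inl (by linear_combination hxy)
      · simp [D0, Matrix.det_fin_two]
    simp only [hD]
    rw [Finset.prod_mul_distrib, Finset.prod_ite_eq' Finset.univ (0 : Fin (k + 1)), if_pos (Finset.mem_univ _),
      Finset.prod_const, Finset.card_univ, Fintype.card_fin, ← mul_pow, mul_comm e c, hce, one_pow,
      Fin.prod_univ_two, Int.units_mul_self]
    simp
  · rw [map_smul, LinearMap.toMatrix_one, Matrix.smul_mul, one_mul, mul_assoc, hP, ← mul_assoc,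
      ← mul_assoc, ← blockDiagonal_mul, ← blockDiagonal_mul, ← Matrix.smul_mul, ← blockDiagonal_smul]
    congr 2
    exact funext fun j => (hAD j).symm

theorem isComm_scalar [Fintype F] [FiniteDimensional F V] (h2 : 2 ≤ finrank F V) {c : F}
    (hdet : LinearMap.det (c • (1 : Module.End F V)) = 1) : IsComm (c • (1 : Module.End F V)) := by
  rw [LinearMap.det_smul, map_one, mul_one] at hdet
  rcases Nat.even_or_odd' (finrank F V) with ⟨m, hm | hm⟩
  · obtain ⟨k, rfl⟩ : ∃ k, m = k + 1 := ⟨m - 1, by omega⟩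
    exact isComm_scalar_even hm (hm ▸ hdet)
  · exact isComm_scalar_odd hm (hm ▸ hdet)

theorem isComm_transvection [FiniteDimensional F V] {A : Module.End F V} (hdet : LinearMap.det A = 1)
    (h3 : 3 ≤ finrank F V) (hr : finrank F (im1 A) = 1) : IsComm A := by
  obtain ⟨⟨w, hwI⟩, hw0, hsp⟩ := finrank_eq_one_iff'.1 hr
  have hw : w ∉ (⊥ : Submodule F V) := by simpa using fun h => hw0 (Subtype.ext h)
  obtain ⟨ψ, hψ, -⟩ := exists_dual_ext hw 0 1
  set φ : V →ₗ[F] F := ψ.comp (A - 1 : Module.End F V) with hφ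
  have hA : ∀ z, A z = z + φ z • w := fun z => by
    obtain ⟨t, ht⟩ := hsp ⟨A z - z, sub_mem_im1 z⟩
    have ht' : t • w = A z - z := congrArg Subtype.val ht
    have : φ z = t := by
      simp only [hφ, LinearMap.comp_apply, LinearMap.sub_apply, Module.End.one_apply]
      rw [← ht', map_smul, hψ, smul_eq_mul, mul_one]
    rw [this, ht']; abel
  have hA' : A = LinearMap.transvection φ w := LinearMap.ext fun z => by
    rw [hA, LinearMap.transvection.apply]
  have hφw : φ w = 0 := by
    rw [hA', LinearMap.transvection.det] at hdet; exact add_eq_left.1 hdet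
  obtain ⟨w2, hw2, hw2'⟩ := SetLike.not_le_iff_exists.1 (show ¬ LinearMap.ker φ ≤ F ∙ w from fun hle => by
    have := Submodule.finrank_mono hle
    have h1 := LinearMap.finrank_range_add_finrank_ker φ
    have h2 := Submodule.finrank_le (LinearMap.range φ)
    rw [finrank_self] at h2
    have h4 : finrank F (F ∙ w) ≤ 1 := by simpa using finrank_span_le_card (R := F) ({w} : Set V)
    omega)
  rw [LinearMap.mem_ker] at hw2
  obtain ⟨φ1, hφ1, hφ1'⟩ := exists_dual_ext hw2' 0 1
  have hφ1w : φ1 w = 0 := by simpa using hφ1' w (Submodule.mem_span_singleton_self w)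
  refine ⟨LinearMap.transvection φ1 w, LinearMap.transvection φ w2, ?_, ?_, LinearMap.ext fun z => ?_⟩
  · rw [LinearMap.transvection.det, hφ1w, add_zero]
  · rw [LinearMap.transvection.det, hw2, add_zero]
  · simp only [Module.End.mul_apply, LinearMap.transvection.apply, hA, map_add, map_smul, hφw, hw2, hφ1w, hφ1,
      smul_eq_mul, mul_zero, mul_one, add_zero, zero_smul]
    module

/-- `A` splits off a fixed line as soon as `ker (A - 1)` is not inside the image of `A - 1`. -/
theorem exists_split [FiniteDimensional F V] {A : Module.End F V} (hdet : LinearMap.det A = 1)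
    {k : V} (hk : k ∈ ker1 A) (hk' : k ∉ im1 A) :
    ∃ (H : Submodule F V) (A' : Module.End F H) (e : (H × F) ≃ₗ[F] V),
      finrank F V = finrank F H + 1 ∧ LinearMap.det A' = 1 ∧
      A = e.conj (LinearMap.prodMap A' (1 : Module.End F F)) := by
  obtain ⟨φ, hφk, hφ⟩ := exists_dual_ext hk' 0 1
  have hinv : ∀ h ∈ LinearMap.ker φ, A h ∈ LinearMap.ker φ := fun h hh => by
    rw [LinearMap.mem_ker] at hh ⊢
    have := hφ _ (sub_mem_im1 (A := A) h)
    rw [LinearMap.zero_apply, map_sub, hh, sub_zero] at this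
    exact this
  let e : (LinearMap.ker φ × F) ≃ₗ[F] V :=
    { toFun := fun p => (p.1 : V) + p.2 • k
      map_add' := fun p q => by simp only [Prod.fst_add, Prod.snd_add, Submodule.coe_add]; module
      map_smul' := fun t p => by
        simp only [Prod.smul_fst, Prod.smul_snd, Submodule.coe_smul, RingHom.id_apply, smul_eq_mul]; module
      invFun := fun z => (⟨z - φ z • k, by simp [hφk]⟩, φ z)
      left_inv := fun p => by
        have h1 : φ (p.1 : V) = 0 := p.1.2
        refine Prod.ext (Subtype.ext ?_) ?_ <;> simp [h1, hφk]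
      right_inv := fun z => by simp }
  have hA : A = e.conj (LinearMap.prodMap (A.restrict hinv) (1 : Module.End F F)) := by
    refine LinearMap.ext fun z => ?_
    rw [LinearEquiv.conj_apply_apply]
    show A z = A (z - φ z • k) + φ z • k
    rw [map_sub, map_smul, mem_ker1.1 hk, sub_add_cancel]
  refine ⟨_, A.restrict hinv, e, ?_, ?_, hA⟩
  · rw [← e.finrank_eq, Module.finrank_prod, finrank_self]
  · have := congrArg LinearMap.det hA
    rw [hdet, LinearEquiv.conj_apply, LinearMap.comp_assoc, LinearMap.det_conj, LinearMap.det_prodMap,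
      map_one, mul_one] at this
    exact this.symm

theorem isComm_square_zero [FiniteDimensional F V] {s : F} (hs : 2 - s ≠ 0) {A : Module.End F V}
    (hd : finrank F V = 4) (hr : finrank F (im1 A) = 2) (hle : ker1 A ≤ im1 A) : IsComm A := by
  set N : Module.End F V := A - 1 with hN
  have hsum := finrank_im1_add (A := A)
  have hKI : ker1 A = im1 A := Submodule.eq_of_le_of_finrank_eq hle (by omega)
  have hNN : ∀ z, N (N z) = 0 := fun z => LinearMap.mem_ker.1 (hKI ▸ ⟨z, rfl⟩ : N z ∈ ker1 A)
  set bI := finBasisOfFinrankEq F (im1 A) hr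
  choose u hu using fun i => LinearMap.mem_range.1 (bI i).2
  let vv : Fin 2 ⊕ Fin 2 → V := Sum.elim (fun i => N (u i)) u
  have li : LinearIndependent F vv := by
    rw [Fintype.linearIndependent_iff]
    intro f hf
    rw [Fintype.sum_sum_type] at hf
    simp only [vv, Sum.elim_inl, Sum.elim_inr] at hf
    have hbI : ∀ g : Fin 2 → F, ∑ i, g i • N (u i) = 0 → ∀ i, g i = 0 := fun g hg => by
      refine Fintype.linearIndependent_iff.1 bI.linearIndependent g (Subtype.ext ?_)
      rw [Submodule.coe_sum, Submodule.coe_zero, ← hg]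
      exact Finset.sum_congr rfl fun i _ => by rw [Submodule.coe_smul, ← hu]
    have h2 : ∀ i, f (Sum.inr i) = 0 := hbI _ (by
      have := congrArg N hf
      simpa only [map_add, map_sum, map_smul, hNN, smul_zero, Finset.sum_const_zero, zero_add, map_zero] using this)
    have h1 : ∀ i, f (Sum.inl i) = 0 := hbI _ (by simpa [h2] using hf)
    rintro (i | i)
    exacts [h1 i, h2 i]
  set B := basisOfLinearIndependentOfCardEqFinrank li (by simp [hd]) with hB
  have hBv : ∀ i, B i = vv i := fun i => by rw [hB, coe_basisOfLinearIndependentOfCardEqFinrank]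
  have hAz : ∀ z, A z = z + N z := fun z => by simp [hN]
  have hM : LinearMap.toMatrix B B A = fromBlocks 1 1 0 1 := by
    rw [← LinearMap.toMatrix_toLin B B (fromBlocks 1 1 0 1)]
    congr 1
    refine B.ext fun j => ?_
    rw [Matrix.toLin_self, Fintype.sum_sum_type, hBv, hAz]
    rcases j with j | j <;>
      simp [vv, hBv, hNN, Matrix.one_apply, add_comm]
  let M : Matrix (Fin 2) (Fin 2) F := !![0, -1; 1, s]
  let Y : Matrix (Fin 2) (Fin 2) F := (2 - s)⁻¹ • !![s - 1, 1; -1, -1]
  have hMY : M * Y = Y + 1 := by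
    simp only [M, Y]
    ext p q; fin_cases p <;> fin_cases q <;> simp <;> field_simp <;> ring
  refine isComm_of_matrix B (fromBlocks M 0 0 1) (fromBlocks 1 Y 0 1) ?_ ?_ ?_
  · rw [det_fromBlocks_zero₂₁, det_one, mul_one]; simp [M, Matrix.det_fin_two]
  · rw [det_fromBlocks_zero₂₁, det_one, mul_one]
  · rw [hM]
    simp [fromBlocks_multiply, hMY, add_comm]

end CfsgLib.CharDegrees.Thompson
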