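import Cfsg.Agent.Lib.CharDegrees.Thompson.Extend

/-!
Choice of the pivot.
-/

set_option autoImplicit false
set_option linter.unusedSectionVars false

namespace CfsgLib.CharDegrees.Thompson

open Module

variable {F : Type*} [Field F] {V : Type*} [AddCommGroup V] [Module F V]

theorem exists_not_mem₂ {H₁ H₂ : Submodule F V} (h₁ : H₁ ≠ ⊤) (h₂ : H₂ ≠ ⊤) :
    ∃ x, x ∉ H₁ ∧ x ∉ H₂ := by
  obtain ⟨a, -, ha⟩ := SetLike.exists_of_lt h₁.lt_top
  obtain ⟨b, -, hb⟩ := SetLike.exists_of_lt h₂.lt_top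
  by_cases h : a ∈ H₂
  · by_cases h' : b ∈ H₁
    · exact ⟨a + b, fun h'' => ha (by simpa using sub_mem h'' h'),
        fun h'' => hb (by simpa using sub_mem h'' h)⟩
    · exact ⟨b, h', hb⟩
  · exact ⟨a, ha, h⟩

theorem exists_hyperplane [FiniteDimensional F V] {H : Submodule F V} (h : H ≠ ⊤) :
    ∃ H' : Submodule F V, H ≤ H' ∧ finrank F H' + 1 = finrank F V := by
  obtain ⟨f, hf0, hf⟩ := Submodule.exists_le_ker_of_lt_top H h.lt_top
  refine ⟨LinearMap.ker f, hf, ?_⟩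
  have hr : LinearMap.range f = ⊤ := LinearMap.range_eq_top.2 (LinearMap.surjective hf0)
  have := LinearMap.finrank_range_add_finrank_ker f
  rw [hr, finrank_top, finrank_self] at this
  omega

theorem exists_not_mem₃ [FiniteDimensional F V] {H₁ H₂ E : Submodule F V} (h₁ : H₁ ≠ ⊤) (h₂ : H₂ ≠ ⊤)
    (hE : finrank F E + 2 ≤ finrank F V) : ∃ x, x ∉ H₁ ∧ x ∉ H₂ ∧ x ∉ E := by
  obtain ⟨G₁, hle₁, hd₁⟩ := exists_hyperplane h₁
  obtain ⟨G₂, hle₂, hd₂⟩ := exists_hyperplane h₂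
  have hG : ∀ G : Submodule F V, finrank F G + 1 = finrank F V → G ≠ ⊤ := fun G h he => by
    rw [he, finrank_top] at h; omega
  obtain ⟨x, hx₁, hx₂⟩ := exists_not_mem₂ (hG _ hd₁) (hG _ hd₂)
  by_contra hcon
  simp only [not_exists, not_and, not_not] at hcon
  have hxE : x ∈ E := hcon x (fun h => hx₁ (hle₁ h)) fun h => hx₂ (hle₂ h)
  have hsub : ∀ y ∈ G₁ ⊓ G₂, y ∈ E := fun y hy => by
    have := hcon (x + y) (fun h => hx₁ (by simpa using sub_mem (hle₁ h) hy.1))
      (fun h => hx₂ (by simpa using sub_mem (hle₂ h) hy.2))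
    simpa using sub_mem this hxE
  have hlt : G₁ ⊓ G₂ < E := lt_of_le_of_ne hsub fun he => hx₁ ((he ▸ hxE : x ∈ G₁ ⊓ G₂).1)
  have h3 := Submodule.finrank_lt_finrank_of_lt hlt
  have h4 := Submodule.finrank_sup_add_finrank_inf_eq G₁ G₂
  have h5 := Submodule.finrank_le (G₁ ⊔ G₂)
  omega

theorem finrank_sup_add_finrank_inf_eq' [FiniteDimensional F V] (I : Submodule F V) (v : V) :
    finrank F (I ⊔ F ∙ v : Submodule F V) + finrank F (I ⊓ F ∙ v : Submodule F V) =
      finrank F I + finrank F (F ∙ v) :=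
  Submodule.finrank_sup_add_finrank_inf_eq I (F ∙ v)

theorem exists_dual_ext {Z : Submodule F V} {x : V} (hx : x ∉ Z) (ψ : V →ₗ[F] F) (t : F) :
    ∃ ψ' : V →ₗ[F] F, ψ' x = t ∧ ∀ z ∈ Z, ψ' z = ψ z := by
  obtain ⟨f, hf, hfx⟩ := Submodule.exists_dual_map_eq_bot_of_notMem hx inferInstance
  have hfZ : ∀ z ∈ Z, f z = 0 := fun z hz =>
    (Submodule.mem_bot F).1 (hfx ▸ Submodule.mem_map_of_mem hz)
  refine ⟨ψ + ((t - ψ x) * (f x)⁻¹) • f, ?_, fun z hz => by simp [hfZ z hz]⟩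
  simp [mul_assoc, inv_mul_cancel₀ hf]

variable (A : Module.End F V)

/-- The image of `A - 1`. -/
def im1 : Submodule F V := LinearMap.range (A - 1)

/-- The kernel of `A - 1`. -/
def ker1 : Submodule F V := LinearMap.ker (A - 1)

variable {A}

theorem mem_ker1 {z : V} : z ∈ ker1 A ↔ A z = z := by
  simp [ker1, LinearMap.sub_apply, sub_eq_zero]

theorem sub_mem_im1 (z : V) : A z - z ∈ im1 A := ⟨z, by simp⟩

theorem finrank_im1_add [FiniteDimensional F V] :
    finrank F (im1 A) + finrank F (ker1 A) = finrank F V :=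
  LinearMap.finrank_range_add_finrank_ker (A - 1)

theorem finrank_comap_le [FiniteDimensional F V] (E : Submodule F V) :
    finrank F (E.comap (A - 1)) ≤ finrank F (ker1 A) + finrank F E := by
  set C := E.comap (A - 1)
  have h1 := LinearMap.finrank_range_add_finrank_ker ((A - 1).comp C.subtype)
  have h2 : finrank F (LinearMap.range ((A - 1).comp C.subtype)) ≤ finrank F E :=
    Submodule.finrank_mono (by rintro _ ⟨w, rfl⟩; exact w.2)
  have h3 : finrank F (LinearMap.ker ((A - 1).comp C.subtype)) ≤ finrank F (ker1 A) := by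
    rw [LinearMap.ker_comp, ← Submodule.finrank_map_subtype_eq, Submodule.map_comap_subtype]
    exact Submodule.finrank_mono inf_le_right
  omega

/-- The span of `v` and `(A - 1) v`. -/
def zspan (A : Module.End F V) (v : V) : Submodule F V := (F ∙ v) ⊔ (F ∙ (A v - v))

theorem mem_zspan {v z : V} : z ∈ zspan A v ↔ ∃ α β : F, α • v + β • (A v - v) = z := by
  simp only [zspan, Submodule.mem_sup, Submodule.mem_span_singleton]
  constructor
  · rintro ⟨_, ⟨α, rfl⟩, _, ⟨β, rfl⟩, rfl⟩; exact ⟨α, β, rfl⟩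
  · rintro ⟨α, β, rfl⟩; exact ⟨_, ⟨α, rfl⟩, _, ⟨β, rfl⟩, rfl⟩

theorem self_mem_zspan (v : V) : v ∈ zspan A v :=
  Submodule.mem_sup_left (Submodule.mem_span_singleton_self v)

theorem img_mem_zspan (v : V) : A v - v ∈ zspan A v :=
  Submodule.mem_sup_right (Submodule.mem_span_singleton_self _)

theorem finrank_zspan_le [FiniteDimensional F V] (v : V) : finrank F (zspan A v) ≤ 2 := by
  refine (Submodule.finrank_add_le_finrank_add_finrank _ _).trans ?_
  have h1 : ∀ z : V, finrank F (F ∙ z) ≤ 1 := fun z => by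
    have := finrank_span_le_card (R := F) ({z} : Set V); simpa using this
  have := h1 v; have := h1 (A v - v); omega

theorem finrank_sup_span_le [FiniteDimensional F V] (Z : Submodule F V) (z : V) :
    finrank F (Z ⊔ F ∙ z : Submodule F V) ≤ finrank F Z + 1 := by
  refine (Submodule.finrank_add_le_finrank_add_finrank _ _).trans ?_
  have := finrank_span_le_card (R := F) ({z} : Set V)
  simpa using this

/-- A functional with `v ↦ 1` and `(A - 1) v ↦ 0`. -/
theorem exists_base {v : V} (hv : A v - v ∉ F ∙ v) :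
    ∃ φ : V →ₗ[F] F, φ v = 1 ∧ φ (A v - v) = 0 := by
  have hv0 : v ∉ (⊥ : Submodule F V) := fun h => by
    have hv' : v = 0 := (Submodule.mem_bot F).1 h
    exact hv (by simp [hv'])
  obtain ⟨φ0, h0, -⟩ := exists_dual_ext hv0 0 1
  obtain ⟨φ, h1, h2⟩ := exists_dual_ext hv φ0 0
  exact ⟨φ, by rw [h2 v (Submodule.mem_span_singleton_self v), h0], h1⟩

theorem pivot_of_base {v : V} {φ : V →ₗ[F] F} (h1 : φ v = 1) (h0 : φ (A v - v) = 0) : Pivot A v φ :=
  ⟨h1, by rwa [map_sub, sub_eq_zero, h1] at h0⟩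

theorem base_eq_on {v : V} {φ ψ : V →ₗ[F] F} (h1 : φ v = 1) (h0 : φ (A v - v) = 0)
    (hψ : ∀ z ∈ zspan A v, ψ z = φ z) : Pivot A v ψ :=
  pivot_of_base (by rw [hψ v (self_mem_zspan v), h1]) (by rw [hψ _ (img_mem_zspan v), h0])

/-- Pivot with a non-zero value on `b` and on the image of `A - 1`. -/
theorem exists_values₁ [FiniteDimensional F V] {v b : V} (hv : A v - v ∉ F ∙ v)
    (hb : b ∉ F ∙ (A v - v)) (hr : 4 ≤ finrank F (im1 A) ∨ (3 ≤ finrank F (im1 A) ∧ v ∉ im1 A)) :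
    ∃ φ, ∃ u ∈ im1 A, Pivot A v φ ∧ φ b ≠ 0 ∧ φ u ≠ 0 ∧
      ∀ ψ : V →ₗ[F] F, (∀ z ∈ zspan A v ⊔ F ∙ b ⊔ F ∙ u, ψ z = φ z) →
        Pivot A v ψ ∧ ψ b ≠ 0 ∧ ψ u ≠ 0 := by
  obtain ⟨φ0, h1, h0⟩ := exists_base hv
  set Z := zspan A v
  obtain ⟨u, huI, hu⟩ : ∃ u ∈ im1 A, u ∉ Z ⊔ F ∙ b := by
    by_contra hcon
    have hle : im1 A ≤ Z ⊔ F ∙ b := fun u hu => not_not.1 fun h => hcon ⟨u, hu, h⟩
    have h3 : finrank F (Z ⊔ F ∙ b : Submodule F V) ≤ 3 := by
      have := finrank_sup_span_le Z b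
      have hzd : finrank F Z ≤ 2 := finrank_zspan_le (A := A) v
      omega
    have h4 := Submodule.finrank_mono hle
    rcases hr with hr | ⟨hr, hvI⟩
    · omega
    · exact hvI ((Submodule.eq_of_le_of_finrank_le hle (by omega)).ge
        (Submodule.mem_sup_left (self_mem_zspan v)))
  obtain ⟨φ1, hb1, hz1⟩ : ∃ φ1 : V →ₗ[F] F, φ1 b ≠ 0 ∧ ∀ z ∈ Z, φ1 z = φ0 z := by
    by_cases hbZ : b ∈ Z
    · refine ⟨φ0, ?_, fun z _ => rfl⟩
      obtain ⟨α, β, hab⟩ := mem_zspan.1 hbZ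
      rw [← hab, map_add, map_smul, map_smul, h1, h0, smul_zero, add_zero, smul_eq_mul, mul_one]
      intro hα
      exact hb (Submodule.mem_span_singleton.2 ⟨β, by rw [← hab, hα, zero_smul, zero_add]⟩)
    · obtain ⟨φ1, hb1, hz⟩ := exists_dual_ext hbZ φ0 1
      exact ⟨φ1, by rw [hb1]; exact one_ne_zero, hz⟩
  obtain ⟨φ, hu2, hz2⟩ := exists_dual_ext hu φ1 1
  have key : ∀ ψ : V →ₗ[F] F, (∀ z ∈ Z ⊔ F ∙ b ⊔ F ∙ u, ψ z = φ z) →
      Pivot A v ψ ∧ ψ b ≠ 0 ∧ ψ u ≠ 0 := by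
    intro ψ hψ
    have hbm : b ∈ Z ⊔ F ∙ b := Submodule.mem_sup_right (Submodule.mem_span_singleton_self b)
    refine ⟨base_eq_on h1 h0 fun z hz => ?_, ?_, ?_⟩
    · rw [hψ z (Submodule.mem_sup_left (Submodule.mem_sup_left hz)), hz2 z (Submodule.mem_sup_left hz),
        hz1 z hz]
    · rwa [hψ b (Submodule.mem_sup_left hbm), hz2 b hbm]
    · rw [hψ u (Submodule.mem_sup_right (Submodule.mem_span_singleton_self u)), hu2]
      exact one_ne_zero
  exact ⟨φ, u, huI, (key φ fun _ _ => rfl).1, (key φ fun _ _ => rfl).2.1, (key φ fun _ _ => rfl).2.2, key⟩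

/-- Pivot with non-zero values on `b`, on the image and on the kernel of `A - 1`. -/
theorem exists_values₂ [FiniteDimensional F V] (hA : Function.Injective A) {v b : V} (hv : A v - v ∉ F ∙ v)
    (hb : b ∉ F ∙ (A v - v)) (hr : finrank F (im1 A) = 3) (hm : 5 ≤ finrank F V) (hvI : v ∉ im1 A)
    (hvK : v ∉ ker1 A)
    (hH : im1 A ⊔ ker1 A = ⊤ ∨ (v ∉ im1 A ⊔ ker1 A ∧ (b ∈ im1 A ⊔ ker1 A ∨
      v ∉ im1 A ⊔ ker1 A ⊔ F ∙ b ∨
      (finrank F (im1 A ⊔ ker1 A : Submodule F V) + 1 = finrank F V ∧ A v - v ∉ ker1 A)))) :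
    ∃ φ, ∃ u ∈ im1 A, ∃ k ∈ ker1 A, Pivot A v φ ∧ φ b ≠ 0 ∧ φ u ≠ 0 ∧ φ k ≠ 0 := by
  obtain ⟨φ0, h1, h0⟩ := exists_base hv
  set Z := zspan A v
  set I := im1 A with hI
  set K := ker1 A with hK
  have hKd : 2 ≤ finrank F K := by have := finrank_im1_add (A := A); rw [← hI, ← hK] at this; omega
  have hZd : finrank F Z ≤ 2 := finrank_zspan_le (A := A) v
  have hI3 : ∀ z, finrank F (Z ⊔ F ∙ z : Submodule F V) ≤ 3 := fun z => by
    have := finrank_sup_span_le Z z; omega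
  have huex : ∀ z, ∃ u ∈ I, u ∉ Z ⊔ F ∙ z := by
    intro z
    by_contra hcon
    have hle : I ≤ Z ⊔ F ∙ z := fun u hu => not_not.1 fun h => hcon ⟨u, hu, h⟩
    exact hvI ((Submodule.eq_of_le_of_finrank_le hle (by have := hI3 z; omega)).ge
      (Submodule.mem_sup_left (self_mem_zspan v)))
  have hKZ : ¬ K ≤ Z := fun hle => hvK ((Submodule.eq_of_le_of_finrank_le hle (by omega)).ge (self_mem_zspan v))
  by_cases hbZ : b ∈ Z
  · -- the value on `b` is forced and non-zero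
    obtain ⟨k, hk, hkZ⟩ := SetLike.not_le_iff_exists.1 hKZ
    obtain ⟨u, hu, hu'⟩ := huex k
    obtain ⟨φ1, hk1, hz1⟩ := exists_dual_ext hkZ φ0 1
    obtain ⟨φ, hu2, hz2⟩ := exists_dual_ext hu' φ1 1
    obtain ⟨α, β, hab⟩ := mem_zspan.1 hbZ
    have hz : ∀ z ∈ Z, φ z = φ0 z := fun z hz => by rw [hz2 z (Submodule.mem_sup_left hz), hz1 z hz]
    refine ⟨φ, u, hu, k, hk, base_eq_on h1 h0 hz, ?_, by rw [hu2]; exact one_ne_zero, ?_⟩
    · rw [hz b hbZ, ← hab, map_add, map_smul, map_smul, h1, h0, smul_zero, add_zero, smul_eq_mul, mul_one]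
      intro hα
      exact hb (Submodule.mem_span_singleton.2 ⟨β, by rw [← hab, hα, zero_smul, zero_add]⟩)
    · rw [hz2 k (Submodule.mem_sup_right (Submodule.mem_span_singleton_self k)), hk1]; exact one_ne_zero
  have hbm : b ∈ Z ⊔ F ∙ b := Submodule.mem_sup_right (Submodule.mem_span_singleton_self b)
  by_cases hf1 : K ≤ Z ⊔ F ∙ b
  · obtain ⟨k, hk, hkZ⟩ := SetLike.not_le_iff_exists.1 hKZ
    obtain ⟨ζ, hζ, y, hy, hky⟩ := Submodule.mem_sup.1 (hf1 hk)
    obtain ⟨γ, rfl⟩ := Submodule.mem_span_singleton.1 hy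
    have hγ : γ ≠ 0 := fun h => hkZ (by rw [← hky, h, zero_smul, add_zero]; exact hζ)
    obtain ⟨α, β, hab⟩ := mem_zspan.1 hζ
    obtain ⟨u, hu, hu'⟩ := huex b
    have hex : ∃ t : F, t ≠ 0 ∧ α + γ * t ≠ 0 := by
      by_cases hα : α = 0
      · exact ⟨1, one_ne_zero, by rw [hα, zero_add, mul_one]; exact hγ⟩
      by_cases hτ : ∃ τ : F, τ ≠ 0 ∧ τ ≠ 1
      · obtain ⟨τ, hτ0, hτ1⟩ := hτ
        by_cases h' : α + γ * 1 = 0
        · refine ⟨τ, hτ0, fun h'' => hτ1 ?_⟩
          refine mul_left_cancel₀ hγ ?_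
          linear_combination h'' - h'
        · exact ⟨1, one_ne_zero, h'⟩
      exfalso
      have hbool : ∀ t : F, t ≠ 0 → t = 1 := fun t ht => not_not.1 fun h => hτ ⟨t, ht, h⟩
      have hα1 : α = 1 := hbool α hα
      have hvb : v ∈ K ⊔ I ⊔ F ∙ b := by
        have : v = k - γ • b - β • (A v - v) := by
          rw [← hky, ← hab, hα1, one_smul]; abel
        rw [this]
        exact sub_mem (sub_mem (Submodule.mem_sup_left (Submodule.mem_sup_left hk))
          (Submodule.smul_mem _ _ (Submodule.mem_sup_right (Submodule.mem_span_singleton_self b))))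
          (Submodule.smul_mem _ _ (Submodule.mem_sup_left (Submodule.mem_sup_right (sub_mem_im1 v))))
      have contra : K ⊓ Z = ⊥ → False := fun hdis => by
        have h6 := Submodule.finrank_sup_add_finrank_inf_eq K Z
        rw [hdis, finrank_bot] at h6
        have h7 : K ⊔ Z ≤ Z ⊔ F ∙ b := sup_le hf1 le_sup_left
        have := Submodule.finrank_mono h7
        have := hI3 b
        have hv0 : v ≠ 0 := fun h => hv (by simp [h])
        have hlt : F ∙ v < Z := lt_of_le_of_ne le_sup_left fun he => hv (he ▸ img_mem_zspan v)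
        have := Submodule.finrank_lt_finrank_of_lt hlt
        rw [finrank_span_singleton hv0] at this
        omega
      have hw0 : A v - v ≠ 0 := fun h => hv (h ▸ zero_mem _)
      rcases hH with hH | ⟨hvH, hbH | hvH' | ⟨-, hNv⟩⟩
      · refine contra ((Submodule.eq_bot_iff _).2 ?_)
        rintro z ⟨hzK, hzZ⟩
        obtain ⟨a, c, rfl⟩ := mem_zspan.1 hzZ
        have h2 := mem_ker1.1 hzK
        by_cases hc : c = 0
        · by_cases ha : a = 0
          · simp [ha, hc]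
          · rw [hc, zero_smul, add_zero, map_smul] at h2
            exact absurd (sub_eq_zero.2 (smul_right_injective V ha h2)) hw0
        rw [hbool c hc] at hzK h2 ⊢
        rw [one_smul] at hzK h2 ⊢
        by_cases ha : a = 0
        · rw [ha, zero_smul, zero_add] at hzK
          have h6 := Submodule.finrank_sup_add_finrank_inf_eq I K
          rw [hH, finrank_top] at h6
          have h7 := finrank_im1_add (A := A)
          rw [← hI, ← hK] at h7
          have hbot : I ⊓ K = ⊥ := Submodule.finrank_eq_zero.1 (by omega)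
          exact absurd ((Submodule.mem_bot F).1 (hbot ▸ Submodule.mem_inf.2 ⟨sub_mem_im1 v, hzK⟩)) hw0
        · rw [hbool a ha, one_smul, add_sub_cancel] at h2
          exact absurd (sub_eq_zero.2 (hA h2)) hw0
      · exact hvH (by
          rw [sup_comm K I] at hvb
          have : F ∙ b ≤ I ⊔ K := (Submodule.span_singleton_le_iff_mem _ _).2 hbH
          rwa [sup_eq_left.2 this] at hvb)
      · exact hvH' (by rwa [sup_comm K I] at hvb)
      · refine contra ((Submodule.eq_bot_iff _).2 ?_)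
        rintro z ⟨hzK, hzZ⟩
        obtain ⟨a, c, rfl⟩ := mem_zspan.1 hzZ
        have ha : a = 0 := by
          by_contra ha
          refine hvH ?_
          have e : v = a⁻¹ • ((a • v + c • (A v - v)) - c • (A v - v)) := by
            rw [add_sub_cancel_right, inv_smul_smul₀ ha]
          rw [e]
          exact Submodule.smul_mem _ _ (sub_mem (Submodule.mem_sup_right hzK)
            (Submodule.smul_mem _ _ (Submodule.mem_sup_left (sub_mem_im1 v))))
        rw [ha, zero_smul, zero_add] at hzK ⊢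
        by_contra hne
        have hc : c ≠ 0 := fun h => hne (by rw [h, zero_smul])
        exact hNv (by simpa [hc] using Submodule.smul_mem K c⁻¹ hzK)
    obtain ⟨t, ht, htγ⟩ := hex
    obtain ⟨φ1, hb1, hz1⟩ := exists_dual_ext hbZ φ0 t
    obtain ⟨φ, hu2, hz2⟩ := exists_dual_ext hu' φ1 1
    have hz : ∀ z ∈ Z, φ z = φ0 z := fun z hz => by rw [hz2 z (Submodule.mem_sup_left hz), hz1 z hz]
    refine ⟨φ, u, hu, k, hk, base_eq_on h1 h0 hz, by rw [hz2 b hbm, hb1]; exact ht,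
      by rw [hu2]; exact one_ne_zero, ?_⟩
    rw [← hky, map_add, map_smul, hz ζ hζ, hz2 b hbm, hb1, ← hab, map_add, map_smul, map_smul, h1, h0,
      smul_zero, add_zero, smul_eq_mul, mul_one, smul_eq_mul]
    exact htγ
  have hfree : ∀ k, k ∈ K → k ∉ Z ⊔ F ∙ b → (∃ u ∈ I, u ∉ Z ⊔ F ∙ b ⊔ F ∙ k) →
      ∃ φ, ∃ u ∈ im1 A, ∃ k ∈ ker1 A, Pivot A v φ ∧ φ b ≠ 0 ∧ φ u ≠ 0 ∧ φ k ≠ 0 := by
    rintro k hk hkb ⟨u, hu, hu'⟩
    obtain ⟨φ1, hb1, hz1⟩ := exists_dual_ext hbZ φ0 1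
    obtain ⟨φ2, hk2, hz2⟩ := exists_dual_ext hkb φ1 1
    obtain ⟨φ, hu3, hz3⟩ := exists_dual_ext hu' φ2 1
    refine ⟨φ, u, hu, k, hk, base_eq_on h1 h0 fun z hz => ?_, ?_, by rw [hu3]; exact one_ne_zero, ?_⟩
    · rw [hz3 z (Submodule.mem_sup_left (Submodule.mem_sup_left hz)), hz2 z (Submodule.mem_sup_left hz), hz1 z hz]
    · rw [hz3 b (Submodule.mem_sup_left hbm), hz2 b hbm, hb1]; exact one_ne_zero
    · rw [hz3 k (Submodule.mem_sup_right (Submodule.mem_span_singleton_self k)), hk2]; exact one_ne_zero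
  have hJ : ∀ k, I ≤ Z ⊔ F ∙ b ⊔ F ∙ k → Z ⊔ F ∙ b ⊔ F ∙ k ≤ I ⊔ F ∙ v := by
    intro k hle
    refine (Submodule.eq_of_le_of_finrank_le (sup_le hle ?_) ?_).ge
    · exact (Submodule.span_singleton_le_iff_mem _ _).2
        (Submodule.mem_sup_left (Submodule.mem_sup_left (self_mem_zspan v)))
    · have := finrank_sup_span_le (Z ⊔ F ∙ b) k
      have := hI3 b
      have hv0 : v ≠ 0 := fun h => hv (by simp [h])
      have h5 := finrank_sup_add_finrank_inf_eq' I v
      have hinf : I ⊓ F ∙ v = ⊥ := disjoint_iff.1 (Submodule.disjoint_span_singleton_of_notMem hvI)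
      rw [hinf, finrank_bot, finrank_span_singleton hv0] at h5
      omega
  by_cases hf2 : K ≤ I ⊔ F ∙ v
  · obtain ⟨k, hk, hkb⟩ := SetLike.not_le_iff_exists.1 hf1
    by_cases hu : ∃ u ∈ I, u ∉ Z ⊔ F ∙ b ⊔ F ∙ k
    · exact hfree k hk hkb hu
    have hle : I ≤ Z ⊔ F ∙ b ⊔ F ∙ k := fun u h => not_not.1 fun h' => hu ⟨u, h, h'⟩
    have hbJ : b ∈ I ⊔ F ∙ v := hJ k hle (Submodule.mem_sup_left hbm)
    have hHle : I ⊔ K ≤ I ⊔ F ∙ v := sup_le le_sup_left hf2
    have hv0 : v ≠ 0 := fun h => hv (by simp [h])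
    have h5 := finrank_sup_add_finrank_inf_eq' I v
    have hinf : I ⊓ F ∙ v = ⊥ := disjoint_iff.1 (Submodule.disjoint_span_singleton_of_notMem hvI)
    rw [hinf, finrank_bot, finrank_span_singleton hv0] at h5
    have h6 := Submodule.finrank_mono hHle
    rcases hH with hH | ⟨hvH, hcases⟩
    · rw [hH, finrank_top] at h6; omega
    have hKI : K ≤ I := by
      intro z hz
      obtain ⟨i, hi, y, hy, hzy⟩ := Submodule.mem_sup.1 (hf2 hz)
      obtain ⟨a, rfl⟩ := Submodule.mem_span_singleton.1 hy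
      by_cases ha : a = 0
      · rwa [← hzy, ha, zero_smul, add_zero]
      · refine absurd ?_ hvH
        have e : v = a⁻¹ • (z - i) := by rw [← hzy, add_sub_cancel_left, inv_smul_smul₀ ha]
        rw [e]
        exact Submodule.smul_mem _ _ (sub_mem (Submodule.mem_sup_right hz) (Submodule.mem_sup_left hi))
    obtain ⟨i, hi, y, hy, hby⟩ := Submodule.mem_sup.1 hbJ
    obtain ⟨a, rfl⟩ := Submodule.mem_span_singleton.1 hy
    have ha : a = 0 := by
      by_contra ha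
      have e : v = a⁻¹ • (b - i) := by rw [← hby, add_sub_cancel_left, inv_smul_smul₀ ha]
      rcases hcases with hbH | hvH' | ⟨hHd, -⟩
      · exact hvH (e ▸ Submodule.smul_mem _ _ (sub_mem hbH (Submodule.mem_sup_left hi)))
      · exact hvH' (e ▸ Submodule.smul_mem _ _ (sub_mem
          (Submodule.mem_sup_right (Submodule.mem_span_singleton_self b))
          (Submodule.mem_sup_left (Submodule.mem_sup_left hi))))
      · rw [sup_eq_left.2 hKI] at hHd; omega
    have hbI : b ∈ I := by rwa [← hby, ha, zero_smul, add_zero]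
    obtain ⟨φ1, hb1, hz1⟩ := exists_dual_ext hbZ φ0 1
    obtain ⟨φ, hk2, hz2⟩ := exists_dual_ext hkb φ1 1
    refine ⟨φ, b, hbI, k, hk, base_eq_on h1 h0 fun z hz => ?_, ?_, ?_, by rw [hk2]; exact one_ne_zero⟩
    · rw [hz2 z (Submodule.mem_sup_left hz), hz1 z hz]
    · rw [hz2 b hbm, hb1]; exact one_ne_zero
    · rw [hz2 b hbm, hb1]; exact one_ne_zero
  · obtain ⟨k, hk1, hk2⟩ := exists_not_mem₂ (H₁ := (Z ⊔ F ∙ b).comap K.subtype)
      (H₂ := (I ⊔ F ∙ v).comap K.subtype)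
      (fun h => hf1 fun z hz => by
        have : (⟨z, hz⟩ : K) ∈ (Z ⊔ F ∙ b).comap K.subtype := h ▸ Submodule.mem_top
        exact this)
      (fun h => hf2 fun z hz => by
        have : (⟨z, hz⟩ : K) ∈ (I ⊔ F ∙ v).comap K.subtype := h ▸ Submodule.mem_top
        exact this)
    refine hfree (k : V) k.2 hk1 ?_
    by_contra hu
    have hle : I ≤ Z ⊔ F ∙ b ⊔ F ∙ (k : V) := fun u h => not_not.1 fun h' => hu ⟨u, h, h'⟩
    exact hk2 (hJ _ hle (Submodule.mem_sup_right (Submodule.mem_span_singleton_self _)))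

end CfsgLib.CharDegrees.Thompson
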