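import Cfsg.Agent.Lib.CharDegrees.Thompson.Base
import Cfsg.Agent.Lib.CharDegrees.Thompson.Check

/-!
The base of the recursion over the fields with two and three elements.
-/

set_option autoImplicit false
set_option linter.unusedSectionVars false

namespace CfsgLib.CharDegrees.Thompson

open Module

variable {F : Type*} [Field F] {V : Type*} [AddCommGroup V] [Module F V] [FiniteDimensional F V]

theorem Pivot.trace_compl {A : Module.End F V} {v : V} {φ : V →ₗ[F] F} (h : Pivot A v φ) :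
    LinearMap.trace F (LinearMap.ker φ) h.compl = LinearMap.trace F V A - φ (A (A v)) := by
  have h1 : h.proj ∘ₗ ((LinearMap.ker φ).subtype ∘ₗ h.compl) = h.compl :=
    LinearMap.ext fun w => h.proj_mem _
  have h2 : ((LinearMap.ker φ).subtype ∘ₗ h.compl) ∘ₗ h.proj = A - (φ ∘ₗ A).smulRight (A v) :=
    LinearMap.ext fun z => by
      simp only [LinearMap.comp_apply, Submodule.subtype_apply, Pivot.coe_compl, Pivot.coe_proj,
        map_sub, map_smul, LinearMap.sub_apply, LinearMap.smulRight_apply, h.img, smul_eq_mul, mul_one]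
      module
  rw [← LinearMap.trace_smulRight (φ ∘ₗ A) (A v) |>.trans (by rfl : (φ ∘ₗ A) (A v) = φ (A (A v))),
    ← map_sub, ← h2]
  conv_lhs => rw [← h1]
  exact (LinearMap.trace_comp_comm' _ _)

theorem indep_three {v u w : V} (hv : u ∉ F ∙ v) (hv0 : v ≠ 0) (hw : w ∉ F ∙ v ⊔ F ∙ u) :
    LinearIndependent F ![v, u, w] := by
  rw [Fintype.linearIndependent_iff]
  intro g hg
  simp only [Fin.sum_univ_three, Matrix.cons_val_zero, Matrix.cons_val_one, Matrix.cons_val_two,
    Matrix.tail_cons, Matrix.head_cons] at hg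
  have h2 : g 2 = 0 := by
    by_contra h
    refine hw ?_
    have e : w = (g 2)⁻¹ • (-(g 0 • v + g 1 • u)) := by
      rw [← eq_neg_of_add_eq_zero_right hg, inv_smul_smul₀ h]
    rw [e]
    exact Submodule.smul_mem _ _ (neg_mem (add_mem
      (Submodule.mem_sup_left (Submodule.smul_mem _ _ (Submodule.mem_span_singleton_self v)))
      (Submodule.mem_sup_right (Submodule.smul_mem _ _ (Submodule.mem_span_singleton_self u)))))
  rw [h2, zero_smul, add_zero] at hg
  have h1 : g 1 = 0 := by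
    by_contra h
    refine hv (Submodule.mem_span_singleton.2 ⟨-(g 1)⁻¹ * g 0, ?_⟩)
    rw [← inv_smul_smul₀ h u, eq_neg_of_add_eq_zero_right hg]; module
  rw [h1, zero_smul, add_zero] at hg
  intro i; fin_cases i
  · exact (smul_eq_zero.1 hg).resolve_right hv0
  · exact h1
  · exact h2

/-- An involution: the pivot with complement `-1`. -/
theorem invol_pivot (h2 : (2 : F) ≠ 0) {A : Module.End F V} (hd : finrank F V = 3) (hA2 : A * A = 1)
    {b : V} {c : V →ₗ[F] F} (hb0 : b ≠ 0) (hc : c ≠ 0) (hgood : Good3 A b c) :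
    ∃ v φ, ∃ h : Pivot A v φ, φ b ≠ 0 ∧ c v ≠ 0 ∧ h.compl = -1 := by
  obtain ⟨hns, hr, hnb⟩ := hgood
  have hAA : ∀ z, A (A z) = z := fun z => LinearMap.congr_fun hA2 z
  have hI : ∀ i ∈ im1 A, A i = -i := by
    rintro _ ⟨z, rfl⟩
    simp [hAA]
  have hI' : ∀ z, A z = -z → z ∈ im1 A := fun z hz =>
    ⟨(-2⁻¹ : F) • z, by
      rw [map_smul, LinearMap.sub_apply, Module.End.one_apply, hz, show -z - z = (-2 : F) • z by module,
        smul_smul, neg_mul_neg, inv_mul_cancel₀ h2, one_smul]⟩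
  have hsum := finrank_im1_add (A := A)
  have hr2 : finrank F (im1 A) = 2 := by
    by_contra hne
    refine hns (-1) (LinearMap.ext fun z => ?_)
    have htop : im1 A = ⊤ := Submodule.eq_top_of_finrank_eq (by omega)
    rw [LinearMap.smul_apply, Module.End.one_apply, neg_one_smul]
    exact hI z (htop ▸ Submodule.mem_top)
  obtain ⟨k, hk, hk0⟩ := Submodule.exists_mem_ne_zero_of_ne_bot (p := ker1 A)
    (fun hb => by rw [hb, finrank_bot] at hsum; omega)
  have hAk := mem_ker1.1 hk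
  have hkI : k ∉ im1 A := fun h => hk0 (by
    have h' := (hI k h).symm.trans hAk
    have : (2 : F) • k = 0 := by rw [two_smul]; nth_rw 1 [← h']; exact neg_add_cancel k
    exact (smul_eq_zero.1 this).resolve_left h2)
  have htop : im1 A ⊔ F ∙ k = ⊤ := by
    refine Submodule.eq_top_of_finrank_eq ?_
    have := Submodule.finrank_sup_add_finrank_inf_eq (im1 A) (F ∙ k)
    rw [disjoint_iff.1 (Submodule.disjoint_span_singleton_of_notMem hkI), finrank_bot,
      finrank_span_singleton hk0] at this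
    omega
  have hdec : ∀ z : V, ∃ i ∈ im1 A, ∃ γ : F, z = i + γ • k := fun z => by
    obtain ⟨i, hi, y, hy, hz⟩ := Submodule.mem_sup.1 (htop ▸ (Submodule.mem_top : z ∈ ⊤))
    obtain ⟨γ, rfl⟩ := Submodule.mem_span_singleton.1 hy
    exact ⟨i, hi, γ, hz.symm⟩
  have hneg : ∀ {v : V} {φ : V →ₗ[F] F} (h : Pivot A v φ),
      (∀ w, φ w = 0 → A w - φ (A w) • A v = -w) → h.compl = -1 := fun h hw =>
    LinearMap.ext fun w => Subtype.ext (by
      simp only [Pivot.coe_compl, LinearMap.neg_apply, Module.End.one_apply, Submodule.coe_neg]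
      exact hw w w.2)
  by_cases hb : b ∈ im1 A
  · have hck : c k ≠ 0 := fun h0 => hnb ⟨hr2, hb, fun z hz => by
      obtain ⟨i, hi, γ, rfl⟩ := hdec z
      have hAz := mem_ker1.1 hz
      rw [map_add, map_smul, hAk, hI i hi, add_left_inj] at hAz
      have : (2 : F) • i = 0 := by rw [two_smul]; nth_rw 1 [← hAz]; exact neg_add_cancel i
      rw [(smul_eq_zero.1 this).resolve_left h2, zero_add, map_smul, h0, smul_zero]⟩
    have hbk : b ∉ F ∙ k := fun h => by
      obtain ⟨γ, rfl⟩ := Submodule.mem_span_singleton.1 h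
      by_cases hγ : γ = 0
      · exact hb0 (by rw [hγ, zero_smul])
      · exact hkI (by simpa [hγ] using Submodule.smul_mem _ γ⁻¹ hb)
    obtain ⟨φ0, hk1, -⟩ := exists_dual_ext (show k ∉ (⊥ : Submodule F V) from fun h => hk0 ((Submodule.mem_bot F).1 h)) 0 1
    obtain ⟨φ, hb1, hz⟩ := exists_dual_ext hbk φ0 1
    have hφk : φ k = 1 := by rw [hz k (Submodule.mem_span_singleton_self k), hk1]
    have h : Pivot A k φ := ⟨hφk, by rw [hAk, hφk]⟩
    refine ⟨k, φ, h, by rw [hb1]; exact one_ne_zero, hck, hneg h fun w hw => ?_⟩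
    obtain ⟨i, hi, γ, rfl⟩ := hdec w
    rw [map_add, map_smul, hφk, smul_eq_mul, mul_one] at hw
    rw [map_add, map_smul, hAk, hI i hi, map_add, map_neg, map_smul, hφk, smul_eq_mul, mul_one,
      eq_neg_of_add_eq_zero_left hw]
    module
  · obtain ⟨i, hi, a, ha, hci, hi0⟩ : ∃ i ∈ im1 A, ∃ a : F, a ≠ 0 ∧ c (i + a • k) ≠ 0 ∧ i ≠ 0 := by
      obtain ⟨i, hi, hi0⟩ := Submodule.exists_mem_ne_zero_of_ne_bot (p := im1 A)
        (fun hb' => by rw [hb', finrank_bot] at hr2; omega)
      by_cases hck : c k = 0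
      · obtain ⟨z, hz⟩ : ∃ z, c z ≠ 0 := by
          by_contra h
          simp only [not_exists, not_not] at h
          exact hc (LinearMap.ext h)
        obtain ⟨j, hj, γ, rfl⟩ := hdec z
        rw [map_add, map_smul, hck, smul_zero, add_zero] at hz
        exact ⟨j, hj, 1, one_ne_zero, by rw [map_add, map_smul, hck, smul_zero, add_zero]; exact hz,
          fun h0 => hz (by rw [h0, map_zero])⟩
      · by_cases h1 : c (i + (1 : F) • k) = 0
        · refine ⟨i, hi, -1, neg_ne_zero.2 one_ne_zero, fun h' => hck ?_, hi0⟩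
          have e : (2 : F) * c k = 0 := by
            simp only [map_add, map_smul, smul_eq_mul] at h1 h'
            linear_combination h1 - h'
          exact (mul_eq_zero.1 e).resolve_left h2
        · exact ⟨i, hi, 1, one_ne_zero, h1, hi0⟩
    obtain ⟨φ, hφk, hz⟩ := exists_dual_ext hkI 0 a⁻¹
    have hφI : ∀ j ∈ im1 A, φ j = 0 := fun j hj => hz j hj
    have h : Pivot A (i + a • k) φ := ⟨by
        rw [map_add, map_smul, hφI i hi, hφk, smul_eq_mul, mul_inv_cancel₀ ha, zero_add], by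
        rw [map_add, map_smul, hI i hi, hAk, map_add, map_neg, map_smul, hφI i hi, hφk, smul_eq_mul,
          mul_inv_cancel₀ ha, neg_zero, zero_add]⟩
    refine ⟨i + a • k, φ, h, ?_, hci, hneg h fun w hw => ?_⟩
    · obtain ⟨j, hj, γ, hbe⟩ := hdec b
      rw [hbe, map_add, map_smul, hφI j hj, hφk, zero_add, smul_eq_mul]
      exact mul_ne_zero (fun h0 => hb (by rw [hbe, h0, zero_smul, add_zero]; exact hj)) (inv_ne_zero ha)
    · obtain ⟨j, hj, γ, rfl⟩ := hdec w
      rw [map_add, map_smul, hφI j hj, hφk, zero_add, smul_eq_mul] at hw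
      rw [(mul_eq_zero.1 hw).resolve_right (inv_ne_zero ha), zero_smul, add_zero, hI j hj, map_neg,
        hφI j hj, neg_zero, zero_smul, sub_zero]

theorem quad_fin_two {t : F} {Z : Matrix (Fin 2) (Fin 2) F} (ht : Z 0 0 + Z 1 1 = t)
    (hd : Z 0 0 * Z 1 1 - Z 0 1 * Z 1 0 = 1) : Z * Z - t • Z + 1 = 0 := by
  subst ht
  ext i j
  fin_cases i <;> fin_cases j <;> simp [Matrix.mul_apply, Fin.sum_univ_two] <;>
    first | linear_combination -hd | ring

theorem lt_of_mem_triples {p x y z : ℕ} (h : (x, y, z) ∈ Check.triples p) : x < p ∧ y < p ∧ z < p := by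
  simp only [Check.triples, List.mem_flatMap, List.mem_map, List.mem_range] at h
  obtain ⟨a, ha, b, hb, c, hc, he⟩ := h
  simp only [Prod.mk.injEq] at he
  obtain ⟨rfl, rfl, rfl⟩ := he
  exact ⟨ha, hb, hc⟩

theorem lt_of_mem_quads {p x y z w : ℕ} (h : (x, y, z, w) ∈ Check.quads p) :
    x < p ∧ y < p ∧ z < p ∧ w < p := by
  simp only [Check.quads, List.mem_flatMap, List.mem_map, List.mem_range] at h
  obtain ⟨a, ha, ⟨b, c, d⟩, ht, he⟩ := h
  simp only [Prod.mk.injEq] at he
  obtain ⟨rfl, rfl, rfl, rfl⟩ := he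
  exact ⟨ha, lt_of_mem_triples ht⟩

section Card

variable {p : ℕ} [CharP F p] [Fintype F] (hF : Fintype.card F = p)

include hF

theorem p_pos : 0 < p := hF ▸ Fintype.card_pos

theorem exists_rep (x : F) : ∃ n, n < p ∧ (n : F) = x := by
  have hinj : Function.Injective (fun i : Fin p => ((i : ℕ) : F)) := fun i j h =>
    Fin.ext (CharP.natCast_injOn_Iio F p (Set.mem_Iio.2 i.isLt) (Set.mem_Iio.2 j.isLt) h)
  obtain ⟨i, hi⟩ := ((Fintype.bijective_iff_injective_and_card _).2
    ⟨hinj, by rw [Fintype.card_fin, hF]⟩).2 x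
  exact ⟨i, i.isLt, hi⟩

theorem rep_inj {m n : ℕ} (hm : m < p) (hn : n < p) (h : (m : F) = n) : m = n :=
  CharP.natCast_injOn_Iio F p (Set.mem_Iio.2 hm) (Set.mem_Iio.2 hn) h

theorem cast_mod (x : ℕ) : ((x % p : ℕ) : F) = x := by
  conv_rhs => rw [← Nat.mod_add_div x p]
  rw [Nat.cast_add, Nat.cast_mul, CharP.cast_eq_zero F p, zero_mul, add_zero]

theorem cast_ne_zero {x : ℕ} (h : x % p ≠ 0) : (x : F) ≠ 0 := fun h0 =>
  h (Nat.dvd_iff_mod_eq_zero.1 ((CharP.cast_eq_zero_iff F p x).1 h0))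

theorem cast_sub_one : ((p - 1 : ℕ) : F) = -1 := by
  rw [Nat.cast_sub (p_pos hF), CharP.cast_eq_zero F p, Nat.cast_one, zero_sub]

/-- The Schur complements allowed over small fields. -/
theorem allowed_of_small {sn : ℕ} (hsn : sn < p) (hchk : Check.checkFactor p sn = true)
    {S : Module.End F V} (hd : finrank F V = 2) (hdet : LinearMap.det S = 1)
    (hS : LinearMap.trace F V S = sn ∨ S = 1 ∨ S = -1) : Allowed (sn : F) S := by
  set bs := finBasisOfFinrankEq F V hd
  set M := LinearMap.toMatrix bs bs S with hM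
  obtain ⟨a, ha, ea⟩ := exists_rep hF (M 0 0)
  obtain ⟨b, hb, eb⟩ := exists_rep hF (M 0 1)
  obtain ⟨c, hc, ec⟩ := exists_rep hF (M 1 0)
  obtain ⟨d, hd', ed⟩ := exists_rep hF (M 1 1)
  have hdetM : M 0 0 * M 1 1 - M 0 1 * M 1 0 = 1 := by
    rw [← Matrix.det_fin_two, hM, LinearMap.det_toMatrix, hdet]
  have hp1 : p - 1 < p := Nat.sub_lt (p_pos hF) one_pos
  have h0 : (0 : F) = ((0 : ℕ) : F) := Nat.cast_zero.symm
  have h1 : (1 : F) = ((1 : ℕ) : F) := Nat.cast_one.symm
  have hp2 : 1 < p := by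
    rw [← hF]; exact Fintype.one_lt_card
  simp only [Check.checkFactor, List.all_eq_true] at hchk
  have hm := hchk (a, b, c, d) (Check.mem_quads ha hb hc hd')
  have hdet' : a * d % p = (1 + b * c) % p := by
    refine rep_inj (F := F) hF (Nat.mod_lt _ (p_pos hF)) (Nat.mod_lt _ (p_pos hF)) ?_
    rw [cast_mod hF, cast_mod hF]
    push_cast
    rw [ea, eb, ec, ed]
    linear_combination hdetM
  have hcond : ((a + d) % p = sn) ∨ (a = p - 1 ∧ d = p - 1 ∧ b = 0 ∧ c = 0) ∨
      (a = 1 ∧ d = 1 ∧ b = 0 ∧ c = 0) := by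
    rcases hS with hS | hS | hS
    · refine Or.inl (rep_inj (F := F) hF (Nat.mod_lt _ (p_pos hF)) hsn ?_)
      rw [cast_mod hF, Nat.cast_add, ea, ed, ← hS, LinearMap.trace_eq_matrix_trace F bs, ← hM,
        Matrix.trace_fin_two]
    · refine Or.inr (Or.inr ⟨?_, ?_, ?_, ?_⟩)
      · exact rep_inj (F := F) hF ha hp2 (by rw [ea, hM, hS, LinearMap.toMatrix_one]; simp)
      · exact rep_inj (F := F) hF hd' hp2 (by rw [ed, hM, hS, LinearMap.toMatrix_one]; simp)
      · exact rep_inj (F := F) hF hb (p_pos hF) (by rw [eb, hM, hS, LinearMap.toMatrix_one]; simp)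
      · exact rep_inj (F := F) hF hc (p_pos hF) (by rw [ec, hM, hS, LinearMap.toMatrix_one]; simp)
    · refine Or.inr (Or.inl ⟨?_, ?_, ?_, ?_⟩)
      · exact rep_inj (F := F) hF ha hp1 (by rw [ea, cast_sub_one hF, hM, hS, map_neg, LinearMap.toMatrix_one]; simp)
      · exact rep_inj (F := F) hF hd' hp1 (by rw [ed, cast_sub_one hF, hM, hS, map_neg, LinearMap.toMatrix_one]; simp)
      · exact rep_inj (F := F) hF hb (p_pos hF) (by rw [eb, hM, hS, map_neg, LinearMap.toMatrix_one]; simp)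
      · exact rep_inj (F := F) hF hc (p_pos hF) (by rw [ec, hM, hS, map_neg, LinearMap.toMatrix_one]; simp)
  simp only [Bool.or_eq_true, bne_iff_ne, ne_eq, Bool.not_eq_true', Bool.or_eq_false_iff,
    List.any_eq_true] at hm
  have hany : ∃ x ∈ Check.quads p, Check.okFactor p sn (a, b, c, d) x = true := by
    rcases hm with (hm | ⟨hm1, hm2⟩) | hm
    · exact absurd hdet' hm
    · simp only [beq_eq_false_iff_ne, ne_eq, Bool.and_eq_false_iff] at hm1 hm2
      rcases hcond with h | ⟨r1, r2, r3, r4⟩ | ⟨r1, r2, r3, r4⟩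
      · exact absurd h hm1.1
      · simp [r1, r2, r3, r4] at hm1
      · simp [r1, r2, r3, r4] at hm2
    · exact hm
  obtain ⟨⟨x00, x01, x10, x11⟩, hxq, hok⟩ := hany
  obtain ⟨l0, l1, l2, l3⟩ := lt_of_mem_quads hxq
  simp only [Check.okFactor, Check.quot, Check.nsc, Bool.and_eq_true, beq_iff_eq, Bool.or_eq_true,
    bne_iff_ne, ne_eq] at hok
  obtain ⟨⟨⟨⟨t1, t2⟩, t3⟩, t4⟩, t5⟩ := hok
  have c1 := congrArg (fun n : ℕ => (n : F)) t1
  have c2 := congrArg (fun n : ℕ => (n : F)) t2
  have c4 := congrArg (fun n : ℕ => (n : F)) t4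
  simp only [cast_mod hF, Nat.cast_add, Nat.cast_mul, Nat.cast_one] at c1 c2 c4
  rw [cast_sub_one hF, ea, eb, ec, ed] at c4
  set X : Matrix (Fin 2) (Fin 2) F := !![(x00 : F), (x01 : F); (x10 : F), (x11 : F)] with hX
  set Y : Matrix (Fin 2) (Fin 2) F := !![(x11 : F), -(x01 : F); -(x10 : F), (x00 : F)] * M with hY
  have hdX : X 0 0 * X 1 1 - X 0 1 * X 1 0 = 1 := by simp [hX]; linear_combination c2
  have y00 : Y 0 0 = (x11 : F) * M 0 0 + -1 * (x01 : F) * M 1 0 := by
    simp [hY, Matrix.mul_apply, Fin.sum_univ_two, Matrix.vecMul, dotProduct]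
  have y01 : Y 0 1 = (x11 : F) * M 0 1 + -1 * (x01 : F) * M 1 1 := by
    simp [hY, Matrix.mul_apply, Fin.sum_univ_two, Matrix.vecMul, dotProduct]
  have y10 : Y 1 0 = -1 * (x10 : F) * M 0 0 + (x00 : F) * M 1 0 := by
    simp [hY, Matrix.mul_apply, Fin.sum_univ_two, Matrix.vecMul, dotProduct]
  have y11 : Y 1 1 = -1 * (x10 : F) * M 0 1 + (x00 : F) * M 1 1 := by
    simp [hY, Matrix.mul_apply, Fin.sum_univ_two, Matrix.vecMul, dotProduct]
  have hdY : Y 0 0 * Y 1 1 - Y 0 1 * Y 1 0 = 1 := by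
    rw [← Matrix.det_fin_two, hY, Matrix.det_mul, Matrix.det_fin_two_of, Matrix.det_fin_two, hdetM]
    linear_combination c2
  refine allowed_of_matrix bs X Y ?_ (quad_fin_two ?_ hdX) (quad_fin_two ?_ hdY) ?_ ?_
  · rw [← hM, hY, ← mul_assoc, show X * !![(x11 : F), -(x01 : F); -(x10 : F), (x00 : F)] = 1 from ?_, one_mul]
    ext i j
    fin_cases i <;> fin_cases j <;> simp [hX, Matrix.mul_apply, Fin.sum_univ_two] <;>
      first | linear_combination c2 | ring
  · simpa [hX] using c1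
  · rw [y00, y11]; linear_combination c4
  · by_contra hcon
    simp only [not_or, not_not] at hcon
    obtain ⟨n10, n01, n00⟩ := hcon
    simp [hX] at n10 n01 n00
    have r1 : x10 = 0 := rep_inj (F := F) hF l2 (p_pos hF) (by rw [n10, Nat.cast_zero])
    have r2 : x01 = 0 := rep_inj (F := F) hF l1 (p_pos hF) (by rw [n01, Nat.cast_zero])
    have r3 : x00 = x11 := rep_inj (F := F) hF l0 l3 n00
    simp [r1, r2, r3] at t3
  · by_contra hcon
    simp only [not_or, not_not] at hcon
    obtain ⟨n10, n01, n00⟩ := hcon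
    rw [y10] at n10; rw [y01] at n01; rw [y00, y11] at n00
    have hlt := fun n : ℕ => Nat.mod_lt n (p_pos hF)
    rcases t5 with (t | t) | t
    · refine t (rep_inj (F := F) hF (hlt _) (p_pos hF) ?_)
      rw [cast_mod hF]; push_cast [cast_sub_one hF, ea, eb, ec, ed]; exact n01
    · refine t (rep_inj (F := F) hF (hlt _) (p_pos hF) ?_)
      rw [cast_mod hF]; push_cast [cast_sub_one hF, ea, eb, ec, ed]; exact n10
    · refine t (rep_inj (F := F) hF (hlt _) (hlt _) ?_)
      rw [cast_mod hF, cast_mod hF]; push_cast [cast_sub_one hF, ea, eb, ec, ed]; exact n00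

/-- The vector with given coordinates. -/
noncomputable def vec (bs : Basis (Fin 3) F V) (u : ℕ × ℕ × ℕ) : V :=
  (u.1 : F) • bs 0 + (u.2.1 : F) • bs 1 + (u.2.2 : F) • bs 2

/-- The functional with given coordinates. -/
noncomputable def fn (bs : Basis (Fin 3) F V) (f : ℕ × ℕ × ℕ) : V →ₗ[F] F :=
  bs.constr F ![(f.1 : F), (f.2.1 : F), (f.2.2 : F)]

theorem fn_vec (bs : Basis (Fin 3) F V) (f u : ℕ × ℕ × ℕ) :
    fn bs f (vec bs u) = (Check.dot p f u : F) := by
  simp only [fn, vec, map_add, map_smul, Basis.constr_basis, Check.dot, cast_mod hF, Nat.cast_add,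
    Nat.cast_mul, Matrix.cons_val_zero, Matrix.cons_val_one, Matrix.cons_val_two, Matrix.tail_cons,
    Matrix.head_cons, smul_eq_mul]
  ring

theorem exists_vec_rep (bs : Basis (Fin 3) F V) (z : V) :
    ∃ u ∈ Check.triples p, vec bs u = z := by
  obtain ⟨x, hx, ex⟩ := exists_rep hF (bs.repr z 0)
  obtain ⟨y, hy, ey⟩ := exists_rep hF (bs.repr z 1)
  obtain ⟨w, hw, ew⟩ := exists_rep hF (bs.repr z 2)
  refine ⟨(x, y, w), Check.mem_triples hx hy hw, ?_⟩
  rw [vec, ex, ey, ew]
  conv_rhs => rw [← bs.sum_repr z, Fin.sum_univ_three]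

theorem exists_fn_rep (bs : Basis (Fin 3) F V) (c : V →ₗ[F] F) :
    ∃ f ∈ Check.triples p, fn bs f = c := by
  obtain ⟨x, hx, ex⟩ := exists_rep hF (c (bs 0))
  obtain ⟨y, hy, ey⟩ := exists_rep hF (c (bs 1))
  obtain ⟨w, hw, ew⟩ := exists_rep hF (c (bs 2))
  refine ⟨(x, y, w), Check.mem_triples hx hy hw, bs.ext fun i => ?_⟩
  rw [fn, Basis.constr_basis]
  fin_cases i <;> simp [ex, ey, ew]

/-- A cyclic vector, or an involution. -/
theorem cyclic_or_invol (hchk : Check.checkPlane p = true) {A : Module.End F V} (hd : finrank F V = 3)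
    (hdet : LinearMap.det A = 1) (hns : ∀ t : F, A ≠ t • 1) (hr : 2 ≤ finrank F (im1 A)) :
    (∃ g, LinearIndependent F ![g, A g, A (A g)]) ∨ A * A = 1 := by
  obtain ⟨v, hv⟩ : ∃ v, A v - v ∉ F ∙ v := by
    by_contra hcon
    simp only [not_exists, not_not] at hcon
    obtain ⟨t, ht⟩ := LinearMap.exists_eq_smul_id_of_forall_notLinearIndependent (f := A) fun z hz => by
      obtain ⟨a, ha⟩ := Submodule.mem_span_singleton.1 (hcon z)
      have h := (LinearIndependent.pair_iff.1 hz) (a + 1) (-1) (by rw [add_smul, ha, neg_one_smul, one_smul]; abel)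
      exact one_ne_zero (neg_eq_zero.1 h.2)
    exact hns t ht
  have hv0 : v ≠ 0 := fun h => hv (by simp [h])
  by_cases hu : A (A v - v) ∈ zspan A v
  swap
  · left
    refine ⟨v, ?_⟩
    refine indep_three (fun h => hv (sub_mem h (Submodule.mem_span_singleton_self v))) hv0 fun h => hu ?_
    have hle : F ∙ v ⊔ F ∙ A v ≤ zspan A v := sup_le le_sup_left
      ((Submodule.span_singleton_le_iff_mem _ _).2
        (by simpa using add_mem (img_mem_zspan (A := A) v) (self_mem_zspan v)))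
    rw [map_sub]
    exact sub_mem (hle h) (hle (Submodule.mem_sup_right (Submodule.mem_span_singleton_self _)))
  obtain ⟨α', β', hAu⟩ := mem_zspan.1 hu
  obtain ⟨w, -, hw⟩ := SetLike.exists_of_lt (show zspan A v < ⊤ from
    lt_top_iff_ne_top.2 fun h => by
      have := finrank_zspan_le (A := A) v
      rw [h, finrank_top] at this; omega)
  set bs : Basis (Fin 3) F V := basisOfLinearIndependentOfCardEqFinrank (indep_three hv hv0 hw)
    (by rw [Fintype.card_fin, hd]) with hbs
  have b0 : bs 0 = v := by rw [hbs, coe_basisOfLinearIndependentOfCardEqFinrank]; rfl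
  have b1 : bs 1 = A v - v := by rw [hbs, coe_basisOfLinearIndependentOfCardEqFinrank]; rfl
  have b2 : bs 2 = w := by rw [hbs, coe_basisOfLinearIndependentOfCardEqFinrank]; rfl
  have hAw : A w = bs.repr (A w) 0 • bs 0 + bs.repr (A w) 1 • bs 1 + bs.repr (A w) 2 • bs 2 := by
    conv_lhs => rw [← bs.sum_repr (A w), Fin.sum_univ_three]
  obtain ⟨α, hα, eα⟩ := exists_rep hF α'
  obtain ⟨β, hβ, eβ⟩ := exists_rep hF (β' - 1)
  obtain ⟨δ, hδ, eδ⟩ := exists_rep hF (bs.repr (A w) 0)
  obtain ⟨ε, hε, eε⟩ := exists_rep hF (bs.repr (A w) 1)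
  obtain ⟨ζ, hζ, eζ⟩ := exists_rep hF (bs.repr (A w) 2 - 1)
  have A0 : A (bs 0) = bs 0 + bs 1 := by rw [b0, b1, add_sub_cancel]
  have A1 : A (bs 1) = (α : F) • bs 0 + (1 + (β : F)) • bs 1 := by
    rw [eα, eβ, add_sub_cancel, b0, b1]; exact hAu.symm
  have A2 : A (bs 2) = (δ : F) • bs 0 + (ε : F) • bs 1 + (1 + (ζ : F)) • bs 2 := by
    rw [b2, eδ, eε, eζ, add_sub_cancel]; rw [b2] at hAw; exact hAw
  have hact : ∀ u, A (vec bs u) = vec bs (Check.actP p (α, β, δ, ε, ζ) u) := fun u => by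
    simp only [vec, Check.actP, map_add, map_smul, A0, A1, A2, cast_mod hF, Nat.cast_add,
      Nat.cast_mul, Nat.cast_one]
    module
  simp only [Check.checkPlane, List.all_eq_true, List.mem_range] at hchk
  have hc := hchk α hα β hβ δ hδ ε hε ζ hζ
  simp only [Check.okPlane, Bool.or_eq_true, bne_iff_ne, ne_eq, Bool.and_eq_true, beq_iff_eq,
    List.any_eq_true, List.all_eq_true] at hc
  rcases hc with ((hc | ⟨⟨r1, r2⟩, r3⟩) | ⟨g, -, hg⟩) | hc
  · refine absurd ?_ hc
    have h1 : 1 % p = 1 := Nat.mod_eq_of_lt (hF ▸ Fintype.one_lt_card)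
    refine rep_inj (F := F) hF (Nat.mod_lt _ (p_pos hF)) (hF ▸ Fintype.one_lt_card) ?_
    rw [cast_mod hF]
    push_cast [cast_sub_one hF]
    have hdM : (LinearMap.toMatrix bs bs A).det = 1 := by rw [LinearMap.det_toMatrix, hdet]
    rw [Matrix.det_fin_three] at hdM
    simp only [LinearMap.toMatrix_apply, A0, A1, A2, map_add, map_smul, Basis.repr_self,
      Finsupp.add_apply, Finsupp.smul_apply, Finsupp.single_apply, smul_eq_mul] at hdM
    norm_num [Fin.ext_iff] at hdM
    linear_combination hdM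
  · exfalso
    have hI : im1 A ≤ F ∙ bs 1 := by
      rintro _ ⟨z, rfl⟩
      obtain ⟨u, -, rfl⟩ := exists_vec_rep hF bs z
      refine Submodule.mem_span_singleton.2 ⟨(u.1 : F) + (u.2.1 : F) * β + (u.2.2 : F) * ε, ?_⟩
      simp only [LinearMap.sub_apply, Module.End.one_apply, vec, map_add, map_smul, A0, A1, A2,
        r1, r2, r3, Nat.cast_zero]
      module
    have := Submodule.finrank_mono hI
    rw [finrank_span_singleton (bs.ne_zero 1)] at this
    omega
  · left
    refine ⟨vec bs g, ?_⟩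
    rw [hact, hact]
    set g1 := Check.actP p (α, β, δ, ε, ζ) g
    set g2 := Check.actP p (α, β, δ, ε, ζ) g1
    have hne : (bs.toMatrix ![vec bs g, vec bs g1, vec bs g2]).det ≠ 0 := by
      intro h0
      refine (by simpa [Check.indep] using hg : ¬ (_ = _)) ?_
      refine rep_inj (F := F) hF (Nat.mod_lt _ (p_pos hF)) (Nat.mod_lt _ (p_pos hF)) ?_
      rw [cast_mod hF, cast_mod hF]
      push_cast
      rw [Matrix.det_fin_three] at h0
      simp [Basis.toMatrix_apply, vec, Finsupp.single_apply] at h0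
      linear_combination h0
    exact ((Module.Basis.is_basis_iff_det bs).2 (isUnit_iff_ne_zero.2 (by rwa [Basis.det_apply]))).1
  · right
    refine LinearMap.ext fun z => ?_
    obtain ⟨u, hu', rfl⟩ := exists_vec_rep hF bs z
    rw [Module.End.mul_apply, Module.End.one_apply, hact, hact, hc u hu']

/-- The base step over small fields. -/
theorem pivot_small {sn : ℕ} (hsn : sn < p) (h3 : ((3 : ℕ) : F) = sn)
    (hP : Check.checkPivot p = true) (hL : Check.checkPlane p = true)
    (hFa : Check.checkFactor p sn = true) {A : Module.End F V} (hd : finrank F V = 3)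
    (hdet : LinearMap.det A = 1) {b : V} {c : V →ₗ[F] F} (hb : b ≠ 0) (hc : c ≠ 0) (hgood : Good3 A b c) :
    ∃ v φ, ∃ h : Pivot A v φ, φ b ≠ 0 ∧ c v ≠ 0 ∧ Allowed (sn : F) h.compl := by
  obtain ⟨hns, hr, hnb⟩ := hgood
  have hfin : ∀ {v : V} {φ : V →ₗ[F] F} (h : Pivot A v φ),
      (LinearMap.trace F _ h.compl = sn ∨ h.compl = 1 ∨ h.compl = -1) → Allowed (sn : F) h.compl :=
    fun h hh => allowed_of_small hF hsn hFa (by have := h.finrank_ker; omega) (by rw [h.det_compl, hdet]) hh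
  rcases cyclic_or_invol hF hL hd hdet hns hr with ⟨g, hg⟩ | hA2
  swap
  · by_cases h2 : (2 : F) = 0
    · exfalso
      have hle : im1 A ≤ ker1 A := by
        rintro _ ⟨z, rfl⟩
        refine mem_ker1.2 ?_
        have e : A (A z) = z := LinearMap.congr_fun hA2 z
        have e2 : ∀ y : V, y + y = 0 := fun y => by rw [← two_smul F y, h2, zero_smul]
        simp only [LinearMap.sub_apply, Module.End.one_apply, map_sub, e]
        rw [← sub_eq_zero, ← e2 (z - A z)]
        abel
      have := Submodule.finrank_mono hle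
      have := finrank_im1_add (A := A)
      omega
    obtain ⟨v, φ, h, h1, h2', h3'⟩ := invol_pivot h2 hd hA2 hb hc ⟨hns, hr, hnb⟩
    exact ⟨v, φ, h, h1, h2', hfin h (Or.inr (Or.inr h3'))⟩
  set bs0 : Basis (Fin 3) F V := basisOfLinearIndependentOfCardEqFinrank hg (by rw [Fintype.card_fin, hd])
  have hli := Fintype.linearIndependent_iff.1 hg
  have comb : ∀ a0 a1 a2 : F, a0 • g + a1 • A g + a2 • A (A g) = 0 → a2 = 0 ∧ a1 = 0 := fun a0 a1 a2 h => by
    have := hli ![a0, a1, a2] (by simpa [Fin.sum_univ_three] using h)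
    exact ⟨this 2, this 1⟩
  have hg0 : g ≠ 0 := by simpa using hg.ne_zero 0
  have hu : A g - g ∉ F ∙ g := fun h => by
    obtain ⟨t, ht⟩ := Submodule.mem_span_singleton.1 h
    exact neg_ne_zero.2 one_ne_zero
      (comb (t + 1) (-1) 0 (by rw [add_smul, ht, one_smul, neg_one_smul, zero_smul]; abel)).2
  have hw : A (A g - g) - (A g - g) ∉ F ∙ g ⊔ F ∙ (A g - g) := fun h => by
    obtain ⟨a, c', e⟩ := mem_zspan.1 (show A (A g - g) - (A g - g) ∈ zspan A g from h)
    refine one_ne_zero (α := F) (comb (1 - a + c') (-2 - c') 1 ?_).1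
    rw [map_sub, ← sub_eq_zero] at e
    rw [← neg_eq_zero, ← e]
    module
  set bs : Basis (Fin 3) F V := basisOfLinearIndependentOfCardEqFinrank (indep_three hu hg0 hw)
    (by rw [Fintype.card_fin, hd]) with hbs
  have b0 : bs 0 = g := by rw [hbs, coe_basisOfLinearIndependentOfCardEqFinrank]; rfl
  have b1 : bs 1 = A g - g := by rw [hbs, coe_basisOfLinearIndependentOfCardEqFinrank]; rfl
  have b2 : bs 2 = A (A g - g) - (A g - g) := by rw [hbs, coe_basisOfLinearIndependentOfCardEqFinrank]; rfl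
  have hAw : A (bs 2) = bs.repr (A (bs 2)) 0 • bs 0 + bs.repr (A (bs 2)) 1 • bs 1 +
      bs.repr (A (bs 2)) 2 • bs 2 := by
    conv_lhs => rw [← bs.sum_repr (A (bs 2)), Fin.sum_univ_three]
  obtain ⟨σ, hσ, eσ⟩ := exists_rep hF (bs.repr (A (bs 2)) 1)
  obtain ⟨τ, hτ, eτ⟩ := exists_rep hF (bs.repr (A (bs 2)) 2 - 1)
  have A0 : A (bs 0) = bs 0 + bs 1 := by rw [b0, b1, add_sub_cancel]
  have A1 : A (bs 1) = bs 1 + bs 2 := by rw [b2, b1, add_sub_cancel]
  have A2' : A (bs 2) = bs.repr (A (bs 2)) 0 • bs 0 + (σ : F) • bs 1 + (1 + (τ : F)) • bs 2 := by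
    rw [eσ, eτ, add_sub_cancel]; exact hAw
  have hdM : (LinearMap.toMatrix bs bs A).det = 1 := by rw [LinearMap.det_toMatrix, hdet]
  have htr : LinearMap.trace F V A = 3 + (τ : F) := by
    rw [LinearMap.trace_eq_matrix_trace F bs, Matrix.trace, Fin.sum_univ_three]
    simp only [Matrix.diag, LinearMap.toMatrix_apply, A0, A1]
    rw [show bs.repr (A (bs 2)) 2 = 1 + (τ : F) by rw [eτ, add_sub_cancel]]
    simp [Finsupp.single_apply]
    ring
  have hδ : bs.repr (A (bs 2)) 0 = (σ : F) - τ := by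
    generalize bs.repr (A (bs 2)) 0 = δ0 at A2'
    rw [Matrix.det_fin_three] at hdM
    simp only [LinearMap.toMatrix_apply, A0, A1, A2', map_add, map_smul, Basis.repr_self,
      Finsupp.add_apply, Finsupp.smul_apply, Finsupp.single_apply, smul_eq_mul] at hdM
    norm_num [Fin.ext_iff] at hdM
    linear_combination hdM
  have hact : ∀ u, A (vec bs u) = vec bs (Check.actC p τ σ u) := fun u => by
    simp only [vec, Check.actC, map_add, map_smul, A0, A1]
    rw [A2', hδ]
    simp only [cast_mod hF, Nat.cast_add, Nat.cast_mul, Nat.cast_one, cast_sub_one hF]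
    module
  simp only [Check.checkPivot, List.all_eq_true, List.mem_range, Check.okPivot] at hP
  obtain ⟨bu, hbu, rfl⟩ := exists_vec_rep hF bs b
  obtain ⟨cu, hcu, rfl⟩ := exists_fn_rep hF bs c
  have hPc := hP τ hτ σ hσ bu hbu cu hcu
  simp only [Bool.or_eq_true, beq_iff_eq, List.any_eq_true, Bool.and_eq_true, bne_iff_ne, ne_eq] at hPc
  rcases hPc with (h0 | h0) | ⟨⟨v, f⟩, hvf, h1, h2⟩
  · exact absurd (by rw [h0]; simp [vec]) hb
  · refine absurd (bs.ext fun i => ?_) hc
    rw [h0, fn, Basis.constr_basis]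
    fin_cases i <;> simp
  simp only [Check.valid, List.mem_flatMap, List.mem_map, List.mem_filter, Prod.mk.injEq,
    Bool.and_eq_true, Bool.or_eq_true, beq_iff_eq] at hvf
  obtain ⟨v', hv', f', ⟨hf', ⟨k1, k2⟩, k3⟩, rfl, rfl⟩ := hvf
  have hp : Pivot A (vec bs v') (fn bs f') :=
    ⟨by rw [fn_vec hF, k1, Nat.cast_one], by rw [hact, fn_vec hF, k2, Nat.cast_one]⟩
  refine ⟨_, _, hp, ?_, ?_, hfin hp ?_⟩
  · rw [fn_vec hF]; exact cast_ne_zero hF (fun e => h1 (by rw [Check.dot, Nat.mod_mod] at e; exact e))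
  · rw [fn_vec hF]; exact cast_ne_zero hF (fun e => h2 (by rw [Check.dot, Nat.mod_mod] at e; exact e))
  have hscal : ∀ sc : ℕ, Check.scalarC p τ σ sc v' f' = true → hp.compl = (sc : F) • 1 := by
    intro sc h
    simp only [Check.scalarC, List.all_eq_true, Bool.or_eq_true, bne_iff_ne, ne_eq, Bool.and_eq_true,
      beq_iff_eq] at h
    refine LinearMap.ext fun z => Subtype.ext ?_
    obtain ⟨u, hu', eu⟩ := exists_vec_rep hF bs (z : V)
    rw [Pivot.coe_compl, LinearMap.smul_apply, Module.End.one_apply, Submodule.coe_smul, ← eu]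
    have hz : Check.dot p f' u = 0 := by
      refine rep_inj (F := F) hF (Nat.mod_lt _ (p_pos hF)) (p_pos hF) ?_
      rw [Nat.cast_zero]
      have := fn_vec hF bs f' u
      rw [eu, show fn bs f' (z : V) = 0 from z.2] at this
      exact this.symm
    rcases h u hu' with hne | ⟨⟨q1, q2⟩, q3⟩
    · exact absurd hz hne
    rw [hact, hact, fn_vec hF]
    have r1 := congrArg (fun n : ℕ => (n : F)) q1
    have r2 := congrArg (fun n : ℕ => (n : F)) q2
    have r3 := congrArg (fun n : ℕ => (n : F)) q3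
    simp only [cast_mod hF, Nat.cast_add, Nat.cast_mul] at r1 r2 r3
    rw [sub_eq_iff_eq_add, vec, vec, vec, r1, r2, r3]
    module
  rcases k3 with (k3 | k3) | k3
  · left
    rw [Pivot.trace_compl, hact, hact, fn_vec hF, k3, cast_mod hF, htr, add_sub_cancel_right, ← h3]
    norm_num
  · right; left; rw [hscal _ k3, Nat.cast_one, one_smul]
  · right; right; rw [hscal _ k3, cast_sub_one hF]; exact LinearMap.ext fun z => by rw [LinearMap.smul_apply, LinearMap.neg_apply, neg_smul, one_smul]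

end Card

end CfsgLib.CharDegrees.Thompson
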