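import Cfsg.Agent.Lib.CharDegrees.Thompson.Select

/-!
The inductive step.
-/

set_option autoImplicit false
set_option linter.unusedSectionVars false

namespace CfsgLib.CharDegrees.Thompson

open Module

variable {F : Type*} [Field F] {V : Type*} [AddCommGroup V] [Module F V] [FiniteDimensional F V]

/-- Non-scalar, with `A - 1` of rank at least 3. -/
def Big (A : Module.End F V) : Prop := (∀ t : F, A ≠ t • 1) ∧ 3 ≤ finrank F (im1 A)

/-- The admissible states in dimension 3. -/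
def Good3 (A : Module.End F V) (b : V) (c : V →ₗ[F] F) : Prop :=
  (∀ t : F, A ≠ t • 1) ∧ 2 ≤ finrank F (im1 A) ∧
    ¬ (finrank F (im1 A) = 2 ∧ b ∈ im1 A ∧ ∀ z ∈ ker1 A, c z = 0)

variable {A : Module.End F V}

theorem ker_ne_top {c : V →ₗ[F] F} (hc : c ≠ 0) : LinearMap.ker c ≠ ⊤ := fun h =>
  hc (LinearMap.ker_eq_top.1 h)

theorem not_mem_of_comap {v b : V} (hb : b ≠ 0) (h : v ∉ (F ∙ b).comap (A - 1)) :
    b ∉ F ∙ (A v - v) := by
  intro hm
  obtain ⟨γ, hγ⟩ := Submodule.mem_span_singleton.1 hm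
  refine h ?_
  show (A - 1) v ∈ F ∙ b
  rw [LinearMap.sub_apply, Module.End.one_apply, ← hγ]
  have hγ0 : γ ≠ 0 := fun h0 => hb (by rw [← hγ, h0, zero_smul])
  exact Submodule.mem_span_singleton.2 ⟨γ⁻¹, by rw [inv_smul_smul₀ hγ0]⟩

theorem ker1_le_comap (E : Submodule F V) : ker1 A ≤ E.comap (A - 1) := fun z hz => by
  show (A - 1) z ∈ E
  rw [LinearMap.mem_ker.1 hz]
  exact zero_mem E

theorem not_eigen {v : V} (hI : v ∉ im1 A) (hK : v ∉ ker1 A) : A v - v ∉ F ∙ v := by
  intro hm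
  obtain ⟨t, ht⟩ := Submodule.mem_span_singleton.1 hm
  by_cases h0 : t = 0
  · rw [h0, zero_smul] at ht
    exact hK (mem_ker1.2 (sub_eq_zero.1 ht.symm))
  · exact hI (by simpa [← ht, h0] using Submodule.smul_mem _ t⁻¹ (sub_mem_im1 (A := A) v))

/-- Non-eigenvectors avoiding a hyperplane, when `A - 1` is injective. -/
theorem exists_noneigen (hns : ∀ t : F, A ≠ t • 1) (hK : ker1 A = ⊥) (hm : 4 ≤ finrank F V) {b : V} {c : V →ₗ[F] F}
    (hc : c ≠ 0) :
    ∃ v, c v ≠ 0 ∧ A v - v ∉ F ∙ v ∧ v ∉ (F ∙ b).comap (A - 1) := by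
  set N : Module.End F V := A - 1 with hN
  have hNv : ∀ z, N z = A z - z := fun z => by simp [hN]
  set P := (F ∙ b).comap N with hP
  have hPd : finrank F P ≤ 1 := by
    refine (finrank_comap_le (A := A) (F ∙ b)).trans ?_
    rw [hK, finrank_bot, zero_add]
    simpa using finrank_span_le_card (R := F) ({b} : Set V)
  have hPtop : P ≠ ⊤ := fun h => by rw [h, finrank_top] at hPd; omega
  obtain ⟨H, hPH, hHd⟩ := exists_hyperplane hPtop
  obtain ⟨H₁, hcH, hH₁d⟩ := exists_hyperplane (ker_ne_top hc)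
  have htop : ∀ G : Submodule F V, finrank F G + 1 = finrank F V → G ≠ ⊤ := fun G h he => by
    rw [he, finrank_top] at h; omega
  by_contra hcon
  simp only [not_exists, not_and, not_not] at hcon
  have heig : ∀ z, z ∉ H₁ → z ∉ H → ∃ t : F, N z = t • z := by
    intro z h1 h2
    by_contra hne
    simp only [not_exists] at hne
    refine (fun hz => h2 (hPH hz)) (hcon z (fun h => h1 (hcH h)) fun hm => ?_)
    obtain ⟨t, ht⟩ := Submodule.mem_span_singleton.1 hm
    exact hne t (by rw [hNv, ht])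
  obtain ⟨x, hx1, hx2⟩ := exists_not_mem₂ (htop _ hH₁d) (htop _ hHd)
  obtain ⟨μ, hμ⟩ := heig x hx1 hx2
  set D := H₁ ⊓ H with hD
  have hDd : 2 ≤ finrank F D := by
    have h4 := Submodule.finrank_sup_add_finrank_inf_eq H₁ H
    have h5 := Submodule.finrank_le (H₁ ⊔ H)
    rw [hD]; omega
  have hxD : x ∉ D := fun h => hx1 h.1
  have heig' : ∀ h ∈ D, ∃ t : F, N (x + h) = t • (x + h) := fun h hh =>
    heig _ (fun h' => hx1 (by simpa using sub_mem h' hh.1)) fun h' => hx2 (by simpa using sub_mem h' hh.2)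
  have hlin : ∀ h ∈ D, N h = μ • h := by
    intro h hh
    by_cases h0 : h = 0
    · simp [h0]
    obtain ⟨h', hh', hne⟩ : ∃ h' ∈ D, h' ∉ F ∙ h := by
      by_contra hcon'
      have hle : D ≤ F ∙ h := fun z hz => not_not.1 fun hh' => hcon' ⟨z, hz, hh'⟩
      have := Submodule.finrank_mono hle
      rw [finrank_span_singleton h0] at this
      omega
    obtain ⟨t1, e1⟩ := heig' h hh
    obtain ⟨t2, e2⟩ := heig' h' hh'
    obtain ⟨t3, e3⟩ := heig' (h + h') (add_mem hh hh')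
    have hcomb : (μ + t3 - t1 - t2) • x + ((t3 - t1) • h + (t3 - t2) • h') = 0 := by
      have e4 : N (x + (h + h')) + N x = N (x + h) + N (x + h') := by
        rw [← map_add, ← map_add]; congr 1; abel
      rw [e1, e2, e3, hμ] at e4
      rw [← sub_eq_zero] at e4
      rw [← e4]; module
    have hc1 : μ + t3 - t1 - t2 = 0 := by
      by_contra hc0
      refine hxD ?_
      rw [← inv_smul_smul₀ hc0 x, eq_neg_of_add_eq_zero_left hcomb]
      exact Submodule.smul_mem _ _ (neg_mem (add_mem (Submodule.smul_mem _ _ hh) (Submodule.smul_mem _ _ hh')))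
    rw [hc1, zero_smul, zero_add] at hcomb
    have hc2 : t3 = t2 := by
      by_contra hc0
      refine hne (Submodule.mem_span_singleton.2 ⟨-((t3 - t2)⁻¹ * (t3 - t1)), ?_⟩)
      rw [← inv_smul_smul₀ (sub_ne_zero.2 hc0) h', eq_neg_of_add_eq_zero_right hcomb]
      module
    have ht : t1 = μ := by rw [hc2] at hc1; linear_combination -hc1
    rw [ht, map_add, hμ, smul_add] at e1
    exact add_left_cancel e1
  set M : Module.End F V := N - μ • 1 with hM
  have hMap : ∀ z, M z = N z - μ • z := fun z => by simp [hM]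
  have hU : D ⊔ F ∙ x ≤ LinearMap.ker M := by
    refine sup_le (fun h hh => ?_) ((Submodule.span_singleton_le_iff_mem _ _).2 ?_)
    · rw [LinearMap.mem_ker, hMap, hlin h hh, sub_self]
    · rw [LinearMap.mem_ker, hMap, hμ, sub_self]
  have hU2 : finrank F V ≤ finrank F (LinearMap.ker M) + 1 := by
    have h4 := Submodule.finrank_sup_add_finrank_inf_eq H₁ H
    have h5 := Submodule.finrank_le (H₁ ⊔ H)
    have h6 := Submodule.finrank_mono hU
    have h7 := Submodule.finrank_sup_add_finrank_inf_eq D (F ∙ x)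
    have hinf : D ⊓ F ∙ x = ⊥ := disjoint_iff.1 (Submodule.disjoint_span_singleton_of_notMem hxD)
    rw [hinf, finrank_bot, finrank_span_singleton (fun h => hxD (by rw [h]; exact zero_mem D))] at h7
    rw [hD] at h7 h6
    omega
  have hkM : LinearMap.ker M ≠ ⊤ := fun h => by
    refine hns (μ + 1) (LinearMap.ext fun z => ?_)
    have hz : M z = 0 := LinearMap.mem_ker.1 (h ▸ Submodule.mem_top)
    rw [hMap, hNv] at hz
    simp only [LinearMap.smul_apply, Module.End.one_apply, add_smul, one_smul]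
    rw [sub_eq_zero] at hz
    exact sub_eq_iff_eq_add.1 hz
  have hR : finrank F (LinearMap.range M) ≤ 1 := by
    have := LinearMap.finrank_range_add_finrank_ker M; omega
  have hE : finrank F (P ⊔ LinearMap.range M : Submodule F V) + 2 ≤ finrank F V := by
    have := Submodule.finrank_add_le_finrank_add_finrank P (LinearMap.range M); omega
  obtain ⟨v, hv1, hv2, hv3⟩ := exists_not_mem₃ (ker_ne_top hc) hkM hE
  have hmem := hcon v hv1
  refine hv3 (Submodule.mem_sup_left (hmem fun hm => ?_))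
  obtain ⟨t, ht⟩ := Submodule.mem_span_singleton.1 hm
  by_cases htm : t = μ
  · exact hv2 (by rw [LinearMap.mem_ker, hMap, hNv, ← ht, htm, sub_self])
  · refine hv3 (Submodule.mem_sup_right ⟨(t - μ)⁻¹ • v, ?_⟩)
    rw [map_smul, hMap, hNv, ← ht, ← sub_smul, inv_smul_smul₀ (sub_ne_zero.2 htm)]

/-- Choice of the first vector. -/
theorem exists_vec (hbig : Big A) (hm : 4 ≤ finrank F V) {b : V} {c : V →ₗ[F] F}
    (hb : b ≠ 0) (hc : c ≠ 0) :
    ∃ v, c v ≠ 0 ∧ A v - v ∉ F ∙ v ∧ b ∉ F ∙ (A v - v) ∧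
      (finrank F (im1 A) < finrank F V → v ∉ im1 A) ∧
      (finrank F (im1 A) = 3 → 5 ≤ finrank F V → v ∉ ker1 A ∧
        (im1 A ⊔ ker1 A = ⊤ ∨ (v ∉ im1 A ⊔ ker1 A ∧ (b ∈ im1 A ⊔ ker1 A ∨
          v ∉ im1 A ⊔ ker1 A ⊔ F ∙ b ∨
          (finrank F (im1 A ⊔ ker1 A : Submodule F V) + 1 = finrank F V ∧ A v - v ∉ ker1 A))))) := by
  have hsum := finrank_im1_add (A := A)
  have hr := hbig.2
  have hb1 : finrank F (F ∙ b) = 1 := finrank_span_singleton hb
  by_cases hfull : finrank F (im1 A) = finrank F V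
  · obtain ⟨v, h1, h2, h3⟩ := exists_noneigen hbig.1 (Submodule.finrank_eq_zero.1 (by omega)) hm hc (b := b)
    exact ⟨v, h1, h2, not_mem_of_comap hb h3, fun h => absurd hfull h.ne, fun h h' => absurd hfull (by omega)⟩
  have hP : finrank F ((F ∙ b).comap (A - 1)) + 2 ≤ finrank F V := by
    have := finrank_comap_le (A := A) (F ∙ b); omega
  have hItop : im1 A ≠ ⊤ := fun h => hfull (by rw [h, finrank_top])
  have mk : ∀ H : Submodule F V, im1 A ≤ H → H ≠ ⊤ → ∃ v, c v ≠ 0 ∧ A v - v ∉ F ∙ v ∧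
      b ∉ F ∙ (A v - v) ∧ v ∉ im1 A ∧ v ∉ ker1 A ∧ v ∉ H := by
    intro H hle hH
    obtain ⟨v, h1, h2, h3⟩ := exists_not_mem₃ (ker_ne_top hc) hH hP
    have hI : v ∉ im1 A := fun h => h2 (hle h)
    have hK : v ∉ ker1 A := fun h => h3 (ker1_le_comap _ h)
    exact ⟨v, h1, not_eigen hI hK, not_mem_of_comap hb h3, hI, hK, h2⟩
  by_cases h3 : finrank F (im1 A) = 3 ∧ 5 ≤ finrank F V
  swap
  · obtain ⟨v, a1, a2, a3, a4, a5, a6⟩ := mk _ le_rfl hItop
    exact ⟨v, a1, a2, a3, fun _ => a4, fun h h' => absurd ⟨h, h'⟩ h3⟩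
  by_cases hH : im1 A ⊔ ker1 A = ⊤
  · obtain ⟨v, a1, a2, a3, a4, a5, a6⟩ := mk _ le_rfl hItop
    exact ⟨v, a1, a2, a3, fun _ => a4, fun _ _ => ⟨a5, Or.inl hH⟩⟩
  by_cases hbH : b ∈ im1 A ⊔ ker1 A
  · obtain ⟨v, a1, a2, a3, a4, a5, a6⟩ := mk _ le_sup_left hH
    exact ⟨v, a1, a2, a3, fun _ => a4, fun _ _ => ⟨a5, Or.inr ⟨a6, Or.inl hbH⟩⟩⟩
  by_cases hHb : im1 A ⊔ ker1 A ⊔ F ∙ b = ⊤
  swap
  · obtain ⟨v, a1, a2, a3, a4, a5, a6⟩ := mk _ (le_sup_of_le_left le_sup_left) hHb
    exact ⟨v, a1, a2, a3, fun _ => a4, fun _ _ => ⟨a5,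
      Or.inr ⟨fun h => a6 (Submodule.mem_sup_left h), Or.inr (Or.inl a6)⟩⟩⟩
  have hHd : finrank F (im1 A ⊔ ker1 A : Submodule F V) + 1 = finrank F V := by
    have h4 := Submodule.finrank_lt hH
    have h5 := finrank_sup_span_le (im1 A ⊔ ker1 A) b
    rw [hHb, finrank_top] at h5
    omega
  have hE : finrank F ((im1 A ⊓ ker1 A).comap (A - 1)) + 2 ≤ finrank F V := by
    have h4 := finrank_comap_le (A := A) (im1 A ⊓ ker1 A)
    have h5 := Submodule.finrank_sup_add_finrank_inf_eq (im1 A) (ker1 A)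
    omega
  obtain ⟨v, h1, h2, h2'⟩ := exists_not_mem₃ (ker_ne_top hc) hH hE
  have hI : v ∉ im1 A := fun h => h2 (Submodule.mem_sup_left h)
  have hK : v ∉ ker1 A := fun h => h2 (Submodule.mem_sup_right h)
  refine ⟨v, h1, not_eigen hI hK, fun hm => ?_, fun _ => hI, fun _ _ => ⟨hK,
    Or.inr ⟨h2, Or.inr (Or.inr ⟨hHd, fun hh => h2' ?_⟩)⟩⟩⟩
  · obtain ⟨γ, hγ⟩ := Submodule.mem_span_singleton.1 hm
    exact hbH (Submodule.mem_sup_left (hγ ▸ Submodule.smul_mem _ _ (sub_mem_im1 v)))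
  · show (A - 1) v ∈ im1 A ⊓ ker1 A
    exact ⟨⟨v, rfl⟩, by simpa using hh⟩

variable {v : V} {φ : V →ₗ[F] F}

theorem sub_one_ker (h : Pivot A v φ) (w : LinearMap.ker φ) :
    A (w : V) - w = ((h.compl - 1) w : LinearMap.ker φ) + h.row w • A v := by
  simp [Pivot.coe_compl, Pivot.row_apply]; abel

theorem finrank_im1_compl (h : Pivot A v φ) (hns : A v - v ≠ 0) :
    finrank F (im1 A) ≤ finrank F (im1 h.compl) + 2 ∧
      (v ∉ im1 A → finrank F (im1 A) ≤ finrank F (im1 h.compl) + 1 ∧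
        ((∃ k ∈ ker1 A, φ k ≠ 0) → finrank F (im1 A) ≤ finrank F (im1 h.compl))) := by
  set U := (LinearMap.ker φ).map (A - 1) with hU
  set R := (im1 h.compl).map (LinearMap.ker φ).subtype with hR
  have hRd : finrank F R = finrank F (im1 h.compl) := Submodule.finrank_map_subtype_eq _ _
  have hUR : U ≤ R ⊔ F ∙ (A v) := by
    rintro _ ⟨w, hw, rfl⟩
    have := sub_one_ker h ⟨w, hw⟩
    rw [LinearMap.sub_apply, Module.End.one_apply, this]
    exact add_mem (Submodule.mem_sup_left ⟨_, ⟨⟨w, hw⟩, rfl⟩, rfl⟩)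
      (Submodule.mem_sup_right (Submodule.smul_mem _ _ (Submodule.mem_span_singleton_self _)))
  have hUI : U ≤ im1 A := LinearMap.map_le_range
  have hIU : im1 A ≤ U ⊔ F ∙ (A v - v) := by
    rintro _ ⟨z, rfl⟩
    have e : (A - 1) z = (A - 1) (h.proj z : V) + φ z • (A v - v) := by
      conv_lhs => rw [h.eq_add z]
      rw [map_add, map_smul, LinearMap.sub_apply A 1 v, Module.End.one_apply, add_comm]
    rw [e]
    exact add_mem (Submodule.mem_sup_left ⟨_, (h.proj z).2, rfl⟩)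
      (Submodule.mem_sup_right (Submodule.smul_mem _ _ (Submodule.mem_span_singleton_self _)))
  have a1 := Submodule.finrank_mono hUR
  have a2 := Submodule.finrank_mono hIU
  have a3 := finrank_sup_span_le U (A v - v)
  have a4 := finrank_sup_span_le R (A v)
  refine ⟨by omega, fun hvI => ?_⟩
  have hAvU : A v ∉ U := fun hm => hvI (by
    have := sub_mem (hUI hm) (sub_mem_im1 (A := A) v)
    rwa [sub_sub_cancel] at this)
  have hAv0 : A v ≠ 0 := fun h0 => hAvU (h0 ▸ zero_mem U)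
  have a5 : finrank F (U ⊔ F ∙ A v : Submodule F V) = finrank F U + 1 := by
    have := Submodule.finrank_sup_add_finrank_inf_eq U (F ∙ A v)
    rwa [disjoint_iff.1 (Submodule.disjoint_span_singleton_of_notMem hAvU), finrank_bot,
      finrank_span_singleton hAv0, add_zero] at this
  have a6 : U ⊔ F ∙ A v ≤ R ⊔ F ∙ A v := sup_le hUR le_sup_right
  have a7 := Submodule.finrank_mono a6
  refine ⟨by omega, ?_⟩
  rintro ⟨k, hk, hφk⟩
  have hIU' : im1 A ≤ U := by
    rintro _ ⟨z, rfl⟩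
    refine ⟨z - (φ z * (φ k)⁻¹) • k, ?_, ?_⟩
    · rw [SetLike.mem_coe, LinearMap.mem_ker, map_sub, map_smul, smul_eq_mul, mul_assoc, inv_mul_cancel₀ hφk, mul_one, sub_self]
    · rw [map_sub, map_smul, LinearMap.mem_ker.1 hk, smul_zero, sub_zero]
  have a8 := Submodule.finrank_mono hIU'
  omega

theorem scalar_unique (hA : Function.Injective A) (hm : 3 ≤ finrank F V) {ψ : V →ₗ[F] F}
    (h : Pivot A v φ) (h' : Pivot A v ψ) (hv : A v - v ∉ F ∙ v) {s t : F}
    (hs : h.compl = s • 1) (ht : h'.compl = t • 1) : φ = ψ := by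
  have e1 : ∀ w : V, φ w = 0 → A w = s • w + φ (A w) • A v := fun w hw => by
    have := congrArg Subtype.val (LinearMap.congr_fun hs ⟨w, hw⟩)
    simp only [Pivot.coe_compl, LinearMap.smul_apply, Module.End.one_apply, Submodule.coe_smul] at this
    exact sub_eq_iff_eq_add.1 this
  have e2 : ∀ w : V, ψ w = 0 → A w = t • w + ψ (A w) • A v := fun w hw => by
    have := congrArg Subtype.val (LinearMap.congr_fun ht ⟨w, hw⟩)
    simp only [Pivot.coe_compl, LinearMap.smul_apply, Module.End.one_apply, Submodule.coe_smul] at this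
    exact sub_eq_iff_eq_add.1 this
  have hd1 := h.finrank_ker
  have hd2 := h'.finrank_ker
  have h4 := Submodule.finrank_sup_add_finrank_inf_eq (LinearMap.ker φ) (LinearMap.ker ψ)
  have h5 := Submodule.finrank_le (LinearMap.ker φ ⊔ LinearMap.ker ψ)
  obtain ⟨x, hx, hx0⟩ := Submodule.exists_mem_ne_zero_of_ne_bot
    (p := LinearMap.ker φ ⊓ LinearMap.ker ψ) (fun hb => by rw [hb, finrank_bot] at h4; omega)
  have hst : s = t := by
    by_contra hne
    have e := (e1 x hx.1).symm.trans (e2 x hx.2)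
    have e' : (s - t) • x = (ψ (A x) - φ (A x)) • A v := by
      rw [sub_smul, sub_smul, sub_eq_sub_iff_add_eq_add, e, add_comm]
    have := congrArg φ e'
    rw [map_smul, map_smul, h.img, show φ x = 0 from hx.1, smul_zero, smul_eq_mul, mul_one] at this
    rw [← this, zero_smul, smul_eq_zero] at e'
    exact e'.elim (sub_ne_zero.2 hne) hx0
  refine LinearMap.ext fun z => ?_
  by_contra hne
  refine hv ?_
  have hr : ∀ y, A y - s • y ∈ F ∙ (A v) := by
    intro y
    have hw : φ (z - φ z • v) = 0 := by simp [h.one]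
    set w := z - φ z • v with hwd
    have hψw : ψ w = ψ z - φ z := by simp [hwd, h'.one]
    have hψw0 : ψ w ≠ 0 := by rw [hψw]; exact sub_ne_zero.2 (Ne.symm hne)
    set y' := y - (ψ y * (ψ w)⁻¹) • w with hy'
    have hy'0 : ψ y' = 0 := by simp [hy', mul_assoc, inv_mul_cancel₀ hψw0]
    have ey : y = y' + (ψ y * (ψ w)⁻¹) • w := by rw [hy', sub_add_cancel]
    rw [ey, map_add, map_smul, e2 y' hy'0, e1 w hw, ← hst, Submodule.mem_span_singleton]
    exact ⟨ψ (A y') + ψ y * (ψ w)⁻¹ * φ (A w), by module⟩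
  obtain ⟨k, hk⟩ := Submodule.mem_span_singleton.1 (hr v)
  have hs0 : s ≠ 0 := fun h0 => by
    have e3 := e1 x hx.1
    rw [h0, zero_smul, zero_add, ← map_smul] at e3
    have e4 := congrArg φ (hA e3)
    rw [map_smul, show φ x = 0 from hx.1, h.one, smul_eq_mul, mul_one] at e4
    rw [← e4, zero_smul] at e3
    exact hx0 (by have := hA e3; exact this)
  have e5 : (1 - k) • A v = s • v := by rw [sub_smul, one_smul, hk, sub_sub_cancel]
  have hk1 : 1 - k ≠ 0 := fun h0 => by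
    rw [h0, zero_smul] at e5
    rcases smul_eq_zero.1 e5.symm with h1 | h1
    · exact hs0 h1
    · have := h.one; rw [h1, map_zero] at this; exact zero_ne_one this
  rw [Submodule.mem_span_singleton]
  exact ⟨(1 - k)⁻¹ * s - 1, by rw [sub_smul, one_smul, mul_smul, ← e5, inv_smul_smul₀ hk1]⟩

theorem good_of_rank_two (h : Pivot A v φ) (hm : finrank F V = 4)
    (h' : (finrank F (im1 A) = 3 ∧ v ∉ im1 A) ∨ finrank F (im1 A) = 4) :
    ¬ (finrank F (im1 h.compl) = 2 ∧ h.col ∈ im1 h.compl ∧ ∀ z ∈ ker1 h.compl, h.row z = 0) := by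
  rintro ⟨h2, hcol, hrow⟩
  have hW := h.finrank_ker
  have hk := finrank_im1_add (A := h.compl)
  have hsum := finrank_im1_add (A := A)
  have hemb : ∀ z ∈ ker1 h.compl, (z : V) ∈ ker1 A := by
    intro z hz
    have := sub_one_ker h z
    rw [hrow z hz, zero_smul, add_zero, LinearMap.mem_ker.1 hz, Submodule.coe_zero] at this
    exact mem_ker1.2 (sub_eq_zero.1 this)
  obtain ⟨z, hz, hz0⟩ := Submodule.exists_mem_ne_zero_of_ne_bot (p := ker1 h.compl)
    (fun hb => by rw [hb, finrank_bot] at hk; omega)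
  have hz0' : (z : V) ≠ 0 := fun e => hz0 (Subtype.ext e)
  rcases h' with ⟨h3, hvI⟩ | h4
  · obtain ⟨w, hw⟩ := hcol
    have e := sub_one_ker h w
    rw [hw, Pivot.coe_col] at e
    have hrw : h.row w = 0 := by
      by_contra hne
      refine hvI ?_
      have hAv : A v ∈ im1 A := by
        rw [← inv_smul_smul₀ hne (A v),
          show h.row w • A v = (A (w : V) - w) - (A v - v) by rw [e]; abel]
        exact Submodule.smul_mem _ _ (sub_mem (sub_mem_im1 _) (sub_mem_im1 _))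
      have := sub_mem hAv (sub_mem_im1 (A := A) v)
      rwa [sub_sub_cancel] at this
    rw [hrw, zero_smul, add_zero] at e
    have hk' : v - (w : V) ∈ ker1 A := mem_ker1.2 (by
      rw [map_sub]; rw [← sub_eq_zero] at e ⊢; rw [← neg_eq_zero, ← e]; abel)
    have hspan : ker1 A = F ∙ (z : V) := by
      refine (Submodule.eq_of_le_of_finrank_le ((Submodule.span_singleton_le_iff_mem _ _).2 (hemb z hz)) ?_).symm
      rw [finrank_span_singleton hz0']; omega
    rw [hspan] at hk'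
    obtain ⟨γ, hγ⟩ := Submodule.mem_span_singleton.1 hk'
    have := congrArg φ hγ
    rw [map_smul, show φ (z : V) = 0 from z.2, smul_zero, map_sub, h.one, show φ (w : V) = 0 from w.2, sub_zero] at this
    exact zero_ne_one this
  · have hbot : ker1 A = ⊥ := Submodule.finrank_eq_zero.1 (by omega)
    exact hz0' ((Submodule.mem_bot F).1 (hbot ▸ hemb z hz))

/-- The step. -/
theorem exists_pivot (hA : Function.Injective A) (hbig : Big A) (hm : 4 ≤ finrank F V) {b : V}
    {c : V →ₗ[F] F} (hb : b ≠ 0) (hc : c ≠ 0) :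
    ∃ v φ, ∃ h : Pivot A v φ, φ b ≠ 0 ∧ c v ≠ 0 ∧ h.col ≠ 0 ∧ h.row ≠ 0 ∧
      (5 ≤ finrank F V → Big h.compl) ∧ (finrank F V = 4 → Good3 h.compl h.col h.row) := by
  obtain ⟨v, hcv, hnev, hbv, hvI, hspec⟩ := exists_vec hbig hm hb hc
  have hNv : A v - v ≠ 0 := fun h0 => hnev (h0 ▸ zero_mem _)
  have hv0 : v ≠ 0 := fun h0 => hNv (by simp [h0])
  have hsum := finrank_im1_add (A := A)
  have hle : finrank F (im1 A) ≤ finrank F V := by omega
  have hrow : ∀ {φ : V →ₗ[F] F} (h : Pivot A v φ) (u : V), u ∈ im1 A → φ u ≠ 0 → h.row ≠ 0 := by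
    intro φ h u hu hφu h0
    obtain ⟨z, rfl⟩ := hu
    refine hφu ?_
    rw [h.eq_add z, map_add, map_smul, map_add, map_smul]
    have hr0 : φ (A (h.proj z : V)) = 0 := LinearMap.congr_fun h0 (h.proj z)
    simp [h.one, h.img, hr0, show φ (h.proj z : V) = 0 from (h.proj z).2]
  have hcolne : ∀ {φ : V →ₗ[F] F} (h : Pivot A v φ), h.col ≠ 0 := fun h e => hNv (congrArg Subtype.val e)
  have hS0 : ∀ {φ : V →ₗ[F] F} (h : Pivot A v φ), 1 ≤ finrank F (im1 h.compl) → h.compl ≠ 1 := by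
    intro φ h h1 he
    rw [he, im1, sub_self, LinearMap.range_zero, finrank_bot] at h1
    omega
  by_cases h35 : finrank F (im1 A) = 3 ∧ 5 ≤ finrank F V
  · obtain ⟨hr3, hm5⟩ := h35
    obtain ⟨hvK, hH⟩ := hspec hr3 hm5
    have hvI' := hvI (by omega)
    obtain ⟨φ, u, hu, k, hk, hp, hφb, hφu, hφk⟩ := exists_values₂ hA hnev hbv hr3 hm5 hvI' hvK hH
    obtain ⟨-, hr2⟩ := finrank_im1_compl hp hNv
    have hr' := (hr2 hvI').2 ⟨k, hk, hφk⟩
    refine ⟨v, φ, hp, hφb, hcv, hcolne hp, hrow hp u hu hφu, fun _ => ⟨fun t ht => ?_, by omega⟩,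
      fun h4 => absurd h4 (by omega)⟩
    have hKd : 2 ≤ finrank F (ker1 A) := by omega
    have hW := hp.finrank_ker
    have h5 := Submodule.finrank_sup_add_finrank_inf_eq (ker1 A) (LinearMap.ker φ)
    have h6 := Submodule.finrank_le (ker1 A ⊔ LinearMap.ker φ)
    obtain ⟨z, hz, hz0⟩ := Submodule.exists_mem_ne_zero_of_ne_bot
      (p := ker1 A ⊓ LinearMap.ker φ) (fun hb' => by rw [hb', finrank_bot] at h5; omega)
    have e := congrArg Subtype.val (LinearMap.congr_fun ht ⟨z, hz.2⟩)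
    simp only [Pivot.coe_compl, LinearMap.smul_apply, Module.End.one_apply, Submodule.coe_smul,
      mem_ker1.1 hz.1, show φ z = 0 from hz.2, zero_smul, sub_zero] at e
    have ht1 : t = 1 := by
      by_contra hne
      have : (t - 1) • z = 0 := by rw [sub_smul, one_smul, ← e, sub_self]
      exact hz0 ((smul_eq_zero.1 this).resolve_left (sub_ne_zero.2 hne))
    rw [ht1, one_smul] at ht
    exact hS0 hp (by omega) ht
  have hr4 : 4 ≤ finrank F (im1 A) ∨ (3 ≤ finrank F (im1 A) ∧ v ∉ im1 A) := by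
    rcases Nat.lt_or_ge (finrank F (im1 A)) 4 with h | h
    · exact Or.inr ⟨hbig.2, hvI (by omega)⟩
    · exact Or.inl h
  obtain ⟨φ, u, hu, hp, hφb, hφu, hext⟩ := exists_values₁ hnev hbv hr4
  have hbound : ∀ {φ : V →ₗ[F] F} (h : Pivot A v φ), (5 ≤ finrank F V → 3 ≤ finrank F (im1 h.compl)) ∧
      2 ≤ finrank F (im1 h.compl) := by
    intro φ h
    obtain ⟨b1, b2⟩ := finrank_im1_compl h hNv
    have hr := hbig.2
    rcases Nat.lt_or_ge (finrank F (im1 A)) (finrank F V) with hlt | hge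
    · have b3 := (b2 (hvI hlt)).1
      refine ⟨fun h5 => ?_, by omega⟩
      rcases Nat.lt_or_ge (finrank F (im1 A)) 4 with h | h
      · exact absurd ⟨by omega, h5⟩ h35
      · omega
    · exact ⟨fun h5 => by omega, by omega⟩
  obtain ⟨ψ, hψ, hψb, hψu, hns⟩ : ∃ ψ, ∃ h : Pivot A v ψ, ψ b ≠ 0 ∧ ψ u ≠ 0 ∧ ∀ t : F, h.compl ≠ t • 1 := by
    by_cases hsc : ∀ t : F, hp.compl ≠ t • 1
    · exact ⟨φ, hp, hφb, hφu, hsc⟩
    simp only [ne_eq, not_forall, not_not] at hsc
    obtain ⟨s, hs⟩ := hsc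
    have good : ∀ ψ : V →ₗ[F] F, ∀ h : Pivot A v ψ, ψ ≠ φ → ∀ t : F, h.compl ≠ t • 1 :=
      fun ψ h hne t ht => hne (scalar_unique hA (by omega) h hp hnev ht hs)
    set L := zspan A v ⊔ F ∙ b ⊔ F ∙ u with hL
    by_cases hLtop : L = ⊤
    swap
    · obtain ⟨x, -, hx⟩ := SetLike.exists_of_lt (lt_top_iff_ne_top.2 hLtop)
      obtain ⟨ψ, hψx, hψ⟩ := exists_dual_ext hx φ (φ x + 1)
      obtain ⟨h, h1, h2⟩ := hext ψ hψ
      exact ⟨ψ, h, h1, h2, good ψ h fun e => by rw [e, left_eq_add] at hψx; exact one_ne_zero hψx⟩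
    -- now `L = ⊤`; change the value on `u`
    have hs1 : s ≠ 1 := fun e => hS0 hp ((hbound hp).2.trans' one_le_two) (by rw [hs, e, one_smul])
    have hs0 : s ≠ 0 := by
      intro e
      have hW := hp.finrank_ker
      obtain ⟨w, hw0⟩ : ∃ w : LinearMap.ker φ, w ≠ 0 := by
        obtain ⟨w, -, hw⟩ := Submodule.exists_mem_ne_zero_of_ne_bot (p := (⊤ : Submodule F (LinearMap.ker φ)))
          (fun hb' => by
            have := congrArg (fun p : Submodule F (LinearMap.ker φ) => finrank F p) hb'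
            simp only [finrank_top, finrank_bot] at this
            omega)
        exact ⟨w, hw⟩
      have e1 := congrArg Subtype.val (LinearMap.congr_fun hs w)
      simp only [Pivot.coe_compl, e, zero_smul, LinearMap.zero_apply, Submodule.coe_zero, sub_eq_zero] at e1
      rw [← map_smul] at e1
      have e2 := congrArg φ (hA e1)
      rw [map_smul, hp.one, show φ (w : V) = 0 from w.2, smul_eq_mul, mul_one] at e2
      have e3 := hA e1
      rw [← e2, zero_smul] at e3
      exact hw0 (Subtype.ext e3)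
    have hu' : u ∉ zspan A v ⊔ F ∙ b := by
      intro hmem
      have h1 := Submodule.finrank_mono (show L ≤ zspan A v ⊔ F ∙ b from
        sup_le le_rfl ((Submodule.span_singleton_le_iff_mem _ _).2 hmem))
      rw [hLtop, finrank_top] at h1
      have := finrank_sup_span_le (zspan A v) b
      have := finrank_zspan_le (A := A) v
      omega
    obtain ⟨ψ, hψu, hψ⟩ := exists_dual_ext hu' φ (φ u * s)
    have hbm : b ∈ zspan A v ⊔ F ∙ b := Submodule.mem_sup_right (Submodule.mem_span_singleton_self b)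
    have h : Pivot A v ψ := base_eq_on hp.one (by rw [map_sub, hp.img, hp.one, sub_self])
      fun z hz => hψ z (Submodule.mem_sup_left hz)
    refine ⟨ψ, h, by rwa [hψ b hbm], by rw [hψu]; exact mul_ne_zero hφu hs0, good ψ h fun e => hs1 ?_⟩
    rw [e] at hψu
    exact mul_left_cancel₀ hφu (by rw [mul_one]; exact hψu.symm)
  refine ⟨v, ψ, hψ, hψb, hcv, hcolne hψ, hrow hψ u hu hψu, fun h5 => ⟨hns, (hbound hψ).1 h5⟩,
    fun h4 => ⟨hns, (hbound hψ).2, good_of_rank_two hψ h4 ?_⟩⟩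
  rcases Nat.lt_or_ge (finrank F (im1 A)) 4 with h | h
  · exact Or.inl ⟨by have := hbig.2; omega, hvI (by omega)⟩
  · exact Or.inr (by omega)

end CfsgLib.CharDegrees.Thompson
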