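import Cfsg.Agent.Lib.CharDegrees.Thompson.Scalar

/-!
Thompson's theorem for endomorphisms of determinant one.
-/

set_option autoImplicit false
set_option linter.unusedSectionVars false

namespace CfsgLib.CharDegrees.Thompson

open Module

universe u v

variable {F : Type u} [Field F]

/-- The choice of `s` together with the facts about it that the proof needs. -/
structure Setting (F : Type u) [Field F] (s : F) : Prop where
  hs : 2 - s ≠ 0
  base : HasBase.{u, v} F s
  cen : ∀ (k : ℕ) (V : Type v) [AddCommGroup V] [Module F V] [FiniteDimensional F V],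
    finrank F V = k + 2 → HasCentral s k V

theorem exists_lam [Fintype F] (h : 4 ≤ Fintype.card F) :
    ∃ lam mu : F, lam * mu = 1 ∧ lam ≠ mu ∧ lam ≠ 0 ∧ lam ≠ 1 ∧ 2 - (lam + mu) ≠ 0 := by
  classical
  obtain ⟨lam, -, hlam⟩ := Finset.exists_mem_notMem_of_card_lt_card (s := ({0, 1, -1} : Finset F)) (t := Finset.univ)
    (Finset.card_le_three.trans_lt (by rw [Finset.card_univ]; omega))
  simp only [Finset.mem_insert, Finset.mem_singleton, not_or] at hlam
  obtain ⟨h0, h1, hn1⟩ := hlam
  refine ⟨lam, lam⁻¹, mul_inv_cancel₀ h0, fun e => ?_, h0, h1, fun e => h1 ?_⟩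
  · have : lam * lam = 1 := by conv_lhs => arg 2; rw [e]
                               exact mul_inv_cancel₀ h0
    rcases mul_self_eq_one_iff.1 this with h | h
    exacts [h1 h, hn1 h]
  · have h2 : (lam - 1) * (lam - 1) = 0 := by
      have := congrArg (fun t => t * lam) e
      simp only [sub_mul, add_mul, zero_mul, inv_mul_cancel₀ h0] at this
      linear_combination -this
    exact sub_eq_zero.1 (mul_self_eq_zero.1 h2)

theorem exists_setting [Fintype F] : ∃ s : F, Setting.{u, v} F s := by
  have h2 : 2 ≤ Fintype.card F := Fintype.one_lt_card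
  rcases (show 4 ≤ Fintype.card F ∨ Fintype.card F = 2 ∨ Fintype.card F = 3 by omega) with h | h | h
  · obtain ⟨lam, mu, hlm, hne, h0, h1, hs⟩ := exists_lam h
    exact ⟨_, hs, hasBase_large h0 h1 hlm hne hs, fun k V _ _ _ hd => hasCentral_large hlm hne hs hd⟩
  · haveI : Fact (Nat.Prime 2) := ⟨Nat.prime_two⟩
    haveI : CharP F 2 := charP_of_card_eq_prime h
    have h20 : ((2 : ℕ) : F) = 0 := CharP.cast_eq_zero F 2
    have hs : 2 - ((1 : ℕ) : F) ≠ 0 := by
      push_cast at h20 ⊢; rw [h20, zero_sub]; exact neg_ne_zero.2 one_ne_zero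
    refine ⟨_, hs, hasBase_small h (by norm_num) ?_ hs Check.checkPivot_two Check.checkPlane_two
      Check.checkFactor_two, fun k V _ _ _ _ => hasCentral_two fun d hd => ?_⟩
    · push_cast at h20 ⊢; linear_combination h20
    · obtain ⟨n, hn, rfl⟩ := exists_rep (F := F) (p := 2) h d
      interval_cases n <;> simp_all
  · haveI : Fact (Nat.Prime 3) := ⟨Nat.prime_three⟩
    haveI : CharP F 3 := charP_of_card_eq_prime h
    have h30 : ((3 : ℕ) : F) = 0 := CharP.cast_eq_zero F 3
    have h30' : (3 : F) = 0 := by exact_mod_cast h30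
    have hs : 2 - ((0 : ℕ) : F) ≠ 0 := by
      rw [Nat.cast_zero, sub_zero]
      intro h2
      exact one_ne_zero (α := F) (by linear_combination h30' - h2)
    refine ⟨_, hs, hasBase_small h (by norm_num) (by rw [h30, Nat.cast_zero]) hs Check.checkPivot_three
      Check.checkPlane_three Check.checkFactor_three,
      fun k V _ _ _ hd => hasCentral_three h30' Nat.cast_zero (fun d hd0 => ?_) hd⟩
    obtain ⟨n, hn, rfl⟩ := exists_rep (F := F) (p := 3) h d
    interval_cases n
    · simp at hd0
    · simp
    · right; push_cast; linear_combination h30'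

variable {V : Type v} [AddCommGroup V] [Module F V] [FiniteDimensional F V]

theorem isComm_plane [Fintype F] (hq : 4 ≤ Fintype.card F) {A : Module.End F V} (hd : finrank F V = 2)
    (hdet : LinearMap.det A = 1) : IsComm A := by
  by_cases hns : ∀ t : F, A ≠ t • 1
  swap
  · simp only [ne_eq, not_forall, not_not] at hns
    obtain ⟨t, rfl⟩ := hns
    exact isComm_scalar (by omega) hdet
  obtain ⟨lam, mu, hlm, hne, -, -, hs⟩ := exists_lam hq
  obtain ⟨x, y, hA, hx, hy⟩ := allowed_of_large hlm hne hd hdet hns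
  have hpp : pp (lam + mu) 0 = q2 (lam + mu) := by rw [pp, pow_zero, one_mul]
  have mk : ∀ z : Module.End F V, Half2 (lam + mu) z → Half (lam + mu) 0 z := by
    rintro z ⟨h1, w, h2⟩
    exact ⟨by rw [hpp, h1], Or.inl rfl, w, fun g hg hgd => by rw [pow_zero, one_mul]; exact h2 g hg hgd⟩
  exact isComm_of_fac hs (by omega) (hasCentral_large hlm hne hs (by omega)) hA (mk x hx) (mk y hy)

theorem isComm_of_det_one [Fintype F] {s : F} (hS : Setting.{u, v} F s) :
    ∀ (k : ℕ) (W : Type v) [AddCommGroup W] [Module F W] [FiniteDimensional F W] (A : Module.End F W),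
      finrank F W = k + 3 → LinearMap.det A = 1 → IsComm A := by
  intro k
  induction k using Nat.strong_induction_on with
  | _ k ih =>
    intro W _ _ _ A hd hdet
    by_cases hns : ∀ t : F, A ≠ t • 1
    swap
    · simp only [ne_eq, not_forall, not_not] at hns
      obtain ⟨t, rfl⟩ := hns
      exact isComm_scalar (by omega) hdet
    have hsum := finrank_im1_add (A := A)
    have hr0 : finrank F (im1 A) ≠ 0 := fun h => hns 1 (by
      rw [Submodule.finrank_eq_zero] at h
      refine LinearMap.ext fun z => ?_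
      have := sub_mem_im1 (A := A) z
      rw [h, Submodule.mem_bot, sub_eq_zero] at this
      simpa using this)
    rcases (show finrank F (im1 A) = 1 ∨ 2 ≤ finrank F (im1 A) by omega) with hr | hr
    · exact isComm_transvection hdet (by omega) hr
    have hfac : (k = 0 ∨ 3 ≤ finrank F (im1 A)) → IsComm A := by
      intro hcase
      obtain ⟨b, hb, hgood⟩ : ∃ b : W, b ≠ 0 ∧ (k = 0 → b ∉ im1 A ∨ finrank F (im1 A) ≠ 2) := by
        by_cases hI : im1 A = ⊤
        · haveI : Nontrivial W := Module.nontrivial_of_finrank_eq_succ hd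
          obtain ⟨b, hb⟩ := exists_ne (0 : W)
          exact ⟨b, hb, fun hk => Or.inr (by rw [hI, finrank_top]; omega)⟩
        · obtain ⟨b, -, hb⟩ := SetLike.exists_of_lt (lt_top_iff_ne_top.2 hI)
          exact ⟨b, fun h => hb (h ▸ zero_mem _), fun _ => Or.inl hb⟩
      obtain ⟨z, hz⟩ : ∃ z : W, z ∉ (⊥ : Submodule F W) := ⟨b, by simpa using hb⟩
      obtain ⟨c, hc, -⟩ := exists_dual_ext hz 0 1
      have hc0 : c ≠ 0 := fun h => by simp [h] at hc
      obtain ⟨x, y, hA, hx, hy, -⟩ := fac_rec hS.hs hS.base k W A b c hd hdet hb hc0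
        (fun hk => ⟨hns, hr, fun h => (hgood hk).elim (fun hb' => hb' h.2.1) (fun h2 => h2 h.1)⟩)
        (fun hk => ⟨hns, hcase.resolve_left hk⟩)
      exact isComm_of_fac hS.hs (by omega) (hS.cen _ W (by omega)) hA hx hy
    by_cases hcase : k = 0 ∨ 3 ≤ finrank F (im1 A)
    · exact hfac hcase
    by_cases hle : ker1 A ≤ im1 A
    · have := Submodule.finrank_mono hle
      exact isComm_square_zero hS.hs (by omega) (by omega) hle
    obtain ⟨z, hz, hz'⟩ := SetLike.not_le_iff_exists.1 hle
    obtain ⟨H, A', e, hHd, hA'det, hA⟩ := exists_split hdet hz hz'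
    rw [hA]
    exact IsComm.conj e (isComm_prodMap_one (ih (k - 1) (by omega) H A' (by omega) hA'det))

end CfsgLib.CharDegrees.Thompson
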